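import Mathlib
import Cfsg.Agent.Lib.H1.Hall
import Cfsg.Agent.Lib.H1.UniqueSub
import Cfsg.Agent.Lib.H37.PBasic
import Cfsg.Agent.Lib.H24.OddPGroup
import Cfsg.Agent.Lib.H70.Basic
import Cfsg.Agent.Lib.H70.Real
import Cfsg.Agent.Lib.H70.SylowSub
import Cfsg.Prelude.Def_Transfer
import Cfsg.Prelude.Def_Local

/-!
Finite groups in which `p`-subgroups of the same order are conjugate.
-/

set_option autoImplicit false
open Subgroup Cfsg
open scoped commutatorElement Pointwise

namespace H70.ConjP

variable {G : Type*} [Group G] {p : ℕ}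

/-- `p`-subgroups of equal order are conjugate -/
def CP (p : ℕ) (G : Type*) [Group G] : Prop :=
  ∀ H K : Subgroup G, IsPGroup p H → IsPGroup p K → Nat.card H = Nat.card K →
      ∃ g : G, K = H.map (MulAut.conj g).toMonoidHom

/-- subgroups of the same order of a `p`-subgroup are isomorphic -/
theorem CP.iso (h : CP p G) {P : Subgroup G} (hP : IsPGroup p P) (H K : Subgroup P)
    (hHK : Nat.card H = Nat.card K) : Nonempty (H ≃* K) := by
  obtain ⟨g, hg⟩ := h (H.map P.subtype) (K.map P.subtype) ((hP.to_subgroup H).map _)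
    ((hP.to_subgroup K).map _) (by
      rw [Subgroup.card_map_of_injective P.subtype_injective,
        Subgroup.card_map_of_injective P.subtype_injective, hHK])
  have e1 : H ≃* H.map P.subtype := H.equivMapOfInjective _ P.subtype_injective
  have e2 : K ≃* K.map P.subtype := K.equivMapOfInjective _ P.subtype_injective
  have e3 : H.map P.subtype ≃* (H.map P.subtype).map (MulAut.conj g).toMonoidHom :=
    (H.map P.subtype).equivMapOfInjective _ (MulAut.conj g).injective
  rw [← hg] at e3
  exact ⟨e1.trans (e3.trans e2.symm)⟩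

/-- if a `p`-group has all subgroups of equal order isomorphic and an element of order `p ^ 2`, then it
has a unique subgroup of order `p`. -/
theorem unique_of_orderOf_sq {P : Type*} [Group P] [Finite P] [hp : Fact p.Prime]
    (hP : IsPGroup p P)
    (hiso : ∀ H K : Subgroup P, Nat.card H = Nat.card K → Nonempty (H ≃* K)) (x : P)
    (hx : orderOf x = p ^ 2) : ∀ H K : Subgroup P, Nat.card H = p → Nat.card K = p → H = K := by
  have hnt : Nontrivial P := by
    refine ⟨x, 1, ?_⟩
    rintro rfl
    rw [orderOf_one] at hx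
    have := hp.out.one_lt
    nlinarith
  -- a central subgroup of order `p`
  obtain ⟨z, hzc, hz⟩ : ∃ z : P, z ∈ center P ∧ orderOf z = p := by
    have h1 := hP.center_nontrivial
    have h2 : p ∣ Nat.card (center P) := by
      obtain ⟨n, hn⟩ := IsPGroup.iff_card.mp (hP.to_subgroup (center P))
      rw [hn]
      rcases Nat.eq_zero_or_pos n with h | h
      · rw [h, pow_zero] at hn
        have := Finite.one_lt_card (α := center P)
        omega
      · exact dvd_pow_self p h.ne'
    obtain ⟨w, hw⟩ := exists_prime_orderOf_dvd_card' p h2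
    exact ⟨w, w.2, by rw [Subgroup.orderOf_coe, hw]⟩
  suffices key : ∀ H : Subgroup P, Nat.card H = p → H = zpowers z by
    intro H K hH hK
    rw [key H hH, key K hK]
  intro H hH
  by_contra hne
  have hZcard : Nat.card (zpowers z) = p := by rw [Nat.card_zpowers, hz]
  have hZn : (zpowers z).Normal := by
    constructor
    intro n hn g
    have : n ∈ center P := (zpowers_le.mpr hzc) hn
    rw [mem_center_iff.mp this g]; simpa using hn
  have hinf : H ⊓ zpowers z = ⊥ := by
    by_contra hb
    have h1 : Nat.card (H ⊓ zpowers z : Subgroup P) ∣ p := by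
      rw [← hH]; exact Subgroup.card_dvd_of_le inf_le_left
    rcases (Nat.dvd_prime hp.out).mp h1 with h2 | h2
    · exact hb (Subgroup.card_eq_one.mp h2)
    · apply hne
      have h3 : H ⊓ zpowers z = H := Subgroup.eq_of_le_of_card_ge inf_le_left (by rw [h2, hH])
      have h4 : H ⊓ zpowers z = zpowers z :=
        Subgroup.eq_of_le_of_card_ge inf_le_right (by rw [h2, hZcard])
      rw [← h3, h4]
  have hcard : Nat.card (H ⊔ zpowers z : Subgroup P) = p ^ 2 := by
    rw [H1.Hall.card_sup_of_disjoint_normal hinf, hH, hZcard, sq]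
  obtain ⟨e⟩ := hiso (zpowers x) (H ⊔ zpowers z) (by rw [hcard, Nat.card_zpowers, hx])
  -- every element of `H ⊔ ⟨z⟩` has order dividing `p`
  have hexp : ∀ y ∈ H ⊔ zpowers z, y ^ p = 1 := by
    intro y hy
    have h1 : y ∈ (H : Set P) * (zpowers z : Set P) := by rw [← Subgroup.mul_normal]; exact hy
    obtain ⟨h, hh, w, hw, rfl⟩ := Set.mem_mul.mp h1
    have hwc : w ∈ center P := (zpowers_le.mpr hzc) hw
    have hcomm : Commute h w := mem_center_iff.mp hwc h
    rw [hcomm.mul_pow]
    have h2 : h ^ p = 1 := by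
      have := pow_card_eq_one' (G := H) (x := ⟨h, hh⟩)
      rw [hH] at this
      exact congrArg Subtype.val this
    have h3 : w ^ p = 1 := by
      have := pow_card_eq_one' (G := zpowers z) (x := ⟨w, hw⟩)
      rw [hZcard] at this
      exact congrArg Subtype.val this
    rw [h2, h3, one_mul]
  have h1 := hexp _ (e ⟨x, mem_zpowers x⟩).2
  have h2 : (e ⟨x, mem_zpowers x⟩) ^ p = 1 := Subtype.ext (by simpa using h1)
  rw [← map_pow, MulEquiv.map_eq_one_iff] at h2
  have h3 : x ^ p = 1 := congrArg Subtype.val h2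
  have h4 := orderOf_dvd_of_pow_eq_one h3
  rw [hx] at h4
  have := Nat.le_of_dvd hp.out.pos h4
  have := hp.out.one_lt
  nlinarith

/-- a `p`-group without elements of order `p ^ 2` has exponent `p` -/
theorem pow_eq_one_of_no_sq {P : Type*} [Group P] [Finite P] [hp : Fact p.Prime]
    (hP : IsPGroup p P) (h : ∀ x : P, orderOf x ≠ p ^ 2) (x : P) : x ^ p = 1 := by
  obtain ⟨k, hk⟩ := IsPGroup.iff_orderOf.mp hP x
  by_cases hk2 : k ≤ 1
  · have : orderOf x ∣ p := by
      rw [hk]
      calc p ^ k ∣ p ^ 1 := pow_dvd_pow p hk2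
        _ = p := pow_one p
    exact orderOf_dvd_iff_pow_eq_one.mp this
  · exfalso
    apply h (x ^ p ^ (k - 2))
    rw [orderOf_pow_of_dvd (pow_ne_zero _ hp.out.ne_zero)
      (by rw [hk]; exact pow_dvd_pow p (by omega)), hk, Nat.pow_div (by omega) hp.out.pos]
    congr 1; omega

end H70.ConjP
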