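import Mathlib
import Cfsg.Agent.Lib.H70.ConjP
import Cfsg.Agent.Lib.H37.PSolv
import Cfsg.Agent.Lib.H70.PiSep

set_option autoImplicit false
open Subgroup Cfsg H1.Cores
open scoped commutatorElement Pointwise

namespace H70.ConjP

variable {G : Type*} [Group G] {p : ℕ}

/-- lifting a `p`-subgroup through a normal `p'`-subgroup -/
theorem exists_lift [Finite G] [hp : Fact p.Prime] {V : Subgroup G} [V.Normal]
    (hV : (Nat.card V).Coprime p) (X : Subgroup (G ⧸ V)) (hX : IsPGroup p X) :
    ∃ Y : Subgroup G, IsPGroup p Y ∧ Y.map (QuotientGroup.mk' V) = X ∧ Nat.card Y = Nat.card X := by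
  obtain ⟨P', hP'⟩ := hX.exists_le_sylow
  obtain ⟨P, rfl⟩ := Sylow.mapSurjective_surjective (QuotientGroup.mk'_surjective V) p P'
  refine ⟨(P : Subgroup G) ⊓ X.comap (QuotientGroup.mk' V), P.isPGroup'.to_le inf_le_left, ?_, ?_⟩
  · ext x
    constructor
    · rintro ⟨y, hy, rfl⟩
      exact (Subgroup.mem_inf.mp hy).2
    · intro hx
      obtain ⟨y, hy, rfl⟩ := hP' hx
      exact ⟨y, Subgroup.mem_inf.mpr ⟨hy, hx⟩, rfl⟩
  · have hmap : ((P : Subgroup G) ⊓ X.comap (QuotientGroup.mk' V)).map (QuotientGroup.mk' V) = X := by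
      ext x
      constructor
      · rintro ⟨y, hy, rfl⟩
        exact (Subgroup.mem_inf.mp hy).2
      · intro hx
        obtain ⟨y, hy, rfl⟩ := hP' hx
        exact ⟨y, Subgroup.mem_inf.mpr ⟨hy, hx⟩, rfl⟩
    conv_rhs => rw [← hmap]
    set Y := (P : Subgroup G) ⊓ X.comap (QuotientGroup.mk' V) with hY
    have hYp : IsPGroup p Y := P.isPGroup'.to_le inf_le_left
    have hYV : Y ⊓ V = ⊥ := disjoint_of_isPGroup hYp hV
    have hinj : Function.Injective ((QuotientGroup.mk' V).domRestrict Y) := by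
      rw [← MonoidHom.ker_eq_bot_iff, eq_bot_iff]
      rintro ⟨y, hy⟩ hy'
      rw [MonoidHom.mem_ker, MonoidHom.domRestrict_apply, ← MonoidHom.mem_ker, QuotientGroup.ker_mk'] at hy'
      have : y ∈ Y ⊓ V := Subgroup.mem_inf.mpr ⟨hy, hy'⟩
      rw [hYV, mem_bot] at this
      rw [mem_bot]; exact Subtype.ext this
    have h1 := Nat.card_congr (Equiv.ofInjective _ hinj)
    rw [h1]
    have h2 : ((QuotientGroup.mk' V).domRestrict Y).range = Y.map (QuotientGroup.mk' V) := by
      rw [MonoidHom.domRestrict_range]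
    rw [← h2]; rfl

theorem CP.quotient [Finite G] [hp : Fact p.Prime] (h : CP p G) {V : Subgroup G} [V.Normal]
    (hV : (Nat.card V).Coprime p) : CP p (G ⧸ V) := by
  intro H K hH hK hcard
  obtain ⟨H', hH', rfl, hH''⟩ := exists_lift hV H hH
  obtain ⟨K', hK', rfl, hK''⟩ := exists_lift hV K hK
  obtain ⟨g, hg⟩ := h H' K' hH' hK' (by rw [hH'', hK'', hcard])
  refine ⟨QuotientGroup.mk' V g, ?_⟩
  rw [hg, Subgroup.map_map, Subgroup.map_map]
  congr 1

/-- an element of `p`-power order in `H ⊔ V` with `V` a normal `p'`-subgroup, `H` normal, lies in `H` -/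
theorem mem_of_mem_sup [Finite G] [hp : Fact p.Prime] {H V : Subgroup G} [H.Normal] [V.Normal]
    (hV : (Nat.card V).Coprime p) {x : G} (hx : x ∈ H ⊔ V) {k : ℕ} (hk : orderOf x = p ^ k) : x ∈ H := by
  have hx' : x ∈ (H : Set G) * (V : Set G) := by rw [← Subgroup.mul_normal]; exact hx
  obtain ⟨y, hy, v, hv, rfl⟩ := Set.mem_mul.mp hx'
  rw [← QuotientGroup.eq_one_iff (N := H)]
  have h1 : ((y * v : G) : G ⧸ H) = (v : G ⧸ H) := by
    rw [QuotientGroup.mk_mul, (QuotientGroup.eq_one_iff y).mpr hy, one_mul]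
  have h2 : orderOf ((y * v : G) : G ⧸ H) ∣ p ^ k := by
    rw [← hk]; exact orderOf_map_dvd (QuotientGroup.mk' H) _
  have h3 : orderOf ((y * v : G) : G ⧸ H) ∣ Nat.card V := by
    rw [h1]
    refine (orderOf_map_dvd (QuotientGroup.mk' H) v).trans ?_
    exact (Subgroup.orderOf_mk v hv) ▸ orderOf_dvd_natCard (⟨v, hv⟩ : V)
  have h4 : (Nat.card V).Coprime (p ^ k) := hV.pow_right k
  exact orderOf_eq_one_iff.mp (Nat.eq_one_of_dvd_coprimes h4 h3 h2)

/-- if `CP` holds, a normal subgroup with a nontrivial `p`-element contains all elements of order `p` -/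
theorem CP.mem_normal [Finite G] [hp : Fact p.Prime] (h : CP p G) (N : Subgroup G) [N.Normal] (hN : p ∣ Nat.card N)
    {x : G} (hx : x ^ p = 1) : x ∈ N := by
  by_cases hx1 : x = 1
  · rw [hx1]; exact one_mem _
  obtain ⟨z, hz⟩ := exists_prime_orderOf_dvd_card' p hN
  have hxo : orderOf x = p := orderOf_eq_prime hx hx1
  have hz' : orderOf (z : G) = p := by rw [Subgroup.orderOf_coe, hz]
  have hpz : ∀ y : G, orderOf y = p → IsPGroup p (zpowers y) := by
    intro y hy
    exact IsPGroup.of_card (n := 1) (by rw [Nat.card_zpowers, hy, pow_one])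
  obtain ⟨g, hg⟩ := h (zpowers (z : G)) (zpowers x) (hpz _ hz') (hpz _ hxo)
    (by rw [Nat.card_zpowers, Nat.card_zpowers, hxo, hz'])
  have h1 : x ∈ (zpowers (z : G)).map (MulAut.conj g).toMonoidHom := by rw [← hg]; exact mem_zpowers x
  obtain ⟨w, hw, rfl⟩ := h1
  have hwN : w ∈ N := (zpowers_le.mpr z.2) hw
  exact Subgroup.Normal.conj_mem inferInstance w hwN g

theorem isPSolvable_of_equiv {A B : Type*} [Group A] [Group B] [Finite A] [hp : Fact p.Prime] (e : A ≃* B)
    (h : IsPSolvable p A) : IsPSolvable p B := by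
  obtain ⟨n, H, h0, hl, hm, hn, hf⟩ := h
  refine ⟨n, fun i => (H i).map e.toMonoidHom, ?_, ?_, ?_, ?_, ?_⟩
  · show (H 0).map _ = ⊥
    rw [h0]; exact Subgroup.map_bot _
  · show (H (Fin.last n)).map _ = ⊤
    rw [hl, ← MonoidHom.range_eq_map]; exact MonoidHom.range_eq_top.mpr e.surjective
  · intro i j hij; exact Subgroup.map_mono (hm hij)
  · intro i; haveI := hn i; exact Subgroup.Normal.map inferInstance _ e.surjective
  · intro i
    have h1 : ((H i.castSucc).map e.toMonoidHom).relIndex ((H i.succ).map e.toMonoidHom) =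
        (H i.castSucc).relIndex (H i.succ) := by
      rw [Subgroup.relIndex_map_map_of_injective _ _ e.injective]
    show (∃ m : ℕ, ((H i.castSucc).map e.toMonoidHom).relIndex ((H i.succ).map e.toMonoidHom) = p ^ m) ∨ _
    rw [h1]
    exact hf i

theorem CP.main4024 [Finite G] [hp : Fact p.Prime] (hp2 : p ≠ 2) (h : CP p G) (P : Sylow p G)
    (H : Subgroup G) [H.Normal] (hsolv : IsPSolvable p H) (hdiv : p ∣ Nat.card H) :
    IsMulCommutative P ∧ ((P : Subgroup G) ≤ H ∨ IsCyclic P) := by
  have hPp : IsPGroup p (P : Subgroup G) := P.isPGroup'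
  by_cases hsq : ∃ x : P, orderOf x = p ^ 2
  · obtain ⟨x, hx⟩ := hsq
    have hu := unique_of_orderOf_sq hPp (fun H K hHK => h.iso hPp H K hHK) x hx
    rcases H1.UniqueSub.cyclic_or_quaternion p hPp hu with hc | ⟨h2, -⟩
    · refine ⟨?_, Or.inr hc⟩
      have := hc
      obtain ⟨g, hg⟩ := hc.exists_generator
      rw [isMulCommutative_iff]
      intro a b
      obtain ⟨m, rfl⟩ := mem_zpowers_iff.mp (hg a)
      obtain ⟨n, rfl⟩ := mem_zpowers_iff.mp (hg b)
      rw [← zpow_add, ← zpow_add, add_comm]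
    · exact absurd h2 hp2
  · push Not at hsq
    have hexp : ∀ x ∈ (P : Subgroup G), x ^ p = 1 := by
      intro x hx
      have := pow_eq_one_of_no_sq hPp hsq ⟨x, hx⟩
      exact congrArg Subtype.val this
    set V := pPrimeCore p G with hVdef
    have hV : (Nat.card V).Coprime p := coprime_card_pPrimeCore p
    haveI : V.Characteristic := pPrimeCore_characteristic p
    haveI hVn : V.Normal := inferInstance
    set f := QuotientGroup.mk' V with hf
    have hfs : Function.Surjective f := QuotientGroup.mk'_surjective V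
    have hQ : CP p (G ⧸ V) := h.quotient hV
    -- the image of `H`
    set H' := H.map f with hH'
    haveI : H'.Normal := Subgroup.Normal.map inferInstance _ hfs
    have hH'dvd : p ∣ Nat.card H' := by
      by_contra hcon
      have h1 : Nat.card (H ⊔ V : Subgroup G) = Nat.card V * Nat.card H' := by
        rw [← card_comap_mk', ← hf, hH', QuotientGroup.comap_map_mk', sup_comm]
      have h2 : p ∣ Nat.card V * Nat.card H' := by
        rw [← h1]; exact hdiv.trans (Subgroup.card_dvd_of_le le_sup_left)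
      rcases hp.out.dvd_mul.mp h2 with h3 | h3
      · exact hp.out.one_lt.ne' (Nat.eq_one_of_dvd_coprimes hV h3 dvd_rfl)
      · exact hcon h3
    haveI : Nontrivial H' := by
      rw [← Finite.one_lt_card_iff_nontrivial]
      have := Nat.le_of_dvd Nat.card_pos hH'dvd
      have := hp.out.one_lt
      omega
    have hsolv' : IsPSolvable p H' := by
      have e := QuotientGroup.quotientKerEquivRange (f.domRestrict H)
      have h1 := H37.PSolv.quotient hsolv (f.domRestrict H).ker
      have h2 : (f.domRestrict H).range = H' := by rw [MonoidHom.domRestrict_range]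
      rw [h2] at e
      exact isPSolvable_of_equiv e h1
    have hcore : pPrimeCore p H' = ⊥ := by
      have h1 := map_subtype_pPrimeCore p H'
      rw [pPrimeCore_quotient_pPrimeCore, inf_bot_eq, Subgroup.map_eq_bot_iff_of_injective _ H'.subtype_injective] at h1
      exact h1
    have hpc : pCore p H' ≠ ⊥ := by
      rcases H37.PSolv.core_ne_bot hsolv' with h1 | h1
      · exact h1
      · exact absurd hcore h1
    -- the normal `p`-subgroup `R`
    set R := pCore p (G ⧸ V) with hR
    have hRne : H' ⊓ R ≠ ⊥ := by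
      rw [hR, ← map_subtype_pCore, Ne, Subgroup.map_eq_bot_iff_of_injective _ H'.subtype_injective]
      exact hpc
    have hRp : IsPGroup p (H' ⊓ R : Subgroup (G ⧸ V)) := (isPGroup_pCore p).to_le inf_le_right
    have hRd : ∀ K : Subgroup (G ⧸ V), IsPGroup p K → K ≠ ⊥ → p ∣ Nat.card K := by
      intro K hK hK1
      obtain ⟨n, hn⟩ := IsPGroup.iff_card.mp hK
      rw [hn]
      apply dvd_pow_self
      rintro rfl
      apply hK1
      rw [← Subgroup.card_eq_one, hn, pow_zero]
    haveI : (H' ⊓ R).Normal := inferInstance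
    have hPle : (P : Subgroup G).map f ≤ H' ⊓ R := by
      rintro _ ⟨x, hx, rfl⟩
      exact hQ.mem_normal (H' ⊓ R) (hRd _ hRp hRne) (by rw [← map_pow, hexp x hx, map_one])
    refine ⟨?_, Or.inl ?_⟩
    · -- `P` maps onto a normal subgroup whose center contains all elements of order `p`
      obtain ⟨T, hT⟩ := hRp.exists_le_sylow
      have hPT : ((P.mapSurjective hfs : Sylow p (G ⧸ V)) : Subgroup (G ⧸ V)) = H' ⊓ R := by
        apply le_antisymm
        · exact hPle
        · exact hRp.le_sylow_of_normal _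
      have hPT' : (P : Subgroup G).map f = H' ⊓ R := hPT
      have hcn : ((center (H' ⊓ R : Subgroup (G ⧸ V))).map (H' ⊓ R).subtype).Normal := inferInstance
      haveI : Nontrivial (H' ⊓ R : Subgroup (G ⧸ V)) := (Subgroup.nontrivial_iff_ne_bot _).mpr hRne
      have hcd : p ∣ Nat.card ((center (H' ⊓ R : Subgroup (G ⧸ V))).map (H' ⊓ R).subtype) := by
        apply hRd _ ((hRp.to_subgroup _).map _)
        rw [Ne, Subgroup.map_eq_bot_iff_of_injective _ (H' ⊓ R).subtype_injective]
        exact (Subgroup.nontrivial_iff_ne_bot _).mp hRp.center_nontrivial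
      rw [isMulCommutative_iff]
      intro a b
      have ha := hQ.mem_normal _ hcd (x := f a) (by rw [← map_pow, hexp a a.2, map_one])
      obtain ⟨z, hz, hza⟩ := ha
      have hb : f b ∈ H' ⊓ R := hPle (mem_map_of_mem f b.2)
      have hcomm : f a * f b = f b * f a := by
        have := mem_center_iff.mp hz ⟨f b, hb⟩
        have h2 := congrArg Subtype.val this
        rw [← hza]
        exact h2.symm
      -- `P ⊓ V = ⊥`
      have hPV : (P : Subgroup G) ⊓ V = ⊥ := disjoint_of_isPGroup hPp hV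
      have h3 : ((a : G) * b) * ((b : G) * a)⁻¹ ∈ (P : Subgroup G) ⊓ V := by
        refine Subgroup.mem_inf.mpr ⟨mul_mem (mul_mem a.2 b.2) (inv_mem (mul_mem b.2 a.2)), ?_⟩
        rw [← QuotientGroup.ker_mk' V, MonoidHom.mem_ker, ← hf, map_mul, map_inv, map_mul, map_mul, hcomm,
          mul_inv_cancel]
      rw [hPV, mem_bot, mul_inv_eq_one] at h3
      exact Subtype.ext h3
    · intro x hx
      have h1 : f x ∈ H' := (hPle (mem_map_of_mem f hx)) |>.1
      have h2 : x ∈ H ⊔ V := by
        rw [sup_comm, ← QuotientGroup.comap_map_mk' V H]; exact h1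
      obtain ⟨k, hk⟩ := IsPGroup.iff_orderOf.mp hPp ⟨x, hx⟩
      rw [Subgroup.orderOf_mk] at hk
      exact mem_of_mem_sup hV h2 hk

end H70.ConjP
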