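import Mathlib
import Cfsg.Agent.Lib.H70.ConjP2

set_option autoImplicit false
open Subgroup Cfsg H1.Cores
open scoped commutatorElement Pointwise

namespace H70.ConjP

variable {G : Type*} [Group G] {p : ℕ}

/-- generalized quaternion groups of order at least `16` have nonisomorphic subgroups of order `8` -/
theorem quat_no_iso (n : ℕ) (hn : 2 ≤ n)
    (hiso : ∀ H K : Subgroup (QuaternionGroup (2 ^ n)), Nat.card H = Nat.card K → Nonempty (H ≃* K)) : False := by
  haveI : NeZero (2 ^ n) := ⟨by positivity⟩
  -- the order of `xa 0` and `a 1`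
  have hcard : Nat.card (QuaternionGroup (2 ^ n)) = 4 * 2 ^ n := by
    rw [Nat.card_eq_fintype_card, QuaternionGroup.card]
  set u : QuaternionGroup (2 ^ n) := QuaternionGroup.xa 0 with hu
  have hu4 : orderOf u = 4 := QuaternionGroup.orderOf_xa 0
  have hucard : Nat.card (zpowers u) = 2 ^ 2 := by rw [Nat.card_zpowers, hu4]; norm_num
  haveI : Fact (Nat.Prime 2) := ⟨Nat.prime_two⟩
  have hdvd : 2 ^ (2 + 1) ∣ Nat.card (QuaternionGroup (2 ^ n)) := by
    rw [hcard]
    obtain ⟨m, rfl⟩ : ∃ m, n = m + 1 := ⟨n - 1, by omega⟩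
    exact ⟨2 ^ m, by ring⟩
  obtain ⟨K, hK, huK⟩ := Sylow.exists_subgroup_card_pow_succ hdvd hucard
  -- a cyclic subgroup of order 8
  obtain ⟨m, rfl⟩ : ∃ m, n = m + 2 := ⟨n - 2, by omega⟩
  set v : QuaternionGroup (2 ^ (m + 2)) := (QuaternionGroup.a 1) ^ (2 ^ m) with hv
  have hvo : orderOf v = 8 := by
    have h1 : orderOf (QuaternionGroup.a 1 : QuaternionGroup (2 ^ (m + 2))) = 2 * 2 ^ (m + 2) :=
      QuaternionGroup.orderOf_a_one
    rw [hv, orderOf_pow_of_dvd (by positivity) (by rw [h1]; exact ⟨8, by ring⟩), h1]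
    rw [show 2 * 2 ^ (m + 2) = 8 * 2 ^ m by ring]
    exact Nat.mul_div_cancel _ (by positivity)
  obtain ⟨e⟩ := hiso (zpowers v) K (by rw [Nat.card_zpowers, hvo, hK]; norm_num)
  have hcomm : ∀ a b : K, a * b = b * a := by
    intro a b
    apply e.symm.injective
    rw [map_mul, map_mul]
    exact mul_comm' _ _
  -- the centralizer of `u` has at most four elements
  have hsub : (K : Set (QuaternionGroup (2 ^ (m + 2)))) ⊆
      {QuaternionGroup.a 0, QuaternionGroup.a (2 ^ (m + 2) : ℕ), QuaternionGroup.xa 0,
        QuaternionGroup.xa (2 ^ (m + 2) : ℕ)} := by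
    intro w hw
    have hcw : w * u = u * w := congrArg Subtype.val (hcomm ⟨w, hw⟩ ⟨u, huK (mem_zpowers u)⟩)
    have hhalf : ∀ i : ZMod (2 * 2 ^ (m + 2)), i + i = 0 → i = 0 ∨ i = ((2 ^ (m + 2) : ℕ) : ZMod (2 * 2 ^ (m + 2))) := by
      intro i hi
      haveI : NeZero (2 * 2 ^ (m + 2)) := ⟨by positivity⟩
      have h1 : ((2 * i.val : ℕ) : ZMod (2 * 2 ^ (m + 2))) = 0 := by
        push_cast
        rw [ZMod.natCast_zmod_val]
        linear_combination hi
      rw [ZMod.natCast_eq_zero_iff] at h1
      have h2 : 2 ^ (m + 2) ∣ i.val := Nat.dvd_of_mul_dvd_mul_left (by norm_num) h1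
      obtain ⟨k, hk⟩ := h2
      have h3 := ZMod.val_lt i
      have h4 : k < 2 := by
        by_contra hcon
        have : 2 ^ (m + 2) * 2 ≤ 2 ^ (m + 2) * k := Nat.mul_le_mul_left _ (by omega)
        omega
      interval_cases k
      · left
        rw [← ZMod.natCast_zmod_val i, hk]; simp
      · right
        rw [← ZMod.natCast_zmod_val i, hk]; simp
    rcases w with i | i
    · rw [hu, QuaternionGroup.a_mul_xa, QuaternionGroup.xa_mul_a] at hcw
      have h1 : (0 : ZMod (2 * 2 ^ (m + 2))) - i = 0 + i := QuaternionGroup.xa.inj hcw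
      have h2 : i + i = 0 := by
        have := congrArg (· + i) h1
        simpa using this.symm
      rcases hhalf i h2 with h | h <;> simp [h]
    · rw [hu, QuaternionGroup.xa_mul_xa, QuaternionGroup.xa_mul_xa] at hcw
      have h1 := QuaternionGroup.a.inj hcw
      have h2 : i + i = 0 := by
        have := congrArg (· + i - ((2 ^ (m + 2) : ℕ) : ZMod (2 * 2 ^ (m + 2)))) h1
        simp at this
        linear_combination -this
      rcases hhalf i h2 with h | h <;> simp [h]
  have h1 := Set.ncard_le_ncard hsub (Set.toFinite _)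
  have h2 : (K : Set (QuaternionGroup (2 ^ (m + 2)))).ncard = 8 := by
    rw [← Nat.card_coe_set_eq]
    exact hK.trans (by norm_num)
  have h3 : ({QuaternionGroup.a 0, QuaternionGroup.a (2 ^ (m + 2) : ℕ), QuaternionGroup.xa 0,
        QuaternionGroup.xa (2 ^ (m + 2) : ℕ)} : Set (QuaternionGroup (2 ^ (m + 2)))).ncard ≤ 4 := by
    refine (Set.ncard_insert_le _ _).trans ?_
    refine (Nat.add_le_add_right (Set.ncard_insert_le _ _) 1).trans ?_
    refine (Nat.add_le_add_right (Nat.add_le_add_right (Set.ncard_insert_le _ _) 1) 1).trans ?_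
    rw [Set.ncard_singleton]
  omega

/-- In a `p`-group of exponent `p` and order at least `p ^ 4`, `p` odd, there is an abelian subgroup of order `p ^ 3` -/
theorem exists_abelian_cube {P : Type*} [Group P] [Finite P] [hp : Fact p.Prime] (hp2 : p ≠ 2)
    (hP : IsPGroup p P) (hexp : ∀ x : P, x ^ p = 1) {n : ℕ} (hn : Nat.card P = p ^ n) (hn4 : 4 ≤ n) :
    ∃ S : Subgroup P, Nat.card S = p ^ 3 ∧ ∀ a ∈ S, ∀ b ∈ S, a * b = b * a := by
  have hnc : ¬ IsCyclic P := by
    intro hc
    obtain ⟨g, hg⟩ := hc.exists_generator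
    have h1 := orderOf_eq_card_of_forall_mem_zpowers hg
    have h2 : orderOf g ∣ p := orderOf_dvd_of_pow_eq_one (hexp g)
    rw [h1, hn] at h2
    have h3 := Nat.le_of_dvd hp.out.pos h2
    have h4 : p ^ 1 < p ^ n := Nat.pow_lt_pow_right hp.out.one_lt (by omega)
    rw [pow_one] at h4
    omega
  obtain ⟨z, A, hzc, hz, hAn, hA, hAexp, hzA, hcomm⟩ :=
    H24.OddPGroup.exists_center_normal_elementary_sq hp2 hP hnc
  have hZcard : Nat.card (zpowers z) = p := by rw [Nat.card_zpowers, hz]
  obtain ⟨a, haA, haz⟩ : ∃ a ∈ A, a ∉ zpowers z := by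
    by_contra hcon
    push Not at hcon
    have h1 := Subgroup.card_le_of_le (show A ≤ zpowers z from hcon)
    rw [hA, hZcard] at h1
    have := hp.out.one_lt
    nlinarith
  -- index of the centralizer
  set C := centralizer ({a} : Set P) with hC
  have hidx : C.index ≤ p := by
    have h1 : Function.Injective (fun q : P ⧸ C => Quotient.liftOn' q
        (fun g : P => (⟨g * a * g⁻¹ * a⁻¹, hcomm a haA g⟩ : zpowers z)) (by
          intro g h hgh
          have h2 : g⁻¹ * h ∈ C := QuotientGroup.leftRel_apply.mp hgh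
          rw [hC, mem_centralizer_singleton_iff] at h2
          apply Subtype.ext
          show g * a * g⁻¹ * a⁻¹ = h * a * h⁻¹ * a⁻¹
          have h3 : g * a * g⁻¹ = h * a * h⁻¹ := by
            have : h * a = g * a * g⁻¹ * h := by
              have := congrArg (g * ·) h2
              simpa [mul_assoc] using this
            rw [this]; group
          rw [h3])) := by
      intro q r
      induction q using QuotientGroup.induction_on with
      | H g =>
        induction r using QuotientGroup.induction_on with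
        | H h =>
          intro hgh
          have h1 : g * a * g⁻¹ * a⁻¹ = h * a * h⁻¹ * a⁻¹ := congrArg Subtype.val hgh
          have h2 : g * a * g⁻¹ = h * a * h⁻¹ := mul_right_cancel h1
          apply QuotientGroup.eq.mpr
          rw [hC, mem_centralizer_singleton_iff]
          calc g⁻¹ * h * a = g⁻¹ * (h * a * h⁻¹) * h := by group
            _ = g⁻¹ * (g * a * g⁻¹) * h := by rw [h2]
            _ = a * (g⁻¹ * h) := by group
    have h2 := Nat.card_le_card_of_injective _ h1
    rw [hZcard] at h2
    exact h2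
  have hCcard : p ^ 3 ≤ Nat.card C := by
    have h1 := C.card_mul_index
    rw [hn] at h1
    by_contra hcon
    push Not at hcon
    have h2 : p ^ 4 ≤ p ^ n := Nat.pow_le_pow_right hp.out.pos hn4
    have h3 : Nat.card C * C.index ≤ Nat.card C * p := Nat.mul_le_mul_left _ hidx
    have h4 : Nat.card C * p < p ^ 3 * p := Nat.mul_lt_mul_of_pos_right hcon hp.out.pos
    rw [← pow_succ, show 3 + 1 = 4 from rfl] at h4
    omega
  obtain ⟨x, hxC, hxA⟩ : ∃ x ∈ C, x ∉ A := by
    by_contra hcon
    push Not at hcon
    have h1 := Subgroup.card_le_of_le (show C ≤ A from hcon)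
    rw [hA] at h1
    have h2 : p ^ 2 < p ^ 3 := Nat.pow_lt_pow_right hp.out.one_lt (by omega)
    omega
  have hAcomm : IsMulCommutative A := IsPGroup.isMulCommutative_of_card_eq_prime_sq hA
  have hAcomm' : ∀ s ∈ A, ∀ t ∈ A, s * t = t * s := fun s hs t ht =>
    setLike_mul_comm (s := A) hs ht
  -- `x` centralizes `A`
  have hxcA : ∀ s ∈ A, s * x = x * s := by
    have h1 : A ≤ centralizer ({x} : Set P) := by
      have h2 : zpowers z ⊔ zpowers a ≤ A ⊓ centralizer ({x} : Set P) := by
        rw [sup_le_iff, zpowers_le, zpowers_le]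
        refine ⟨Subgroup.mem_inf.mpr ⟨hzA (mem_zpowers z), ?_⟩, Subgroup.mem_inf.mpr ⟨haA, ?_⟩⟩
        · rw [mem_centralizer_singleton_iff]
          exact (mem_center_iff.mp hzc x).symm
        · rw [mem_centralizer_singleton_iff]
          rw [hC, mem_centralizer_singleton_iff] at hxC
          exact hxC.symm
      have h3 : A ⊓ centralizer ({x} : Set P) = A := by
        apply Subgroup.eq_of_le_of_card_ge inf_le_left
        have h4 : zpowers z < zpowers z ⊔ zpowers a := by
          refine lt_of_le_of_ne le_sup_left ?_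
          intro h
          apply haz
          rw [h]
          exact (le_sup_right : zpowers a ≤ _) (mem_zpowers a)
        have h5 : Nat.card (zpowers z ⊔ zpowers a : Subgroup P) ∣ p ^ 2 := by
          rw [← hA]; exact Subgroup.card_dvd_of_le (h2.trans inf_le_left)
        obtain ⟨k, hk, hk'⟩ := (Nat.dvd_prime_pow hp.out).mp h5
        have h6 : p < Nat.card (zpowers z ⊔ zpowers a : Subgroup P) := by
          rw [← hZcard]
          by_contra hcon
          push Not at hcon
          exact h4.ne (Subgroup.eq_of_le_of_card_ge h4.le hcon)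
        have h7 : k = 2 := by
          rcases (show k = 0 ∨ k = 1 ∨ k = 2 by omega) with h | h | h
          · rw [hk', h, pow_zero] at h6; have := hp.out.one_lt; omega
          · rw [hk', h, pow_one] at h6; omega
          · exact h
        rw [hA]
        calc p ^ 2 = Nat.card (zpowers z ⊔ zpowers a : Subgroup P) := by rw [hk', h7]
          _ ≤ _ := Subgroup.card_le_of_le h2
      exact inf_eq_left.mp h3
    intro s hs
    exact mem_centralizer_singleton_iff.mp (h1 hs)
  -- the subgroup
  refine ⟨A ⊔ zpowers x, ?_, ?_⟩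
  · have hxc : Nat.card (zpowers x) ∣ p := by
      rw [Nat.card_zpowers]; exact orderOf_dvd_of_pow_eq_one (hexp x)
    have h1 : Nat.card (A ⊔ zpowers x : Subgroup P) ≤ p ^ 3 := by
      have h2 : Nat.card (A ⊔ zpowers x : Subgroup P) ≤ Nat.card A * Nat.card (zpowers x) := by
        have h3 : ((A ⊔ zpowers x : Subgroup P) : Set P) = (A : Set P) * (zpowers x : Set P) :=
          Subgroup.normal_mul A (zpowers x)
        have h4 := Set.natCard_mul_le (s := (A : Set P)) (t := (zpowers x : Set P))
        rw [← h3] at h4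
        exact h4
      refine h2.trans ?_
      rw [hA, pow_succ]
      exact Nat.mul_le_mul_left _ (Nat.le_of_dvd hp.out.pos hxc)
    obtain ⟨k, hk⟩ := IsPGroup.iff_card.mp (hP.to_subgroup (A ⊔ zpowers x))
    have h2 : A < A ⊔ zpowers x := by
      refine lt_of_le_of_ne le_sup_left ?_
      intro h
      apply hxA
      rw [h]
      exact (le_sup_right : zpowers x ≤ _) (mem_zpowers x)
    have h3 : p ^ 2 < Nat.card (A ⊔ zpowers x : Subgroup P) := by
      rw [← hA]
      by_contra hcon
      push Not at hcon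
      exact h2.ne (Subgroup.eq_of_le_of_card_ge h2.le hcon)
    rw [hk] at h1 h3 ⊢
    have h4 := (Nat.pow_le_pow_iff_right hp.out.one_lt).mp h1
    have h5 := (Nat.pow_lt_pow_iff_right hp.out.one_lt).mp h3
    congr 1; omega
  · have h1 : A ⊔ zpowers x ≤ centralizer ((A ⊔ zpowers x : Subgroup P) : Set P) := by
      have h2 : A ≤ centralizer ((A ⊔ zpowers x : Subgroup P) : Set P) := by
        rw [Subgroup.le_centralizer_iff]
        rw [sup_le_iff, zpowers_le]
        refine ⟨fun s hs => mem_centralizer_iff.mpr fun t ht => hAcomm' t ht s hs, ?_⟩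
        exact mem_centralizer_iff.mpr fun t ht => hxcA t ht
      have h3 : zpowers x ≤ centralizer ((A ⊔ zpowers x : Subgroup P) : Set P) := by
        rw [Subgroup.le_centralizer_iff]
        rw [sup_le_iff, zpowers_le]
        refine ⟨fun s hs => mem_centralizer_iff.mpr fun t ht => ?_, mem_centralizer_iff.mpr fun t ht => ?_⟩
        · obtain ⟨k, rfl⟩ := mem_zpowers_iff.mp ht
          exact ((Commute.zpow_right (hxcA s hs : Commute s x) k)).symm
        · obtain ⟨k, rfl⟩ := mem_zpowers_iff.mp ht
          exact (Commute.zpow_self x k)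
      exact sup_le h2 h3
    intro s hs t ht
    exact (mem_centralizer_iff.mp (h1 hs) t ht).symm

/-- A nonabelian `p`-group of exponent `p` has a nonabelian subgroup of order `p ^ 3` -/
theorem exists_nonabelian_cube {P : Type*} [Group P] [Finite P] [hp : Fact p.Prime]
    (hP : IsPGroup p P) (hexp : ∀ x : P, x ^ p = 1) (hna : ¬ IsMulCommutative P) :
    ∃ S : Subgroup P, Nat.card S = p ^ 3 ∧ ¬ ∀ a ∈ S, ∀ b ∈ S, a * b = b * a := by
  have hlt : center P < ⊤ := by
    rw [lt_top_iff_ne_top]
    intro h
    apply hna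
    rw [isMulCommutative_iff]
    intro a b
    exact (mem_center_iff.mp (by rw [h]; exact mem_top b : b ∈ center P) a)
  obtain ⟨x, -, hxc, hx⟩ := H37.PBasic.exists_central_mod hP (center P) ⊤ hlt
  obtain ⟨y, hy⟩ : ∃ y, y * x ≠ x * y := by
    by_contra hcon
    push Not at hcon
    exact hxc (mem_center_iff.mpr hcon)
  set c := y * x * y⁻¹ * x⁻¹ with hc
  have hcc : c ∈ center P := hx y
  set N := zpowers c ⊔ zpowers x with hN
  have hzn : (zpowers c).Normal := by
    constructor
    intro n hn g
    have : n ∈ center P := (zpowers_le.mpr hcc) hn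
    rw [mem_center_iff.mp this g]; simpa using hn
  have hle : ∀ w : P, Nat.card (zpowers w) ≤ p := by
    intro w
    rw [Nat.card_zpowers]; exact Nat.le_of_dvd hp.out.pos (orderOf_dvd_of_pow_eq_one (hexp w))
  have hNcard : Nat.card N ≤ p ^ 2 := by
    have h3 : ((zpowers c ⊔ zpowers x : Subgroup P) : Set P) = (zpowers c : Set P) * (zpowers x : Set P) :=
      Subgroup.normal_mul _ _
    have h4 := Set.natCard_mul_le (s := (zpowers c : Set P)) (t := (zpowers x : Set P))
    rw [← h3] at h4
    calc Nat.card N ≤ Nat.card (zpowers c) * Nat.card (zpowers x) := h4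
      _ ≤ p * p := Nat.mul_le_mul (hle c) (hle x)
      _ = p ^ 2 := (sq p).symm
  -- `y` normalizes `N`
  have hyN : zpowers y ≤ normalizer (N : Set P) := by
    rw [zpowers_le]
    have h2 : N ≤ N.comap (MulAut.conj y).toMonoidHom := by
        rw [hN, sup_le_iff, zpowers_le, zpowers_le, ← hN]
        constructor
        · show y * c * y⁻¹ ∈ N
          rw [mem_center_iff.mp hcc y, mul_inv_cancel_right]
          exact (le_sup_left : zpowers c ≤ _) (mem_zpowers c)
        · show y * x * y⁻¹ ∈ N
          have : y * x * y⁻¹ = c * x := by rw [hc]; group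
          rw [this]
          exact mul_mem ((le_sup_left : zpowers c ≤ _) (mem_zpowers c))
            ((le_sup_right : zpowers x ≤ _) (mem_zpowers x))
    rw [Subgroup.mem_normalizer_iff_map_conj_eq]
    apply Subgroup.eq_of_le_of_card_ge
    · exact Subgroup.map_le_iff_le_comap.mpr h2
    · exact (Subgroup.card_map_of_injective (MulAut.conj y).injective).ge
  refine ⟨N ⊔ zpowers y, ?_, ?_⟩
  swap
  · intro hcon
    apply hy
    exact hcon y ((le_sup_right : zpowers y ≤ _) (mem_zpowers y)) x
      (((le_sup_right : zpowers x ≤ _).trans le_sup_left) (mem_zpowers x))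
  · obtain ⟨k, hk⟩ := IsPGroup.iff_card.mp (hP.to_subgroup (N ⊔ zpowers y))
    have h1 : Nat.card (N ⊔ zpowers y : Subgroup P) ≤ p ^ 3 := by
      have h3 : ((N ⊔ zpowers y : Subgroup P) : Set P) = (N : Set P) * (zpowers y : Set P) :=
        Subgroup.coe_mul_of_right_le_normalizer_left N _ hyN
      have h4 := Set.natCard_mul_le (s := (N : Set P)) (t := (zpowers y : Set P))
      rw [← h3] at h4
      calc _ ≤ Nat.card N * Nat.card (zpowers y) := h4
        _ ≤ p ^ 2 * p := Nat.mul_le_mul hNcard (hle y)
        _ = p ^ 3 := by ring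
    rw [hk] at h1 ⊢
    have h4 := (Nat.pow_le_pow_iff_right hp.out.one_lt).mp h1
    by_contra hne
    have hk3 : k ≠ 3 := by rintro rfl; exact hne rfl
    have hcomm : IsMulCommutative (N ⊔ zpowers y : Subgroup P) := by
      rcases (show k = 0 ∨ k = 1 ∨ k = 2 by omega) with h | h | h
      · rw [h, pow_zero] at hk
        have := (Nat.card_eq_one_iff_unique.mp hk).1
        rw [isMulCommutative_iff]
        intro a b; exact Subsingleton.elim _ _
      · rw [h, pow_one] at hk
        have := isCyclic_of_prime_card hk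
        exact IsCyclic.isMulCommutative
      · rw [h] at hk
        exact IsPGroup.isMulCommutative_of_card_eq_prime_sq hk
    apply hy
    exact setLike_mul_comm (s := (N ⊔ zpowers y : Subgroup P)) ((le_sup_right : zpowers y ≤ _) (mem_zpowers y))
      (((le_sup_right : zpowers x ≤ _).trans le_sup_left) (mem_zpowers x))

theorem CP.main4023 [Finite G] [hp : Fact p.Prime] (h : CP p G) (P : Sylow p G) :
    IsCyclic P ∨ Cfsg.IsElementaryAbelian p (P : Subgroup G) ∨
      (p = 2 ∧ Nonempty ((P : Subgroup G) ≃* QuaternionGroup 2)) ∨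
      (p ≠ 2 ∧ ¬ IsMulCommutative P ∧ Nat.card P = p ^ 3 ∧ Monoid.exponent P = p) := by
  have hPp : IsPGroup p (P : Subgroup G) := P.isPGroup'
  have hiso := fun H K hHK => h.iso hPp H K hHK
  by_cases hsq : ∃ x : P, orderOf x = p ^ 2
  · obtain ⟨x, hx⟩ := hsq
    have hu := unique_of_orderOf_sq hPp hiso x hx
    rcases H1.UniqueSub.cyclic_or_quaternion p hPp hu with hc | ⟨h2, n, ⟨e⟩⟩
    · exact Or.inl hc
    · rcases (show n = 0 ∨ n = 1 ∨ 2 ≤ n by omega) with hn | hn | hn
      · left
        subst hn
        have hc : IsCyclic (QuaternionGroup (2 ^ 0)) := by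
          rw [pow_zero]; exact QuaternionGroup.quaternionGroup_one_isCyclic
        exact isCyclic_of_surjective e.symm e.symm.surjective
      · subst hn
        exact Or.inr (Or.inr (Or.inl ⟨h2, by simpa using (⟨e⟩ : Nonempty _)⟩))
      · exfalso
        apply quat_no_iso n hn
        intro H K hHK
        have e1 : H ≃* H.map e.symm.toMonoidHom := H.equivMapOfInjective _ e.symm.injective
        have e2 : K ≃* K.map e.symm.toMonoidHom := K.equivMapOfInjective _ e.symm.injective
        obtain ⟨e3⟩ := hiso (H.map e.symm.toMonoidHom) (K.map e.symm.toMonoidHom)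
          (by rw [Subgroup.card_map_of_injective e.symm.injective,
            Subgroup.card_map_of_injective e.symm.injective, hHK])
        exact ⟨e1.trans (e3.trans e2.symm)⟩
  · push Not at hsq
    have hexp : ∀ x : P, x ^ p = 1 := pow_eq_one_of_no_sq hPp hsq
    by_cases hcomm : IsMulCommutative P
    · exact Or.inr (Or.inl ⟨hcomm, fun a ha => congrArg Subtype.val (hexp ⟨a, ha⟩)⟩)
    · have hp2 : p ≠ 2 := by
        rintro rfl
        apply hcomm
        rw [isMulCommutative_iff]
        intro a b
        have h1 := hexp a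
        have h2 := hexp b
        have h3 := hexp (a * b)
        rw [sq] at h1 h2 h3
        have h4 : a = a⁻¹ := eq_inv_of_mul_eq_one_left h1
        have h5 : b = b⁻¹ := eq_inv_of_mul_eq_one_left h2
        have h6 : a * b = (a * b)⁻¹ := eq_inv_of_mul_eq_one_left h3
        rw [h6, mul_inv_rev, ← h4, ← h5]
      obtain ⟨n, hn⟩ := IsPGroup.iff_card.mp hPp
      obtain ⟨S, hS, hSna⟩ := exists_nonabelian_cube hPp hexp hcomm
      have hn3 : n ≤ 3 := by
        by_contra hcon
        push Not at hcon
        obtain ⟨T, hT, hTa⟩ := exists_abelian_cube hp2 hPp hexp hn hcon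
        obtain ⟨e⟩ := hiso S T (by rw [hS, hT])
        apply hSna
        intro a ha b hb
        have h1 : e ⟨a, ha⟩ * e ⟨b, hb⟩ = e ⟨b, hb⟩ * e ⟨a, ha⟩ :=
          Subtype.ext (hTa _ (e ⟨a, ha⟩).2 _ (e ⟨b, hb⟩).2)
        rw [← map_mul, ← map_mul] at h1
        exact congrArg Subtype.val (e.injective h1)
      have hn3' : 3 ≤ n := by
        have h1 := Subgroup.card_subgroup_dvd_card S
        rw [hS, hn] at h1
        exact (Nat.pow_dvd_pow_iff_le_right hp.out.one_lt).mp h1
      have hn' : n = 3 := by omega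
      refine Or.inr (Or.inr (Or.inr ⟨hp2, hcomm, by rw [hn, hn'], ?_⟩))
      have h1 : Monoid.exponent P ∣ p := Monoid.exponent_dvd_of_forall_pow_eq_one hexp
      rcases (Nat.dvd_prime hp.out).mp h1 with h2 | h2
      · exfalso
        rw [Monoid.exp_eq_one_iff] at h2
        apply hcomm
        rw [isMulCommutative_iff]
        intro a b; exact Subsingleton.elim _ _
      · exact h2

end H70.ConjP
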