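import Mathlib

/-!
Idempotents of a finite abelian group acting on a complex vector space.
-/

set_option autoImplicit false

namespace H70.AbIdem

variable {A : Type*} [CommGroup A] [Finite A] {V : Type*} [AddCommGroup V] [Module ℂ V]

theorem finite_dual : Finite (A →* ℂˣ) := by
  apply Nat.finite_of_card_ne_zero
  rw [CommGroup.card_monoidHom_of_hasEnoughRootsOfUnity]
  exact Nat.card_pos.ne'

open Classical in
/-- sum over the group -/
theorem sum_group [Fintype A] (μ : A →* ℂˣ) : (∑ a : A, (μ a : ℂ)) = if μ = 1 then (Nat.card A : ℂ) else 0 := by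
  split_ifs with h
  · subst h
    simp [Nat.card_eq_fintype_card]
  · obtain ⟨b, hb⟩ : ∃ b, μ b ≠ 1 := by
      by_contra hcon
      push Not at hcon
      exact h (MonoidHom.ext hcon)
    have h1 : (∑ a : A, (μ a : ℂ)) = μ b * ∑ a : A, (μ a : ℂ) := by
      rw [Finset.mul_sum]
      rw [← Equiv.sum_comp (Equiv.mulLeft b)]
      apply Finset.sum_congr rfl
      intro a _
      simp
    have h2 : ((μ b : ℂ) - 1) * ∑ a : A, (μ a : ℂ) = 0 := by
      rw [sub_mul, one_mul, ← h1, sub_self]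
    rcases mul_eq_zero.mp h2 with h3 | h3
    · exfalso
      apply hb
      apply Units.ext
      rw [Units.val_one]
      exact sub_eq_zero.mp h3
    · exact h3

open Classical in
/-- sum over the dual group -/
theorem sum_dual [Fintype (A →* ℂˣ)] (a : A) : (∑ μ : A →* ℂˣ, (μ a : ℂ)) = if a = 1 then (Nat.card A : ℂ) else 0 := by
  split_ifs with h
  · subst h
    simp only [map_one, Units.val_one, Finset.sum_const, Finset.card_univ, nsmul_eq_mul, mul_one]
    rw [← Nat.card_eq_fintype_card, CommGroup.card_monoidHom_of_hasEnoughRootsOfUnity]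
  · obtain ⟨ν, hν⟩ := CommGroup.exists_apply_ne_one_of_hasEnoughRootsOfUnity A ℂ h
    have h1 : (∑ μ : A →* ℂˣ, (μ a : ℂ)) = ν a * ∑ μ : A →* ℂˣ, (μ a : ℂ) := by
      rw [Finset.mul_sum]
      rw [← Equiv.sum_comp (Equiv.mulLeft ν)]
      apply Finset.sum_congr rfl
      intro μ _
      simp
    have h2 : ((ν a : ℂ) - 1) * ∑ μ : A →* ℂˣ, (μ a : ℂ) = 0 := by
      rw [sub_mul, one_mul, ← h1, sub_self]
    rcases mul_eq_zero.mp h2 with h3 | h3
    · exfalso
      apply hν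
      apply Units.ext
      rw [Units.val_one]
      exact sub_eq_zero.mp h3
    · exact h3

/-- the idempotent of a linear character -/
noncomputable def e (ρ : A →* Module.End ℂ V) (μ : A →* ℂˣ) : Module.End ℂ V :=
  (Nat.card A : ℂ)⁻¹ • ∑ᶠ a : A, ((μ a⁻¹ : ℂˣ) : ℂ) • ρ a

theorem e_def [Fintype A] (ρ : A →* Module.End ℂ V) (μ : A →* ℂˣ) :
    e ρ μ = (Nat.card A : ℂ)⁻¹ • ∑ a : A, ((μ a⁻¹ : ℂˣ) : ℂ) • ρ a := by
  rw [e, finsum_eq_sum_of_fintype]

theorem mul_e (ρ : A →* Module.End ℂ V) (μ : A →* ℂˣ) (b : A) : ρ b * e ρ μ = (μ b : ℂ) • e ρ μ := by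
  haveI := Fintype.ofFinite A
  rw [e_def, mul_smul_comm, smul_comm (μ b : ℂ)]
  congr 1
  rw [Finset.mul_sum, Finset.smul_sum, ← Equiv.sum_comp (Equiv.mulLeft b⁻¹)]
  apply Finset.sum_congr rfl
  intro a _
  rw [mul_smul_comm, Equiv.coe_mulLeft, ← map_mul, smul_smul, ← Units.val_mul, ← map_mul]
  congr 2
  · rw [mul_inv_rev, inv_inv, mul_comm b]
  · rw [mul_inv_cancel_left]

theorem e_mul (ρ : A →* Module.End ℂ V) (μ : A →* ℂˣ) (T : Module.End ℂ V) (h : ∀ a, ρ a * T = T * ρ a) :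
    e ρ μ * T = T * e ρ μ := by
  haveI := Fintype.ofFinite A
  rw [e_def, mul_smul_comm, smul_mul_assoc, Finset.mul_sum, Finset.sum_mul]
  congr 1
  apply Finset.sum_congr rfl
  intro a _
  rw [smul_mul_assoc, mul_smul_comm, h a]

/-- action of an idempotent on an eigenvector -/
theorem e_apply (ρ : A →* Module.End ℂ V) (μ ν : A →* ℂˣ) (v : V) (hv : ∀ a, ρ a v = (ν a : ℂ) • v) :
    e ρ μ v = (open Classical in if μ = ν then v else 0) := by
  classical
  haveI := Fintype.ofFinite A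
  have h0 : (Nat.card A : ℂ) ≠ 0 := Nat.cast_ne_zero.mpr Nat.card_pos.ne'
  have h1 : e ρ μ v = ((Nat.card A : ℂ)⁻¹ * ∑ a : A, (((ν * μ⁻¹ : A →* ℂˣ) a : ℂˣ) : ℂ)) • v := by
    rw [e_def, mul_smul, Finset.sum_smul, LinearMap.smul_apply, LinearMap.sum_apply]
    congr 1
    apply Finset.sum_congr rfl
    intro a _
    rw [LinearMap.smul_apply, hv a, smul_smul, map_inv, MonoidHom.mul_apply, MonoidHom.inv_apply, Units.val_mul, mul_comm]
  rw [h1, sum_group]
  by_cases h : μ = ν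
  · subst h
    rw [if_pos (mul_inv_cancel μ), if_pos rfl, inv_mul_cancel₀ h0, one_smul]
  · rw [if_neg (fun hh => h (mul_inv_eq_one.mp hh).symm), if_neg h, mul_zero, zero_smul]

theorem sum_e [Fintype (A →* ℂˣ)] (ρ : A →* Module.End ℂ V) : ∑ μ : A →* ℂˣ, e ρ μ = 1 := by
  classical
  haveI := Fintype.ofFinite A
  have h0 : (Nat.card A : ℂ) ≠ 0 := Nat.cast_ne_zero.mpr Nat.card_pos.ne'
  have h1 : ∑ μ : A →* ℂˣ, e ρ μ = (Nat.card A : ℂ)⁻¹ • ∑ a : A, (∑ μ : A →* ℂˣ, (μ a⁻¹ : ℂ)) • ρ a := by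
    simp_rw [e_def]
    rw [← Finset.smul_sum, Finset.sum_comm]
    congr 1
    apply Finset.sum_congr rfl
    intro a _
    rw [Finset.sum_smul]
  rw [h1]
  simp_rw [sum_dual]
  rw [Finset.sum_eq_single 1]
  · rw [inv_one, if_pos rfl, map_one, smul_smul, inv_mul_cancel₀ h0, one_smul]
  · intro a _ ha
    rw [if_neg (inv_ne_one.mpr ha), zero_smul]
  · intro h; exact absurd (Finset.mem_univ _) h

theorem trace_eq [Fintype (A →* ℂˣ)] (ρ : A →* Module.End ℂ V) (b : A) :
    LinearMap.trace ℂ V (ρ b) = ∑ μ : A →* ℂˣ, (μ b : ℂ) * LinearMap.trace ℂ V (e ρ μ) := by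
  have h1 : ρ b = ∑ μ : A →* ℂˣ, (μ b : ℂ) • e ρ μ := by
    calc ρ b = ρ b * ∑ μ : A →* ℂˣ, e ρ μ := by rw [sum_e, mul_one]
      _ = _ := by
        rw [Finset.mul_sum]
        exact Finset.sum_congr rfl fun μ _ => mul_e ρ μ b
  conv_lhs => rw [h1]
  rw [map_sum]
  apply Finset.sum_congr rfl
  intro μ _
  rw [map_smul, smul_eq_mul]

/-- an element with nontrivial trace is detected by an idempotent of nonzero trace -/
theorem exists_char (ρ : A →* Module.End ℂ V) (b : A)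
    (hb : LinearMap.trace ℂ V (ρ b) ≠ LinearMap.trace ℂ V 1) :
    ∃ μ : A →* ℂˣ, μ b ≠ 1 ∧ LinearMap.trace ℂ V (e ρ μ) ≠ 0 := by
  haveI := finite_dual (A := A)
  haveI := Fintype.ofFinite (A →* ℂˣ)
  by_contra hcon
  push Not at hcon
  apply hb
  rw [trace_eq, ← map_one ρ, trace_eq]
  apply Finset.sum_congr rfl
  intro μ _
  by_cases h : μ b = 1
  · rw [h, map_one]
  · rw [hcon μ h, mul_zero, mul_zero]

/-- eigenvectors for different characters are independent -/
theorem linearIndependent (ρ : A →* Module.End ℂ V) {ι : Type*} (ν : ι → A →* ℂˣ) (hν : Function.Injective ν)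
    (v : ι → V) (hv0 : ∀ i, v i ≠ 0) (hv : ∀ i a, ρ a (v i) = (ν i a : ℂ) • v i) : LinearIndependent ℂ v := by
  classical
  rw [linearIndependent_iff']
  intro s g hg i hi
  have h1 : e ρ (ν i) (∑ j ∈ s, g j • v j) = g i • v i := by
    rw [map_sum, Finset.sum_eq_single i]
    · rw [map_smul, e_apply ρ (ν i) (ν i) (v i) (hv i), if_pos rfl]
    · intro j _ hj
      rw [map_smul, e_apply ρ (ν i) (ν j) (v j) (hv j), if_neg (fun h => hj (hν h).symm), smul_zero]
    · intro h; exact absurd hi h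
  rw [hg, map_zero] at h1
  exact (smul_eq_zero.mp h1.symm).resolve_right (hv0 i)

end H70.AbIdem
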