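import Mathlib
import Cfsg.Agent.Lib.H1.SZ
import Cfsg.Agent.Lib.H1.Cores
import Cfsg.Agent.Lib.H37.PBasic
import Cfsg.Agent.Lib.H70.Basic
import Cfsg.Prelude.Def_Transfer

/-!
Conjugacy of complements that are p-nilpotent and act without fixed points.
-/

set_option autoImplicit false
open Subgroup Cfsg
open scoped Pointwise commutatorElement

namespace H70.ComplConj

variable {G : Type*} [Group G]

/-- data of a normal p-complement, in the ambient group -/
theorem exists_data [Finite G] {p : ℕ} [hp : Fact p.Prime] (A : Subgroup G)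
    (hA : HasNormalPComplement p A) : ∃ K S : Subgroup G, K ≤ A ∧ S ≤ A ∧ A ≤ normalizer (K : Set G) ∧
      IsPGroup p S ∧ A ≤ K ⊔ S ∧ (Nat.card K).Coprime p ∧ Nat.card K * Nat.card S = Nat.card A := by
  obtain ⟨P, K, hK, hc⟩ := hA
  refine ⟨K.map A.subtype, (P : Subgroup A).map A.subtype, map_subtype_le K, map_subtype_le _, ?_,
    P.2.map _, ?_, ?_, ?_⟩
  · intro a ha
    rw [mem_normalizer_iff]
    intro h
    constructor
    · rintro ⟨k, hk, rfl⟩
      exact ⟨⟨a, ha⟩ * k * ⟨a, ha⟩⁻¹, hK.conj_mem k hk ⟨a, ha⟩, rfl⟩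
    · rintro ⟨k, hk, hkh⟩
      refine ⟨⟨a, ha⟩⁻¹ * k * ⟨a, ha⟩, ?_, ?_⟩
      · have := hK.conj_mem k hk ⟨a, ha⟩⁻¹
        rwa [inv_inv] at this
      · change a⁻¹ * (A.subtype k) * a = h
        rw [hkh]; group
  · rw [← Subgroup.map_sup, hc.sup_eq_top]
    intro a ha
    exact ⟨⟨a, ha⟩, mem_top _, rfl⟩
  · rw [Subgroup.card_map_of_injective A.subtype_injective]
    have h1 : Nat.card K = (P : Subgroup A).index := hc.index_eq_card.symm
    rw [h1]
    exact ((Nat.Prime.coprime_iff_not_dvd hp.out).mpr P.not_dvd_index).symm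
  · rw [Subgroup.card_map_of_injective A.subtype_injective,
      Subgroup.card_map_of_injective A.subtype_injective]
    exact hc.card_mul_card

/-- A complement `A` of a normal `p`-subgroup is the normalizer of its normal `p`-complement, provided
it has no fixed points. -/
theorem eq_normalizer [Finite G] {p : ℕ} [hp : Fact p.Prime] (N : Subgroup G) [N.Normal]
    (hN : IsPGroup p N) (A K S : Subgroup G) (hA : A.IsComplement' N) (hKA : K ≤ A) (hSA : S ≤ A)
    (hAK : A ≤ normalizer (K : Set G)) (hS : IsPGroup p S) (hAS : A ≤ K ⊔ S)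
    (hC : ∀ n : G, n ∈ N → (∀ a : G, a ∈ A → a * n * a⁻¹ = n) → n = 1) :
    normalizer (K : Set G) = A := by
  have hAN : A ⊓ N = ⊥ := disjoint_iff.mp hA.disjoint
  have hKN : K ⊓ N = ⊥ := by
    rw [eq_bot_iff, ← hAN]; exact inf_le_inf_right N hKA
  set C := N ⊓ centralizer (K : Set G) with hCdef
  have hCbot : C = ⊥ := by
    by_contra hne
    have hCp : IsPGroup p C := hN.to_le inf_le_left
    have hSC : S ≤ normalizer (C : Set G) := by
      intro s hs
      rw [mem_normalizer_iff]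
      have hsA := hSA hs
      have key : ∀ t ∈ A, ∀ h ∈ C, t * h * t⁻¹ ∈ C := by
        intro t ht h hh
        refine Subgroup.mem_inf.mpr ⟨‹N.Normal›.conj_mem h (Subgroup.mem_inf.mp hh).1 t, ?_⟩
        rw [mem_centralizer_iff]
        intro k hk
        have h1 : t⁻¹ * k * t ∈ K := (mem_normalizer_iff''.mp (hAK ht) k).mp hk
        have h2 := mem_centralizer_iff.mp (Subgroup.mem_inf.mp hh).2 _ h1
        calc k * (t * h * t⁻¹) = t * ((t⁻¹ * k * t) * h) * t⁻¹ := by group
          _ = t * (h * (t⁻¹ * k * t)) * t⁻¹ := by rw [h2]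
          _ = t * h * t⁻¹ * k := by group
      intro h
      constructor
      · exact key s hsA h
      · intro hh
        have := key s⁻¹ (inv_mem hsA) _ hh
        have e : s⁻¹ * (s * h * s⁻¹) * s⁻¹⁻¹ = h := by group
        rwa [e] at this
    obtain ⟨z, hz, hz1, hzS⟩ := H37.PBasic.exists_fixed_of_pgroup_normalizes S C hS hCp hne hSC
    apply hz1
    apply hC z (Subgroup.mem_inf.mp hz).1
    intro a ha
    have h1 : K ⊔ S ≤ centralizer ({z} : Set G) := by
      rw [sup_le_iff]
      constructor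
      · intro k hk
        rw [mem_centralizer_singleton_iff]
        exact mem_centralizer_iff.mp (Subgroup.mem_inf.mp hz).2 k hk
      · intro s hs
        rw [mem_centralizer_singleton_iff]
        exact hzS s hs
    have h2 := mem_centralizer_singleton_iff.mp (h1 (hAS ha))
    rw [h2]; group
  have hMN : normalizer (K : Set G) ⊓ N = ⊥ := by
    rw [eq_bot_iff, ← hCbot]
    intro n hn
    obtain ⟨hnK, hnN⟩ := Subgroup.mem_inf.mp hn
    refine Subgroup.mem_inf.mpr ⟨hnN, ?_⟩
    rw [mem_centralizer_iff]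
    intro k hk
    have h3 : ⁅n, k⁆ ∈ K ⊓ N := by
      refine Subgroup.mem_inf.mpr ⟨?_, ?_⟩
      · rw [commutatorElement_def]
        exact K.mul_mem ((mem_normalizer_iff.mp hnK k).mp hk) (K.inv_mem hk)
      · rw [commutatorElement_def, mul_assoc, mul_assoc]
        refine N.mul_mem hnN ?_
        have := ‹N.Normal›.conj_mem _ (N.inv_mem hnN) k
        rwa [mul_assoc] at this
    rw [hKN, mem_bot, commutatorElement_eq_one_iff_mul_comm] at h3
    exact h3.symm
  have hcard : Nat.card (normalizer (K : Set G)) ∣ Nat.card A := by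
    have h1 : N.relIndex (normalizer (K : Set G)) = Nat.card (normalizer (K : Set G)) := by
      have h2 : N.subgroupOf (normalizer (K : Set G)) = ⊥ := by
        rw [subgroupOf_eq_bot, disjoint_iff, inf_comm]; exact hMN
      rw [Subgroup.relIndex, h2, index_bot]
    rw [← h1]
    have h3 : Nat.card A = N.index := hA.index_eq_card.symm
    rw [h3]
    exact Subgroup.relIndex_dvd_index_of_normal _ _
  exact (Subgroup.eq_of_le_of_card_ge hAK (Nat.le_of_dvd Nat.card_pos hcard)).symm

/-- conjugacy of fixed-point-free `p`-nilpotent complements of a normal `p`-subgroup -/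
theorem exists_conj [Finite G] {p : ℕ}
    [hp : Fact p.Prime] (N : Subgroup G) [N.Normal] (hN : IsPGroup p N) (A A₁ : Subgroup G)
    (hA : A.IsComplement' N) (hA₁ : A₁.IsComplement' N)
    (hAp : HasNormalPComplement p A) (hA₁p : HasNormalPComplement p A₁)
    (hC₁ : ∀ n : G, n ∈ N → (∀ a : G, a ∈ A₁ → a * n * a⁻¹ = n) → n = 1) :
    ∃ n : G, n ∈ N ∧ A₁ = A.map (MulAut.conj n).toMonoidHom := by
  obtain ⟨K, S, hKA, hSA, hAK, hS, hAS, hKp, hKS⟩ := exists_data A hAp
  obtain ⟨K₁, S₁, hKA₁, hSA₁, hAK₁, hS₁, hAS₁, hKp₁, hKS₁⟩ := exists_data A₁ hA₁p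
  have hcardA : Nat.card A = Nat.card A₁ := by
    rw [← hA.index_eq_card, ← hA₁.index_eq_card]
  have hAN : A ⊓ N = ⊥ := disjoint_iff.mp hA.disjoint
  have hcardK : Nat.card K = Nat.card K₁ := by
    rw [← hKS, ← hKS₁] at hcardA
    obtain ⟨m, hm⟩ := IsPGroup.iff_card.mp hS
    obtain ⟨m₁, hm₁⟩ := IsPGroup.iff_card.mp hS₁
    rw [hm, hm₁] at hcardA
    apply Nat.dvd_antisymm
    · exact Nat.Coprime.dvd_of_dvd_mul_right (Nat.Coprime.pow_right m₁ hKp)
        (Dvd.intro _ hcardA)
    · exact Nat.Coprime.dvd_of_dvd_mul_right (Nat.Coprime.pow_right m hKp₁)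
        (Dvd.intro _ hcardA.symm)
  set L := K ⊔ N with hL
  have hLn : L.Normal := by
    constructor
    intro l hl g
    -- `g = a * n`
    obtain ⟨⟨⟨a, ha⟩, ⟨n, hn⟩⟩, hg⟩ := hA.2 g
    simp only at hg
    have h1 : normalizer (K : Set G) ≤ normalizer (L : Set G) := by
      apply H70.Basic.le_normalizer_of_conj
      intro y hy l hl
      have h2 : l ∈ (K : Set G) * (N : Set G) := by rw [← Subgroup.mul_normal]; exact hl
      obtain ⟨k, hk, n, hn, rfl⟩ := Set.mem_mul.mp h2
      have e : y * (k * n) * y⁻¹ = (y * k * y⁻¹) * (y * n * y⁻¹) := by group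
      rw [e]
      exact mul_mem (mem_sup_left ((mem_normalizer_iff.mp hy k).mp hk))
        (mem_sup_right (‹N.Normal›.conj_mem n hn y))
    have h2 : g ∈ normalizer (L : Set G) := by
      rw [← hg]
      exact mul_mem (h1 (hAK ha)) (le_normalizer (mem_sup_right hn))
    exact (mem_normalizer_iff.mp h2 l).mp hl
  have hrel : N.relIndex L = Nat.card K := by
    rw [hL, relIndex_sup_right]
    have h2 : N.subgroupOf K = ⊥ := by
      rw [subgroupOf_eq_bot, disjoint_iff, eq_bot_iff, ← hAN, inf_comm]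
      exact inf_le_inf_right N hKA
    rw [Subgroup.relIndex, h2, index_bot]
  have hK₁L : K₁ ≤ L := by
    rw [← Subgroup.relIndex_eq_one]
    have h1 : L.relIndex K₁ ∣ L.index := Subgroup.relIndex_dvd_index_of_normal _ _
    have h2 : L.relIndex K₁ ∣ Nat.card K₁ := Subgroup.relIndex_dvd_card _ _
    have h3 : L.index = Nat.card S := by
      have h4 : N.relIndex L * L.index = N.index := Subgroup.relIndex_mul_index le_sup_right
      rw [hrel, hA.index_eq_card, ← hKS] at h4
      exact Nat.eq_of_mul_eq_mul_left Nat.card_pos h4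
    obtain ⟨m, hm⟩ := IsPGroup.iff_card.mp hS
    rw [h3, hm] at h1
    exact Nat.eq_one_of_dvd_coprimes (Nat.Coprime.pow_left m hKp₁.symm) h1 h2
  obtain ⟨g, hg, hgK⟩ := H1.SZ.conj_of_card_rel L N le_sup_right
    (by rw [normalizer_eq_top]; exact le_top)
    (by
      rw [hrel]
      obtain ⟨n, hn⟩ := IsPGroup.iff_card.mp hN
      rw [hn]
      exact Nat.Coprime.pow_left n hKp.symm)
    (Or.inl (by have := hN.isNilpotent; infer_instance)) K K₁ le_sup_left hK₁L hrel.symm
    (by rw [← hcardK, hrel])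
  have hnorm := eq_normalizer N hN A₁ K₁ S₁ hA₁ hKA₁ hSA₁ hAK₁ hS₁ hAS₁ hC₁
  refine ⟨g, hg, ?_⟩
  symm
  apply Subgroup.eq_of_le_of_card_ge
  · rw [← hnorm]
    rintro _ ⟨a, ha, rfl⟩
    change g * a * g⁻¹ ∈ _
    rw [← hgK, mem_normalizer_iff]
    intro h
    have h1 := mem_normalizer_iff.mp (hAK ha) (g⁻¹ * h * g)
    have e1 : ∀ y : G, y ∈ MulAut.conj g • K ↔ g⁻¹ * y * g ∈ K := by
      intro y
      rw [Subgroup.mem_pointwise_smul_iff_inv_smul_mem]
      simp [← map_inv, MulAut.smul_def]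
    rw [e1, e1, h1]
    have e2 : g⁻¹ * (g * a * g⁻¹ * h * (g * a * g⁻¹)⁻¹) * g = a * (g⁻¹ * h * g) * a⁻¹ := by group
    rw [e2]
  · rw [Subgroup.card_map_of_injective (MulAut.conj g).injective, hcardA]

end H70.ComplConj
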