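import Mathlib
import Cfsg.Agent.Lib.H70.ConjP2
import Cfsg.Agent.Lib.H1.FrobSyl

set_option autoImplicit false
open Subgroup Cfsg H1.Cores
open scoped commutatorElement Pointwise

universe u

namespace H70.ConjP

variable {G : Type*} [Group G] {p : ℕ}

theorem CP.omega [Finite G] [hp : Fact p.Prime] (h : CP p G) (hc : pCore p G ≠ ⊥) :
    ∃ N : Subgroup G, N.Normal ∧ (∀ x, x ∈ N ↔ x ^ p = 1) ∧ N ≠ ⊥ ∧ IsPGroup p N := by
  have hR : IsPGroup p (pCore p G) := isPGroup_pCore p
  haveI : Nontrivial (pCore p G) := (Subgroup.nontrivial_iff_ne_bot _).mpr hc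
  set Z := (center (pCore p G)).map (pCore p G).subtype with hZ
  haveI : Z.Normal := inferInstance
  have hZp : IsPGroup p Z := (hR.to_subgroup _).map _
  have hZne : Z ≠ ⊥ := by
    rw [hZ, Ne, Subgroup.map_eq_bot_iff_of_injective _ (pCore p G).subtype_injective]
    exact (Subgroup.nontrivial_iff_ne_bot _).mp hR.center_nontrivial
  have hZd : p ∣ Nat.card Z := by
    obtain ⟨n, hn⟩ := IsPGroup.iff_card.mp hZp
    rw [hn]
    apply dvd_pow_self
    rintro rfl
    apply hZne
    rw [← Subgroup.card_eq_one, hn, pow_zero]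
  have hmem : ∀ x : G, x ^ p = 1 → x ∈ Z := fun x hx => h.mem_normal Z hZd hx
  have hcomm : ∀ x ∈ Z, ∀ y ∈ Z, x * y = y * x := by
    rintro _ ⟨x, hx, rfl⟩ _ ⟨y, hy, rfl⟩
    exact congrArg Subtype.val (mem_center_iff.mp hy x)
  refine ⟨{ carrier := {x | x ^ p = 1}, mul_mem' := ?_, one_mem' := one_pow p, inv_mem' := ?_ },
    ⟨?_⟩, fun x => Iff.rfl, ?_, ?_⟩
  · intro a b ha hb
    have ha' : a ^ p = 1 := ha
    have hb' : b ^ p = 1 := hb
    show (a * b) ^ p = 1
    rw [(show Commute a b from hcomm a (hmem a ha') b (hmem b hb')).mul_pow, ha', hb', one_mul]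
  · intro a ha
    have ha' : a ^ p = 1 := ha
    show a⁻¹ ^ p = 1
    rw [inv_pow, ha', inv_one]
  · intro a ha g
    have ha' : a ^ p = 1 := ha
    show (g * a * g⁻¹) ^ p = 1
    rw [conj_pow, ha', mul_one, mul_inv_cancel]
  · obtain ⟨z, hz⟩ := exists_prime_orderOf_dvd_card' p hZd
    intro hb
    have h1 : (z : G) ∈ (⊥ : Subgroup G) := by
      rw [← hb]
      show (z : G) ^ p = 1
      rw [← Subgroup.coe_pow, ← hz, pow_orderOf_eq_one]; rfl
    rw [mem_bot] at h1
    have h2 : z = 1 := Subtype.ext h1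
    rw [h2, orderOf_one] at hz
    exact hp.out.one_lt.ne hz
  · intro ⟨x, hx⟩
    exact ⟨1, Subtype.ext (by rw [pow_one]; exact hx)⟩

/-- quotients by `p`-groups -/
theorem CP.quotient_p [Finite G] [hp : Fact p.Prime] (h : CP p G) {V : Subgroup G} [V.Normal]
    (hV : IsPGroup p V) : CP p (G ⧸ V) := by
  intro H K hH hK hcard
  have hcomap : ∀ X : Subgroup (G ⧸ V), IsPGroup p X → IsPGroup p (X.comap (QuotientGroup.mk' V)) := by
    intro X hX
    obtain ⟨a, ha⟩ := IsPGroup.iff_card.mp hX
    obtain ⟨b, hb⟩ := IsPGroup.iff_card.mp hV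
    exact IsPGroup.of_card (n := b + a) (by rw [card_comap_mk', ha, hb, pow_add])
  obtain ⟨g, hg⟩ := h _ _ (hcomap H hH) (hcomap K hK) (by rw [card_comap_mk', card_comap_mk', hcard])
  refine ⟨QuotientGroup.mk' V g, ?_⟩
  have h1 := congrArg (Subgroup.map (QuotientGroup.mk' V)) hg
  rw [Subgroup.map_comap_eq_self_of_surjective (QuotientGroup.mk'_surjective V), Subgroup.map_map] at h1
  rw [h1]
  conv_rhs => rw [← Subgroup.map_comap_eq_self_of_surjective (QuotientGroup.mk'_surjective V) H]
  rw [Subgroup.map_map]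
  congr 1

/-- cyclic Sylow subgroups imply conjugacy -/
theorem cp_of_cyclic [Finite G] [hp : Fact p.Prime] (h : ∀ P : Sylow p G, IsCyclic P) : CP p G := by
  intro H K hH hK hcard
  obtain ⟨P, hP⟩ := hH.exists_le_sylow
  obtain ⟨Q, hQ⟩ := hK.exists_le_sylow
  obtain ⟨g, hg⟩ := MulAction.exists_smul_eq G P Q
  refine ⟨g, ?_⟩
  have hHQ : H.map (MulAut.conj g).toMonoidHom ≤ (Q : Subgroup G) := by
    rw [← hg]
    exact Subgroup.map_mono hP
  haveI := h Q
  exact H1.FrobSyl.eq_of_card_eq_of_le (h Q) hQ hHQ (by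
    rw [← hcard]; exact (Subgroup.card_map_of_injective (MulAut.conj g).injective).symm)

theorem cyclic_quotient [Finite G] [hp : Fact p.Prime] (h : ∀ P : Sylow p G, IsCyclic P) (N : Subgroup G) [N.Normal] :
    ∀ P : Sylow p (G ⧸ N), IsCyclic P := by
  intro P'
  obtain ⟨P, rfl⟩ := Sylow.mapSurjective_surjective (QuotientGroup.mk'_surjective N) p P'
  haveI := h P
  show IsCyclic ((P : Subgroup G).map (QuotientGroup.mk' N) : Subgroup (G ⧸ N))
  exact isCyclic_of_surjective ((QuotientGroup.mk' N).subgroupMap (P : Subgroup G))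
    ((QuotientGroup.mk' N).subgroupMap_surjective _)

theorem cyclic_subgroup [Finite G] [hp : Fact p.Prime] (h : ∀ P : Sylow p G, IsCyclic P) (N : Subgroup G) :
    ∀ P : Sylow p N, IsCyclic P := by
  intro P
  have h1 : IsPGroup p ((P : Subgroup N).map N.subtype) := P.isPGroup'.map _
  obtain ⟨Q, hQ⟩ := h1.exists_le_sylow
  haveI := h Q
  have e : (P : Subgroup N) ≃* (P : Subgroup N).map N.subtype :=
    (P : Subgroup N).equivMapOfInjective _ N.subtype_injective
  have h2 : IsCyclic ((P : Subgroup N).map N.subtype) :=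
    isCyclic_of_injective (Subgroup.inclusion hQ) (Subgroup.inclusion_injective hQ)
  exact isCyclic_of_surjective e.symm e.symm.surjective

/-- Hall `q'`-subgroups of a solvable subgroup, ambient form -/
theorem hall_ambient [Finite G] {q : ℕ} [hq : Fact q.Prime] (M : Subgroup G) (hM : Group.IsSolvable M) :
    ∃ m : ℕ, m.Coprime q ∧ (∀ A : Subgroup G, A ≤ M → (Nat.card A).Coprime q →
      ∃ L : Subgroup G, A ≤ L ∧ L ≤ M ∧ Nat.card L = m) ∧
      ∀ L₁ L₂ : Subgroup G, L₁ ≤ M → L₂ ≤ M → Nat.card L₁ = m → Nat.card L₂ = m →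
        ∃ y ∈ M, MulAut.conj y • L₁ = L₂ := by
  obtain ⟨k, m, hm, hk⟩ := Nat.exists_eq_pow_mul_and_not_dvd (n := Nat.card M) Nat.card_pos.ne' q hq.out.ne_one
  have hmc : m.Coprime q := ((Nat.Prime.coprime_iff_not_dvd hq.out).mpr hm).symm
  have hcard : Nat.card M = m * q ^ k := by rw [hk, mul_comm]
  refine ⟨m, hmc, ?_, ?_⟩
  · intro A hA hAq
    obtain ⟨L, hL, hAL⟩ := H1.Hall.exists_card_eq_ge hM m (q ^ k) hcard (hmc.pow_right k) (A.subgroupOf M)
      (by rw [H1.SZ.card_subgroupOf_of_le hA]; exact hAq.pow_right k)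
    refine ⟨L.map M.subtype, ?_, Subgroup.map_subtype_le L, ?_⟩
    · rw [← Subgroup.map_subgroupOf_eq_of_le hA]; exact Subgroup.map_mono hAL
    · rw [Subgroup.card_map_of_injective M.subtype_injective, hL]
  · intro L₁ L₂ h1 h2 hc1 hc2
    obtain ⟨y, hy⟩ := H1.Hall.conj_of_card_eq hM m (q ^ k) hcard (hmc.pow_right k) (L₁.subgroupOf M)
      (L₂.subgroupOf M) (by rw [H1.SZ.card_subgroupOf_of_le h1, hc1])
      (by rw [H1.SZ.card_subgroupOf_of_le h2, hc2])
    exact ⟨y, y.2, (H1.SZ.conj_smul_subgroupOf_eq_iff h1 h2 y).mp hy⟩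

/-- existence of a `q'`-complement to the intersection with a normal `q`-subgroup which contains the Sylow -/
theorem exists_compl [Finite G] {q : ℕ} [hq : Fact q.Prime] (H S : Subgroup G) (hH : Group.IsSolvable H)
    (hSH : S ≤ H) (hS : IsPGroup q S) (m : ℕ) (hm : Nat.card H = m * Nat.card S) (hmq : m.Coprime q)
    (hSn : H ≤ normalizer (S : Set G)) :
    ∃ A : Subgroup G, A ≤ H ∧ Nat.card A = m ∧ S ⊔ A = H := by
  obtain ⟨k, hk⟩ := IsPGroup.iff_card.mp hS
  obtain ⟨A', hA'⟩ := H1.Hall.exists_card_eq hH m (Nat.card S) hm (by rw [hk]; exact hmq.pow_right k)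
  have hA : Nat.card (A'.map H.subtype) = m := by
    rw [Subgroup.card_map_of_injective H.subtype_injective, hA']
  refine ⟨A'.map H.subtype, Subgroup.map_subtype_le A', hA, ?_⟩
  apply Subgroup.eq_of_le_of_card_ge (sup_le hSH (Subgroup.map_subtype_le A'))
  rw [hm]
  apply Nat.le_of_dvd Nat.card_pos
  apply Nat.Coprime.mul_dvd_of_dvd_of_dvd
  · rw [hk]; exact hmq.pow_right k
  · exact hA.symm.dvd.trans (Subgroup.card_dvd_of_le le_sup_right)
  · exact Subgroup.card_dvd_of_le le_sup_left

theorem main4022 (r : ℕ) (n : ℕ) : ∀ (G : Type u) [Group G] [Finite G], Nat.card G = n → Group.IsSolvable G →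
    (∀ p : ℕ, p.Prime → CP p G) → (∀ p : ℕ, p.Prime → p ≠ r → ∀ P : Sylow p G, IsCyclic P) →
    ∀ H K : Subgroup G, Nat.card H = Nat.card K → ∃ g : G, MulAut.conj g • H = K := by
  induction n using Nat.strong_induction_on with
  | _ n ih =>
  intro G _ _ hn' hsolv hD hcyc H K hHK
  rcases subsingleton_or_nontrivial G with hss | hnt
  · refine ⟨1, ?_⟩
    ext x
    rw [Subsingleton.elim x 1]
    simp only [one_mem]
  obtain ⟨q, hq, hqc⟩ := H1.Hall.exists_pCore_ne_bot hsolv
  haveI : Fact q.Prime := ⟨hq⟩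
  obtain ⟨N, hNn, hNmem, hNne, hNp⟩ := (hD q hq).omega hqc
  have hNcard : 1 < Nat.card N := by
    rw [Finite.one_lt_card_iff_nontrivial]; exact (Subgroup.nontrivial_iff_ne_bot _).mpr hNne
  -- conjugacy in the quotient
  have hquot : ∀ A B : Subgroup (G ⧸ N), Nat.card A = Nat.card B → ∃ g : G ⧸ N, MulAut.conj g • A = B := by
    refine ih (Nat.card (G ⧸ N)) ?_ (G ⧸ N) rfl inferInstance ?_ ?_
    · rw [← hn', ← Subgroup.card_mul_index N]
      have h1 : Nat.card (G ⧸ N) = N.index := rfl
      have h2 : 0 < N.index := Nat.pos_of_ne_zero Subgroup.index_ne_zero_of_finite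
      rw [h1]
      nlinarith
    · intro p hp
      haveI : Fact p.Prime := ⟨hp⟩
      by_cases hpq : p = q
      · subst hpq
        exact (hD p hp).quotient_p hNp
      · apply (hD p hp).quotient
        obtain ⟨k, hk⟩ := IsPGroup.iff_card.mp hNp
        rw [hk]
        exact ((Nat.coprime_primes hq hp).mpr (Ne.symm hpq)).pow_left k
    · intro p hp hpr
      haveI : Fact p.Prime := ⟨hp⟩
      exact cyclic_quotient (hcyc p hp hpr) N
  -- if the images have equal order
  have hlift : Nat.card (H ⊓ N : Subgroup G) = Nat.card (K ⊓ N : Subgroup G) →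
      ∃ g : G, (MulAut.conj g • H) ⊔ N = K ⊔ N := by
    intro hinf
    have h1 := H1.Hall.card_map_mk_mul_card_inf H N
    have h2 := H1.Hall.card_map_mk_mul_card_inf K N
    have h3 : Nat.card (H.map (QuotientGroup.mk' N)) = Nat.card (K.map (QuotientGroup.mk' N)) := by
      rw [hinf, hHK, ← h2] at h1
      exact Nat.eq_of_mul_eq_mul_right Nat.card_pos h1
    obtain ⟨g', hg'⟩ := hquot _ _ h3
    obtain ⟨g, rfl⟩ := QuotientGroup.mk'_surjective N g'
    refine ⟨g, ?_⟩
    rw [← H1.SZ.conj_smul_map] at hg'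
    have h4 := congrArg (Subgroup.comap (QuotientGroup.mk' N)) hg'
    rwa [QuotientGroup.comap_map_mk', QuotientGroup.comap_map_mk', sup_comm, sup_comm N K] at h4
  have hle : N ≤ H → N ≤ K → ∃ g : G, MulAut.conj g • H = K := by
    intro h1 h2
    obtain ⟨g, hg⟩ := hlift (by rw [inf_eq_right.mpr h1, inf_eq_right.mpr h2])
    refine ⟨g, ?_⟩
    have h3 : N ≤ MulAut.conj g • H := by
      rw [← Subgroup.Normal.conj_smul_eq_self g N]
      exact Subgroup.pointwise_smul_le_pointwise_smul_iff.mpr h1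
    rwa [sup_eq_left.mpr h3, sup_eq_left.mpr h2] at hg
  by_cases hqH : q ∣ Nat.card H
  swap
  · -- coprime case
    have hcop : (Nat.card H).Coprime q := ((Nat.Prime.coprime_iff_not_dvd hq).mpr hqH).symm
    have hcopN : (Nat.card H).Coprime (Nat.card N) := by
      obtain ⟨k, hk⟩ := IsPGroup.iff_card.mp hNp
      rw [hk]; exact hcop.pow_right k
    have hHN : H ⊓ N = ⊥ := (Subgroup.disjoint_of_coprime_natCard hcopN).eq_bot
    have hKN : K ⊓ N = ⊥ := (Subgroup.disjoint_of_coprime_natCard (hHK ▸ hcopN)).eq_bot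
    obtain ⟨g, hg⟩ := hlift (by rw [hHN, hKN])
    set L := K ⊔ N with hL
    have h1 : MulAut.conj g • H ≤ L := by rw [← hg]; exact le_sup_left
    have h2 : K ≤ L := le_sup_left
    have hLcard : Nat.card L = Nat.card K * Nat.card N := H1.Hall.card_sup_of_disjoint_normal hKN
    obtain ⟨x, hx⟩ := H1.Hall.conj_of_card_eq (G := L) inferInstance _ _ hLcard (hHK ▸ hcopN)
      ((MulAut.conj g • H).subgroupOf L) (K.subgroupOf L)
      (by rw [H1.SZ.card_subgroupOf_of_le h1, H1.SZ.card_conj_smul, hHK])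
      (by rw [H1.SZ.card_subgroupOf_of_le h2])
    rw [H1.SZ.conj_smul_subgroupOf_eq_iff h1 h2] at hx
    exact ⟨x * g, by rw [H1.SZ.conj_mul_smul]; exact hx⟩
  · -- `q` divides the order of `H`
    have hex : ∀ X : Subgroup G, q ∣ Nat.card X → ∃ x ∈ X, x ∈ N ∧ x ≠ 1 := by
      intro X hX
      obtain ⟨z, hz⟩ := exists_prime_orderOf_dvd_card' q hX
      refine ⟨z, z.2, (hNmem z).mpr ?_, ?_⟩
      · rw [← Subgroup.coe_pow, ← hz, pow_orderOf_eq_one]; rfl
      · intro h1
        have h2 : z = 1 := Subtype.ext h1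
        rw [h2, orderOf_one] at hz
        exact hq.one_lt.ne hz
    by_cases hNq : Nat.card N = q
    · -- `N` of order `q`
      have hNle : ∀ X : Subgroup G, q ∣ Nat.card X → N ≤ X := by
        intro X hX
        obtain ⟨x, hxX, hxN, hx1⟩ := hex X hX
        have h1 : Nat.card (X ⊓ N : Subgroup G) ∣ q := by
          rw [← hNq]; exact Subgroup.card_dvd_of_le inf_le_right
        rcases (Nat.dvd_prime hq).mp h1 with h2 | h2
        · exfalso
          rw [Subgroup.card_eq_one] at h2
          have h3 : x ∈ X ⊓ N := Subgroup.mem_inf.mpr ⟨hxX, hxN⟩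
          rw [h2, mem_bot] at h3
          exact hx1 h3
        · have h3 : X ⊓ N = N := Subgroup.eq_of_le_of_card_ge inf_le_right (by rw [h2, hNq])
          exact inf_eq_right.mp h3
      exact hle (hNle H hqH) (hNle K (hHK ▸ hqH))
    · -- every Sylow `q`-subgroup is `N`
      have hsyl : ∀ R : Sylow q G, (R : Subgroup G) = N := by
        intro R
        have hNR : N ≤ R := hNp.le_sylow_of_normal R
        have hexp : ∀ x : R, orderOf x ≠ q ^ 2 := by
          intro x hx
          have hu := unique_of_orderOf_sq R.isPGroup' (fun A B hAB => (hD q hq).iso R.isPGroup' A B hAB) x hx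
          apply hNq
          obtain ⟨y, hyN, -, hy1⟩ := hex N (by
            obtain ⟨k, hk⟩ := IsPGroup.iff_card.mp hNp
            rw [hk] at hNcard ⊢
            apply dvd_pow_self
            rintro rfl
            simp at hNcard)
          have hyo : orderOf y = q := orderOf_eq_prime ((hNmem y).mp hyN) hy1
          have hNy : N = zpowers y := by
            apply le_antisymm
            · intro w hw
              by_cases hw1 : w = 1
              · rw [hw1]; exact one_mem _
              have hwo : orderOf w = q := orderOf_eq_prime ((hNmem w).mp hw) hw1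
              have h1 := hu (zpowers ⟨w, hNR hw⟩) (zpowers ⟨y, hNR hyN⟩)
                (by rw [Nat.card_zpowers, Subgroup.orderOf_mk, hwo])
                (by rw [Nat.card_zpowers, Subgroup.orderOf_mk, hyo])
              have h2 : (⟨w, hNR hw⟩ : R) ∈ zpowers (⟨y, hNR hyN⟩ : R) := by
                rw [← h1]; exact mem_zpowers _
              obtain ⟨k, hk⟩ := mem_zpowers_iff.mp h2
              exact mem_zpowers_iff.mpr ⟨k, congrArg Subtype.val hk⟩
            · rw [zpowers_le]; exact hyN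
          rw [hNy, Nat.card_zpowers, hyo]
        apply le_antisymm
        · intro x hx
          rw [hNmem]
          exact congrArg Subtype.val (pow_eq_one_of_no_sq R.isPGroup' hexp ⟨x, hx⟩)
        · exact hNR
      -- `q = r`
      have hqr : q = r := by
        by_contra hne
        have hc := hcyc q hq hne default
        apply hNq
        rw [hsyl] at hc
        obtain ⟨g, hg⟩ := hc.exists_generator
        have h1 := orderOf_eq_card_of_forall_mem_zpowers hg
        have h2 : orderOf g ∣ q := orderOf_dvd_of_pow_eq_one (Subtype.ext ((hNmem g).mp g.2))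
        rw [h1] at h2
        rcases (Nat.dvd_prime hq).mp h2 with h3 | h3
        · omega
        · exact h3
      have hNidx : (N.index).Coprime q := by
        have h1 := (default : Sylow q G).card_coprime_index
        have h2 := (default : Sylow q G).not_dvd_index
        rw [hsyl] at h2
        exact ((Nat.Prime.coprime_iff_not_dvd hq).mpr h2).symm
      have hparts : ∀ X : Subgroup G, ∃ m : ℕ, m.Coprime q ∧ Nat.card X = m * Nat.card (X ⊓ N : Subgroup G) := by
        intro X
        refine ⟨Nat.card (X.map (QuotientGroup.mk' N)), ?_, (H1.Hall.card_map_mk_mul_card_inf X N).symm⟩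
        exact Nat.Coprime.coprime_dvd_left (Subgroup.card_subgroup_dvd_card _) hNidx
      have hinfp : ∀ X : Subgroup G, IsPGroup q (X ⊓ N : Subgroup G) := fun X => hNp.to_le inf_le_right
      have hpd : ∀ X Y : Subgroup G, Nat.card X = Nat.card Y →
          Nat.card (X ⊓ N : Subgroup G) ∣ Nat.card (Y ⊓ N : Subgroup G) := by
        intro X Y hXY
        obtain ⟨m, hm, hY⟩ := hparts Y
        have h1 : Nat.card (X ⊓ N : Subgroup G) ∣ m * Nat.card (Y ⊓ N : Subgroup G) := by
          rw [← hY, ← hXY]; exact Subgroup.card_dvd_of_le inf_le_left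
        obtain ⟨k, hk⟩ := IsPGroup.iff_card.mp (hinfp X)
        exact (Nat.Coprime.dvd_of_dvd_mul_left (by rw [hk]; exact (hm.pow_right k).symm) h1)
      have hcardinf : Nat.card (H ⊓ N : Subgroup G) = Nat.card (K ⊓ N : Subgroup G) :=
        Nat.dvd_antisymm (hpd H K hHK) (hpd K H hHK.symm)
      obtain ⟨g, hg⟩ := hD q hq (H ⊓ N) (K ⊓ N) (hinfp H) (hinfp K) hcardinf
      rw [← H1.SZ.conj_smul_eq_map, Subgroup.smul_inf, Subgroup.Normal.conj_smul_eq_self g N] at hg
      set H' := MulAut.conj g • H with hH'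
      set S := K ⊓ N with hS
      have hSp : IsPGroup q S := hinfp K
      have hcH' : Nat.card H' = Nat.card K := by rw [hH', H1.SZ.card_conj_smul, hHK]
      set M := normalizer (S : Set G) with hM
      have hn : ∀ X : Subgroup G, X ⊓ N = S → X ≤ M := by
        intro X hX x hx
        rw [hM, ← H1.SZ.conj_smul_eq_iff, ← hX, Subgroup.smul_inf, Subgroup.Normal.conj_smul_eq_self x N]
        congr 1
        exact H1.SZ.conj_smul_eq_of_mem_normalizer (Subgroup.le_normalizer hx)
      have hKM : K ≤ M := hn K rfl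
      have hHM : H' ≤ M := hn H' hg.symm
      obtain ⟨m, hmq, hKm⟩ := hparts K
      obtain ⟨A, hAH, hAm, hSA⟩ := exists_compl (q := q) H' S inferInstance (by rw [hg]; exact inf_le_left) hSp m
        (by rw [hcH', hKm]) hmq hHM
      obtain ⟨B, hBK, hBm, hSB⟩ := exists_compl (q := q) K S inferInstance inf_le_left hSp m hKm hmq hKM
      obtain ⟨l, hlq, hl1, hl2⟩ := hall_ambient (q := q) M inferInstance
      obtain ⟨L₁, hAL, hLM, hLc⟩ := hl1 A (hAH.trans hHM) (by rw [hAm]; exact hmq)
      obtain ⟨L₂, hBL, hLM2, hLc2⟩ := hl1 B (hBK.trans hKM) (by rw [hBm]; exact hmq)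
      obtain ⟨y, hyM, hy⟩ := hl2 L₁ L₂ hLM hLM2 hLc hLc2
      have hAL2 : MulAut.conj y • A ≤ L₂ := by
        rw [← hy]; exact Subgroup.pointwise_smul_le_pointwise_smul_iff.mpr hAL
      -- induction for `L₂`
      have hL2q : (Nat.card L₂).Coprime q := by rw [hLc2]; exact hlq
      have hcycL : ∀ p : ℕ, p.Prime → ∀ P : Sylow p L₂, IsCyclic P := by
        intro p hp P
        haveI : Fact p.Prime := ⟨hp⟩
        by_cases hpr : p = r
        · have h1 : ¬ p ∣ Nat.card L₂ := by
            rw [hpr, ← hqr]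
            exact (Nat.Prime.coprime_iff_not_dvd hq).mp hL2q.symm
          have h2 : Nat.card P = 1 := by
            obtain ⟨k, hk⟩ := IsPGroup.iff_card.mp P.isPGroup'
            rw [hk]
            by_contra hk1
            apply h1
            have h3 : p ∣ Nat.card P := by
              rw [hk]; apply dvd_pow_self; rintro rfl; exact hk1 (pow_zero p)
            exact h3.trans (Subgroup.card_subgroup_dvd_card _)
          haveI := (Nat.card_eq_one_iff_unique.mp h2).1
          infer_instance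
        · exact cyclic_subgroup (hcyc p hp hpr) L₂ P
      obtain ⟨x, hx⟩ := ih (Nat.card L₂) (by
          rw [← hn']
          refine lt_of_le_of_ne (Subgroup.card_le_card_group _) ?_
          intro h
          rw [h] at hL2q
          have h3 : q ∣ Nat.card G := hqH.trans (Subgroup.card_subgroup_dvd_card _)
          exact hq.one_lt.ne' (Nat.eq_one_of_dvd_coprimes hL2q h3 dvd_rfl)) L₂ rfl inferInstance
        (fun p hp => by haveI : Fact p.Prime := ⟨hp⟩; exact cp_of_cyclic (hcycL p hp))
        (fun p hp _ => hcycL p hp)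
        ((MulAut.conj y • A).subgroupOf L₂) (B.subgroupOf L₂)
        (by rw [H1.SZ.card_subgroupOf_of_le hAL2, H1.SZ.card_subgroupOf_of_le hBL, H1.SZ.card_conj_smul, hAm, hBm])
      rw [H1.SZ.conj_smul_subgroupOf_eq_iff hAL2 hBL] at hx
      have hxM : (x : G) ∈ M := hLM2 x.2
      refine ⟨(x : G) * y * g, ?_⟩
      rw [H1.SZ.conj_mul_smul, ← hH', ← hSA, ← hSB, Subgroup.smul_sup, H1.SZ.conj_mul_smul _ _ A, hx]
      congr 1
      exact H1.SZ.conj_smul_eq_of_mem_normalizer (mul_mem hxM hyM)

end H70.ConjP
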