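import Mathlib
import Cfsg.Agent.Lib.H70.Basic
import Cfsg.Agent.Lib.H1.Frat

/-!
Derived length of `p`-groups: subgroups of index `p ^ k` contain the `k`-th derived subgroup; lower bounds for
wreath products; Sylow subgroups of symmetric groups.
-/

set_option autoImplicit false
open Subgroup
open scoped commutatorElement

namespace H70.DLen

universe u

/-- `G⁽ᵏ⁺¹⁾ ≤ M⁽ᵏ⁾` if `G' ≤ M` -/
theorem derivedSeries_succ_le_map {G : Type*} [Group G] {M : Subgroup G} (h : _root_.commutator G ≤ M) (k : ℕ) :
    derivedSeries G (k + 1) ≤ (derivedSeries M k).map M.subtype := by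
  induction k with
  | zero =>
    rw [derivedSeries_zero, ← MonoidHom.range_eq_map, Subgroup.range_subtype]
    exact h
  | succ k ih =>
    rw [derivedSeries_succ, derivedSeries_succ M, Subgroup.map_commutator]
    exact Subgroup.commutator_mono ih ih

/-- the other direction: `M⁽ᵏ⁾ ≤ G⁽ᵏ⁺¹⁾` if `M ≤ G'` -/
theorem map_le_derivedSeries_succ {G C : Type*} [Group G] [Group C] (i : C →* G)
    (h : i.range ≤ _root_.commutator G) (k : ℕ) : (derivedSeries C k).map i ≤ derivedSeries G (k + 1) := by
  induction k with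
  | zero =>
    rw [derivedSeries_zero, ← MonoidHom.range_eq_map]
    exact h
  | succ k ih =>
    rw [derivedSeries_succ, Subgroup.map_commutator, derivedSeries_succ]
    exact Subgroup.commutator_mono ih ih

theorem commutator_le_of_index_prime {G : Type*} [Group G] {p : ℕ} [hp : Fact p.Prime] {M : Subgroup G} [M.Normal]
    (h : M.index = p) : _root_.commutator G ≤ M := by
  rw [← Subgroup.Normal.quotient_commutative_iff_commutator_le]
  have h1 : Nat.card (G ⧸ M) = p := h
  have := isCyclic_of_prime_card h1
  refine ⟨⟨fun a b => ?_⟩⟩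
  · obtain ⟨g, hg⟩ := this.exists_generator
    obtain ⟨m, rfl⟩ := mem_zpowers_iff.mp (hg a)
    obtain ⟨n, rfl⟩ := mem_zpowers_iff.mp (hg b)
    rw [← zpow_add, ← zpow_add, add_comm]

/-- a subgroup of index `p ^ k` in a finite `p`-group contains the `k`-th derived subgroup -/
theorem derivedSeries_le {p : ℕ} [hp : Fact p.Prime] (k : ℕ) : ∀ (P : Type u) [Group P] [Finite P],
    IsPGroup p P → ∀ H : Subgroup P, H.index = p ^ k → derivedSeries P k ≤ H := by
  induction k with
  | zero =>
    intro P _ _ _ H hH
    rw [pow_zero, Subgroup.index_eq_one] at hH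
    rw [hH]; exact le_top
  | succ k ih =>
    intro P _ _ hP H hH
    have hlt : H ≠ ⊤ := by
      rintro rfl
      rw [Subgroup.index_top] at hH
      exact (Nat.one_lt_pow (by omega) hp.out.one_lt).ne hH
    obtain ⟨M, hM, hHM⟩ := (eq_top_or_exists_le_coatom H).resolve_left hlt
    haveI : M.Normal := by
      have := hP.isNilpotent
      exact Group.normalizerCondition_of_isNilpotent.normal_of_coatom M hM
    have hMi : M.index = p := H1.Frat.index_eq_of_isCoatom hP hM
    have h1 : (H.subgroupOf M).index = p ^ k := by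
      have h2 := Subgroup.relIndex_mul_index hHM
      rw [hH, hMi, pow_succ] at h2
      exact Nat.eq_of_mul_eq_mul_right hp.out.pos h2
    have h3 := ih M (hP.to_subgroup M) (H.subgroupOf M) h1
    refine (derivedSeries_succ_le_map (commutator_le_of_index_prime hMi) k).trans ?_
    refine (Subgroup.map_mono h3).trans ?_
    rw [Subgroup.map_subgroupOf_eq_of_le hHM]

/-- derived series of a surjective image -/
theorem ds_ne_bot_of_surjective {G H : Type*} [Group G] [Group H] {f : G →* H} (hf : Function.Surjective f) {k : ℕ}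
    (h : derivedSeries H k ≠ ⊥) : derivedSeries G k ≠ ⊥ := by
  intro hb
  apply h
  rw [← map_derivedSeries_eq hf, hb, Subgroup.map_bot]

theorem ds_ne_bot_of_injective {G H : Type*} [Group G] [Group H] {f : G →* H} (hf : Function.Injective f) {k : ℕ}
    (h : derivedSeries G k ≠ ⊥) : derivedSeries H k ≠ ⊥ := by
  intro hb
  apply h
  have h1 := map_derivedSeries_le_derivedSeries f k
  rw [hb, le_bot_iff, Subgroup.map_eq_bot_iff_of_injective _ hf] at h1
  exact h1

/-- if a subgroup of `G'` maps onto `D` then the derived length goes up by one -/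
theorem ds_succ_ne_bot {G C D : Type*} [Group G] [Group C] [Group D] {i : C →* G} (hi : Function.Injective i)
    (h : i.range ≤ _root_.commutator G) {f : C →* D} (hf : Function.Surjective f) {k : ℕ}
    (hD : derivedSeries D k ≠ ⊥) : derivedSeries G (k + 1) ≠ ⊥ := by
  intro hb
  have h1 := map_le_derivedSeries_succ i h k
  rw [hb, le_bot_iff, Subgroup.map_eq_bot_iff_of_injective _ hi] at h1
  exact ds_ne_bot_of_surjective hf hD h1

/-- the derived length of a regular wreath product with nontrivial top group -/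
theorem ds_wreath {D Q : Type*} [Group D] [Group Q] [Nontrivial Q] {k : ℕ} (hD : derivedSeries D k ≠ ⊥) :
    derivedSeries (D ≀ᵣ Q) (k + 1) ≠ ⊥ := by
  classical
  obtain ⟨s, hs⟩ := exists_ne (1 : Q)
  set C : Subgroup (D ≀ᵣ Q) := _root_.commutator (D ≀ᵣ Q) ⊓ (RegularWreathProduct.rightHom : D ≀ᵣ Q →* Q).ker with hC
  have hright : ∀ w : C, (w : D ≀ᵣ Q).right = 1 := fun w => (Subgroup.mem_inf.mp w.2).2
  let f : C →* D :=
    { toFun := fun w => (w : D ≀ᵣ Q).left 1
      map_one' := rfl
      map_mul' := by
        intro a b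
        simp [hright a] }
  refine ds_succ_ne_bot (i := C.subtype) C.subtype_injective ?_ (f := f) ?_ hD
  · rw [Subgroup.range_subtype]; exact inf_le_left
  · intro d
    set u : D ≀ᵣ Q := ⟨Pi.mulSingle 1 d, 1⟩ with hu
    set t : D ≀ᵣ Q := RegularWreathProduct.inl s with ht
    refine ⟨⟨⁅u, t⁆, Subgroup.mem_inf.mpr ⟨Subgroup.commutator_mem_commutator (mem_top _) (mem_top _), ?_⟩⟩, ?_⟩
    · rw [MonoidHom.mem_ker, map_commutatorElement]
      have : RegularWreathProduct.rightHom u = 1 := rfl
      rw [this, commutatorElement_one_left]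
    · show (⁅u, t⁆ : D ≀ᵣ Q).left 1 = d
      rw [commutatorElement_def]
      simp [hu, ht, Pi.mulSingle, Function.update, hs]

theorem ds_iterated (Q : Type u) [Group Q] [Nontrivial Q] (n : ℕ) :
    derivedSeries (IteratedWreathProduct Q (n + 1)) n ≠ ⊥ := by
  induction n with
  | zero =>
    rw [derivedSeries_zero]
    have : Nontrivial (IteratedWreathProduct Q 1) := by
      obtain ⟨s, hs⟩ := exists_ne (1 : Q)
      refine ⟨(RegularWreathProduct.inl s : PUnit ≀ᵣ Q), (1 : PUnit ≀ᵣ Q), ?_⟩
      intro h
      apply hs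
      have := congrArg RegularWreathProduct.right h
      simpa using this
    exact top_ne_bot
  | succ n ih => exact ds_wreath ih

theorem main4014 (p : ℕ) [hp : Fact p.Prime] (n : ℕ) (hn : 1 ≤ n) (P : Sylow p (Equiv.Perm (Fin n))) :
    derivedSeries ↥(P : Subgroup (Equiv.Perm (Fin n))) (Nat.log p n) = ⊥ ∧
    (1 ≤ Nat.log p n → derivedSeries ↥(P : Subgroup (Equiv.Perm (Fin n))) (Nat.log p n - 1) ≠ ⊥) := by
  constructor
  · rw [eq_bot_iff]
    intro g hg
    rw [mem_bot]
    apply Subtype.ext
    apply Equiv.ext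
    intro x
    have hP : IsPGroup p (P : Subgroup (Equiv.Perm (Fin n))) := P.isPGroup'
    set H := MulAction.stabilizer (P : Subgroup (Equiv.Perm (Fin n))) x with hH
    obtain ⟨j, hj⟩ := hP.index H
    have h1 : H.index ≤ n := by
      rw [hH, MulAction.index_stabilizer]
      have := Set.ncard_le_card (MulAction.orbit (P : Subgroup (Equiv.Perm (Fin n))) x)
      simpa using this
    rw [hj] at h1
    have h2 : j ≤ Nat.log p n := Nat.le_log_of_pow_le hp.out.one_lt h1
    have h3 := (derivedSeries_antitone _ h2).trans (derivedSeries_le j _ hP H hj)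
    exact h3 hg
  · intro h1
    obtain ⟨k, hk⟩ : ∃ k, Nat.log p n = k + 1 := ⟨Nat.log p n - 1, by omega⟩
    rw [hk, Nat.add_sub_cancel]
    have hpn : p ^ (k + 1) ≤ n := by rw [← hk]; exact Nat.pow_log_le_self p (by omega)
    obtain ⟨P₀⟩ : Nonempty (Sylow p (Equiv.Perm (Fin (p ^ (k + 1))))) := inferInstance
    have e := Sylow.mulEquivIteratedWreathProduct p (k + 1) (Fin (p ^ (k + 1))) (by simp) (Multiplicative (ZMod p))
      (by simp) P₀
    haveI : Nontrivial (Multiplicative (ZMod p)) := by
      haveI : Fact (1 < p) := ⟨hp.out.one_lt⟩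
      infer_instance
    have h2 := ds_ne_bot_of_injective (f := e.symm.toMonoidHom) e.symm.injective (ds_iterated (Multiplicative (ZMod p)) k)
    -- embed
    set ι := Equiv.Perm.viaEmbeddingHom (Fin.castLEEmb hpn) with hι
    have hιi : Function.Injective ι := Equiv.Perm.viaEmbeddingHom_injective _
    have h3 : IsPGroup p ((P₀ : Subgroup _).map ι) := P₀.isPGroup'.map _
    obtain ⟨P₁, hP₁⟩ := h3.exists_le_sylow
    have h4 : Function.Injective ((Subgroup.inclusion hP₁).comp (ι.subgroupMap (P₀ : Subgroup _))) := by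
      intro a b hab
      have h5 := Subgroup.inclusion_injective hP₁ hab
      exact Subtype.ext (hιi (congrArg Subtype.val h5))
    have h5 := ds_ne_bot_of_injective h4 h2
    exact ds_ne_bot_of_injective (f := (P₁.equiv P).toMonoidHom) (P₁.equiv P).injective h5

end H70.DLen
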