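import Mathlib
import Cfsg.Agent.Lib.H1.Frat
import Cfsg.Agent.Lib.H4.CharCount
import Cfsg.Agent.Lib.H70.Real

/-!
2-groups in which the normalizer of every cyclic subgroup centralizes it.
-/

set_option autoImplicit false
open Subgroup

namespace H70.Irrational

variable {G : Type*} [Group G]

/-- the pairs `(x, y)` with `y` inverting `x` correspond to the pairs with equal squares -/
theorem card_inverting [Finite G] :
    Nat.card {p : G × G // p.2 * p.1 * p.2⁻¹ = p.1⁻¹} =
      Nat.card {p : G × G // p.1 * p.1 = p.2 * p.2} := by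
  refine Nat.card_congr
    { toFun := fun p => ⟨(p.1.1 * p.1.2, p.1.2), ?_⟩
      invFun := fun p => ⟨(p.1.1 * p.1.2⁻¹, p.1.2), ?_⟩
      left_inv := ?_
      right_inv := ?_ }
  · obtain ⟨⟨x, y⟩, h⟩ := p
    simp only at h ⊢
    calc x * y * (x * y) = x * (y * x * y⁻¹) * (y * y) := by group
      _ = y * y := by rw [h]; group
  · obtain ⟨⟨u, y⟩, h⟩ := p
    simp only at h ⊢
    have h1 : y * (u * y⁻¹) * y⁻¹ * (u * y⁻¹) = 1 := by
      have h2 : u * y⁻¹ * y⁻¹ * u = 1 := by
        have : y⁻¹ * y⁻¹ = u⁻¹ * u⁻¹ := by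
          rw [← mul_inv_rev, ← mul_inv_rev, h]
        calc u * y⁻¹ * y⁻¹ * u = u * (y⁻¹ * y⁻¹) * u := by group
          _ = 1 := by rw [this]; group
      calc y * (u * y⁻¹) * y⁻¹ * (u * y⁻¹) = y * (u * y⁻¹ * y⁻¹ * u) * y⁻¹ := by group
        _ = 1 := by rw [h2]; group
    exact eq_inv_of_mul_eq_one_left h1
  · rintro ⟨⟨x, y⟩, h⟩
    simp
  · rintro ⟨⟨x, y⟩, h⟩
    simp

/-- Cauchy–Schwarz for squares -/
theorem sq_card_le [Finite G] (Φ : Subgroup G) (hΦ : ∀ x : G, x * x ∈ Φ) :
    Nat.card G ^ 2 ≤ Nat.card Φ * Nat.card {p : G × G // p.1 * p.1 = p.2 * p.2} := by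
  classical
  have : Fintype G := Fintype.ofFinite G
  let sq : G → ℕ := fun g => (Finset.univ.filter fun u : G => u * u = g).card
  have h1 : Nat.card {p : G × G // p.1 * p.1 = p.2 * p.2} =
      ∑ g ∈ Finset.univ.filter (fun g => g ∈ Φ), sq g ^ 2 := by
    rw [Nat.card_eq_fintype_card, Fintype.card_subtype]
    have h2 : (Finset.univ.filter fun p : G × G => p.1 * p.1 = p.2 * p.2) =
        (Finset.univ.filter (fun g => g ∈ Φ)).biUnion (fun g =>
          (Finset.univ.filter fun u : G => u * u = g) ×ˢ
            (Finset.univ.filter fun u : G => u * u = g)) := by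
      ext ⟨a, b⟩
      simp only [Finset.mem_filter, Finset.mem_univ, true_and, Finset.mem_biUnion,
        Finset.mem_product]
      constructor
      · intro h
        exact ⟨b * b, hΦ b, h, rfl⟩
      · rintro ⟨g, _, h3, h4⟩
        rw [h3, h4]
    rw [h2, Finset.card_biUnion]
    · refine Finset.sum_congr rfl fun g _ => ?_
      rw [Finset.card_product, pow_two]
    · intro g _ g' _ hne
      rw [Function.onFun, Finset.disjoint_left]
      rintro ⟨a, b⟩ h3 h4
      simp only [Finset.mem_filter, Finset.mem_univ, true_and, Finset.mem_product] at h3 h4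
      exact hne (h3.1.symm.trans h4.1)
  have h2 : Nat.card G = ∑ g ∈ Finset.univ.filter (fun g => g ∈ Φ), sq g := by
    rw [Nat.card_eq_fintype_card, ← Finset.card_univ]
    rw [Finset.card_eq_sum_card_fiberwise (f := fun u : G => u * u)
      (t := Finset.univ.filter (fun g => g ∈ Φ))]
    intro u _
    simpa using hΦ u
  have h3 : (Finset.univ.filter (fun g => g ∈ Φ)).card = Nat.card Φ := by
    rw [Nat.card_eq_fintype_card, ← Fintype.card_subtype]
  rw [h1, h2, ← h3]
  exact sq_sum_le_card_mul_sum_sq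

open Classical in
theorem sum_card_centralizer [Finite G] [Fintype G] (Q : G → Prop)
    (hQ : ∀ x y : G, Q x → Q (y * x * y⁻¹)) :
    ∑ x : G, (if Q x then Nat.card (centralizer ({x} : Set G)) else 0) =
      Nat.card G * Nat.card {c : ConjClasses G // ∃ x : G, ConjClasses.mk x = c ∧ Q x} := by
  have : Fintype (ConjClasses G) := Fintype.ofFinite _
  rw [← Finset.sum_fiberwise Finset.univ (fun x : G => ConjClasses.mk x)]
  have h1 : ∀ c : ConjClasses G, ∑ x ∈ Finset.univ.filter (fun x : G => ConjClasses.mk x = c),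
      (if Q x then Nat.card (centralizer ({x} : Set G)) else 0) =
      if ∃ x : G, ConjClasses.mk x = c ∧ Q x then Nat.card G else 0 := by
    intro c
    obtain ⟨a, rfl⟩ := ConjClasses.exists_rep c
    have hQa : ∀ x : G, ConjClasses.mk x = ConjClasses.mk a → (Q x ↔ Q a) := by
      intro x hx
      rw [ConjClasses.mk_eq_mk_iff_isConj] at hx
      constructor
      · intro h
        obtain ⟨y, rfl⟩ := isConj_iff.mp hx
        exact hQ _ _ h
      · intro h
        obtain ⟨y, rfl⟩ := isConj_iff.mp hx.symm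
        exact hQ _ _ h
    by_cases h : Q a
    · rw [if_pos ⟨a, rfl, h⟩]
      have h2 := H4.CharCount.card_centralizer_mul_card_class a
      rw [← h2, Finset.sum_congr rfl (g := fun _ => Nat.card (centralizer ({a} : Set G)))]
      · rw [Finset.sum_const, smul_eq_mul, mul_comm]
        congr 1
        rw [Nat.card_eq_fintype_card, Fintype.card_subtype]
        congr 1
        ext x
        simp only [Finset.mem_filter, Finset.mem_univ, true_and, ConjClasses.mk_eq_mk_iff_isConj]
        exact ⟨fun h => h.symm, fun h => h.symm⟩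
      · intro x hx
        have hx' := (Finset.mem_filter.mp hx).2
        rw [if_pos ((hQa x hx').mpr h)]
        have h3 := H4.CharCount.card_centralizer_mul_card_class x
        have h4 : Nat.card {y : G // IsConj x y} = Nat.card {y : G // IsConj a y} := by
          rw [ConjClasses.mk_eq_mk_iff_isConj] at hx'
          exact Nat.card_congr (Equiv.subtypeEquivRight fun y =>
            ⟨fun h => hx'.symm.trans h, fun h => hx'.trans h⟩)
        rw [h4, ← h2] at h3
        have hpos : 0 < Nat.card {y : G // IsConj a y} := by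
          have : Nonempty {y : G // IsConj a y} := ⟨⟨a, IsConj.refl a⟩⟩
          exact Nat.card_pos
        exact Nat.eq_of_mul_eq_mul_right hpos h3
    · rw [if_neg, Finset.sum_eq_zero]
      · intro x hx
        rw [if_neg]
        rw [hQa x (Finset.mem_filter.mp hx).2]; exact h
      · rintro ⟨x, hx, hx'⟩
        exact h ((hQa x hx).mp hx')
  rw [Finset.sum_congr rfl (fun c _ => h1 c), ← Finset.sum_filter, Finset.sum_const, smul_eq_mul,
    mul_comm]
  congr 1
  rw [Nat.card_eq_fintype_card, Fintype.card_subtype]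

/-- `N(⟨y⟩) ≤ C(y)`: elements inverted are involutions -/
theorem sq_eq_one_of_inverted
    (hirr : ∀ y : G, normalizer ((zpowers y : Subgroup G) : Set G) ≤ centralizer {y})
    {x y : G} (h : y * x * y⁻¹ = x⁻¹) : x * x = 1 ∧ y ∈ centralizer ({x} : Set G) := by
  have h1 := hirr x (H70.Real.mem_normalizer_zpowers_of_inv h)
  refine ⟨?_, h1⟩
  rw [mem_centralizer_singleton_iff] at h1
  have h2 : y * x * y⁻¹ = x := by rw [h1]; group
  rw [h] at h2
  calc x * x = x⁻¹ * x := by rw [h2]
    _ = 1 := inv_mul_cancel x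

/-- number of inverting pairs -/
theorem card_inverting_eq [Finite G]
    (hirr : ∀ y : G, normalizer ((zpowers y : Subgroup G) : Set G) ≤ centralizer {y}) :
    Nat.card {p : G × G // p.2 * p.1 * p.2⁻¹ = p.1⁻¹} =
      Nat.card G * Nat.card {c : ConjClasses G // ∃ x : G, ConjClasses.mk x = c ∧ x * x = 1} := by
  classical
  have : Fintype G := Fintype.ofFinite G
  rw [← sum_card_centralizer (fun x : G => x * x = 1)]
  · have e : {p : G × G // p.2 * p.1 * p.2⁻¹ = p.1⁻¹} ≃
        (Σ x : G, {y : G // y * x * y⁻¹ = x⁻¹}) :=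
      { toFun := fun p => ⟨p.1.1, p.1.2, p.2⟩
        invFun := fun q => ⟨(q.1, q.2.1), q.2.2⟩
        left_inv := fun p => rfl
        right_inv := fun q => rfl }
    rw [Nat.card_congr e, Nat.card_sigma]
    refine Finset.sum_congr rfl fun x _ => ?_
    split_ifs with hx
    · refine Nat.card_congr (Equiv.subtypeEquivRight fun y => ?_)
      have hxi : x⁻¹ = x := (eq_inv_of_mul_eq_one_left hx).symm
      rw [hxi, mem_centralizer_singleton_iff, mul_inv_eq_iff_eq_mul]
    · have : IsEmpty {y : G // y * x * y⁻¹ = x⁻¹} :=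
        ⟨fun y => hx (sq_eq_one_of_inverted hirr y.2).1⟩
      exact Nat.card_of_isEmpty
  · intro x y h
    calc y * x * y⁻¹ * (y * x * y⁻¹) = y * (x * x) * y⁻¹ := by group
      _ = 1 := by rw [h]; group

/-- the number of classes of solutions of `x² = 1` -/
theorem card_classes_eq [Finite G] :
    Nat.card {c : ConjClasses G // ∃ x : G, ConjClasses.mk x = c ∧ x * x = 1} =
      Nat.card {c : ConjClasses G // ∃ y : G, ConjClasses.mk y = c ∧ orderOf y = 2} + 1 := by
  classical
  have h1 : ∀ c : ConjClasses G, (∃ x : G, ConjClasses.mk x = c ∧ x * x = 1) ↔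
      ((∃ y : G, ConjClasses.mk y = c ∧ orderOf y = 2) ∨ c = ConjClasses.mk 1) := by
    intro c
    constructor
    · rintro ⟨x, rfl, hx⟩
      by_cases h : x = 1
      · right; rw [h]
      · left
        refine ⟨x, rfl, ?_⟩
        exact orderOf_eq_prime (by rw [sq]; exact hx) h
    · rintro (⟨y, rfl, hy⟩ | rfl)
      · exact ⟨y, rfl, by rw [← sq, ← hy]; exact pow_orderOf_eq_one y⟩
      · exact ⟨1, rfl, by simp⟩
  have hset : {c : ConjClasses G | ∃ x : G, ConjClasses.mk x = c ∧ x * x = 1} =
      insert (ConjClasses.mk 1) {c : ConjClasses G | ∃ y : G, ConjClasses.mk y = c ∧ orderOf y = 2} := by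
    ext c
    rw [Set.mem_insert_iff, Set.mem_ofPred_eq, Set.mem_ofPred_eq, h1 c, or_comm]
  have hnot : ConjClasses.mk (1 : G) ∉
      {c : ConjClasses G | ∃ y : G, ConjClasses.mk y = c ∧ orderOf y = 2} := by
    rintro ⟨y, hy, hy2⟩
    rw [ConjClasses.mk_eq_mk_iff_isConj, isConj_one_left] at hy
    rw [hy, orderOf_one] at hy2
    omega
  have h2 := Set.ncard_insert_of_notMem hnot (Set.toFinite _)
  rw [← hset] at h2
  exact h2

theorem card_quotient_le [Finite G] (hP : IsPGroup 2 G)
    (hirr : ∀ y : G, normalizer ((zpowers y : Subgroup G) : Set G) ≤ centralizer {y}) :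
    Nat.card (G ⧸ frattini G) ≤
      Nat.card {c : ConjClasses G // ∃ y : G, ConjClasses.mk y = c ∧ orderOf y = 2} + 1 := by
  have : Fact (Nat.Prime 2) := ⟨Nat.prime_two⟩
  have h1 := sq_card_le (frattini G) (fun x => by
    have := H1.Frat.pow_mem_frattini (p := 2) hP x
    rwa [sq] at this)
  rw [← card_inverting, card_inverting_eq hirr, card_classes_eq] at h1
  have h2 := Subgroup.card_mul_index (frattini G)
  rw [← Subgroup.index_eq_card]
  have hpos : 0 < Nat.card G := Nat.card_pos
  have h3 : (frattini G).index * (Nat.card (frattini G) * Nat.card G) ≤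
      (Nat.card {c : ConjClasses G // ∃ y : G, ConjClasses.mk y = c ∧ orderOf y = 2} + 1) *
      (Nat.card (frattini G) * Nat.card G) := by
    calc (frattini G).index * (Nat.card (frattini G) * Nat.card G)
        = (Nat.card (frattini G) * (frattini G).index) * Nat.card G := by ring
      _ = Nat.card G ^ 2 := by rw [h2, sq]
      _ ≤ _ := h1
      _ = _ := by ring
  exact Nat.le_of_mul_le_mul_right h3 (Nat.mul_pos Nat.card_pos hpos)

theorem card_classes_le [Finite G] :
    Nat.card {c : ConjClasses G // ∃ y : G, ConjClasses.mk y = c ∧ orderOf y = 2} + 1 ≤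
      Nat.card (closure {y : G | orderOf y = 2}) := by
  classical
  rw [← card_classes_eq]
  have hex : ∀ c : {c : ConjClasses G // ∃ x : G, ConjClasses.mk x = c ∧ x * x = 1},
      ∃ y : closure {y : G | orderOf y = 2}, ConjClasses.mk (y : G) = c.1 := by
    rintro ⟨c, x, hx, hx2⟩
    by_cases h : x = 1
    · exact ⟨1, (congrArg ConjClasses.mk h.symm).trans hx⟩
    · exact ⟨⟨x, subset_closure (orderOf_eq_prime (by rw [sq]; exact hx2) h)⟩, hx⟩
  choose f hf using hex
  refine Nat.card_le_card_of_injective f ?_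
  intro a b hab
  apply Subtype.ext
  rw [← hf a, ← hf b, hab]

end H70.Irrational
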