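import Mathlib
import Cfsg.Agent.Lib.H70.RegG

/-!
Groups in which no centralizer of a nontrivial element is of prime power order: exclusions.
-/

set_option autoImplicit false

namespace H70.RegT

open Subgroup
open scoped Pointwise

/-- no centralizer of a nontrivial element has prime power order -/
def Mix (M : Type*) [Group M] : Prop :=
  ∀ x : M, x ≠ 1 → ∀ p : ℕ, p.Prime → ∃ r : ℕ, r.Prime ∧ r ≠ p ∧ ∃ w : M, w ≠ 1 ∧ Commute x w ∧ ∃ k : ℕ, w ^ (r ^ k) = 1

theorem Mix.of_equiv {M N : Type*} [Group M] [Group N] (h : Mix M) (e : M ≃* N) : Mix N := by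
  intro x hx p hp
  obtain ⟨r, hr, hrp, w, hw1, hxw, k, hk⟩ := h (e.symm x) (by
    intro h1; apply hx; rw [← e.apply_symm_apply x, h1, map_one]) p hp
  refine ⟨r, hr, hrp, e w, ?_, ?_, k, ?_⟩
  · intro h1; apply hw1; rw [← e.symm_apply_apply w, h1, map_one]
  · have := hxw.map e
    rwa [e.apply_symm_apply] at this
  · rw [← map_pow, hk, map_one]

theorem eq_one_of_pow_pow {M : Type*} [Group M] {p r : ℕ} (hp : p.Prime) (hr : r.Prime) (hrp : r ≠ p) {w : M} {k l : ℕ}
    (h1 : w ^ (r ^ k) = 1) (h2 : w ^ (p ^ l) = 1) : w = 1 := by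
  have h3 : orderOf w ∣ r ^ k := orderOf_dvd_of_pow_eq_one h1
  have h4 : orderOf w ∣ p ^ l := orderOf_dvd_of_pow_eq_one h2
  have h5 : (r ^ k).Coprime (p ^ l) := Nat.Coprime.pow _ _ ((Nat.coprime_primes hr hp).mpr hrp)
  have h6 := Nat.eq_one_of_dvd_coprimes h5 h3 h4
  exact orderOf_eq_one_iff.mp h6

theorem not_mix_two {F : Type*} [Field F] [Finite F] {L : Type*} [Group L]
    (φ : L →* Matrix (Fin 2) (Fin 2) F) (hφ : Function.Injective φ) (u l : L)
    (hu : φ u = !![1, 1; 0, 1]) (hl : φ l = !![1, 0; 1, 1]) : ¬ Mix (L ⧸ center L) := by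
  intro hM
  obtain ⟨p, hchar⟩ := CharP.exists F
  have hp : p.Prime := CharP.char_is_prime F p
  haveI : Fact p.Prime := ⟨hp⟩
  -- entries
  have hz : ∀ z ∈ center L, φ z 0 1 = 0 ∧ φ z 1 0 = 0 ∧ φ z 0 0 = φ z 1 1 := by
    intro z hz
    have h1 : φ z * φ u = φ u * φ z := by rw [← map_mul, ← map_mul, mem_center_iff.mp hz u]
    have h2 : φ z * φ l = φ l * φ z := by rw [← map_mul, ← map_mul, mem_center_iff.mp hz l]
    rw [hu] at h1
    rw [hl] at h2
    have e1 := congrFun (congrFun h1 0) 0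
    have e2 := congrFun (congrFun h1 0) 1
    have e3 := congrFun (congrFun h2 0) 0
    simp [Matrix.mul_apply, Fin.sum_univ_two] at e1 e2 e3
    refine ⟨?_, ?_, ?_⟩
    · first | exact e3 | linear_combination e3
    · first | exact e1 | linear_combination e1
    · first | linear_combination e2 | linear_combination -e2
  have hu1 : (QuotientGroup.mk u : L ⧸ center L) ≠ 1 := by
    intro h
    rw [QuotientGroup.eq_one_iff] at h
    have := (hz u h).1
    rw [hu] at this
    simp at this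
  obtain ⟨r, hr, hrp, w, hw1, hxw, k, hk⟩ := hM _ hu1 p hp
  obtain ⟨y, rfl⟩ := QuotientGroup.mk_surjective w
  apply hw1
  apply eq_one_of_pow_pow hp hr hrp hk (l := 1)
  rw [pow_one, ← QuotientGroup.mk_pow, QuotientGroup.eq_one_iff]
  -- the commutation
  have h1 : (QuotientGroup.mk (y * u) : L ⧸ center L) = QuotientGroup.mk (u * y) := hxw.symm.eq
  rw [QuotientGroup.eq] at h1
  set z := (y * u)⁻¹ * (u * y) with hzdef
  have h2 : u * y = y * u * z := by rw [hzdef]; group
  obtain ⟨z1, z2, z3⟩ := hz z h1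
  have h3 : φ u * φ y = φ y * φ u * φ z := by rw [← map_mul, h2, map_mul, map_mul]
  have hdet : (φ y).det ≠ 0 := by
    intro h
    have h4 : φ y * φ y⁻¹ = 1 := by rw [← map_mul, mul_inv_cancel, map_one]
    have h5 := congrArg Matrix.det h4
    rw [Matrix.det_mul, h, zero_mul, Matrix.det_one] at h5
    exact zero_ne_one h5
  have hY : φ y = !![φ y 0 0, φ y 0 1; φ y 1 0, φ y 1 1] := Matrix.eta_fin_two _
  have hZ : φ z = !![φ z 0 0, 0; 0, φ z 0 0] := by
    rw [Matrix.eta_fin_two (φ z), z1, z2, z3]; simp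
  set a := φ y 0 0 with ha
  set b := φ y 0 1 with hb
  set c := φ y 1 0 with hc
  set d := φ y 1 1 with hd
  set t := φ z 0 0 with ht
  rw [hu, hY, hZ] at h3
  have e1 := congrFun (congrFun h3 0) 0
  have e2 := congrFun (congrFun h3 0) 1
  have e3 := congrFun (congrFun h3 1) 0
  have e4 := congrFun (congrFun h3 1) 1
  simp [Matrix.mul_apply, Fin.sum_univ_two] at e1 e2 e3 e4
  have hdet' : a * d - b * c ≠ 0 := by
    rw [hY, Matrix.det_fin_two] at hdet
    simpa using hdet
  have hc0 : c = 0 := by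
    by_contra hc0
    have ht1 : t = 1 := by
      apply mul_left_cancel₀ hc0
      linear_combination -e3
    rw [ht1] at e4
    apply hc0
    linear_combination -e4
  have ha0 : a ≠ 0 := by
    rintro h
    apply hdet'
    rw [h, hc0]; ring
  have ht1 : t = 1 := by
    apply mul_left_cancel₀ ha0
    rw [hc0] at e1
    linear_combination -e1
  have had : d = a := by
    rw [ht1] at e2
    linear_combination e2
  -- the power
  have hpow : ∀ n : ℕ, (φ y) ^ n = !![a ^ n, n * a ^ (n - 1) * b; 0, a ^ n] := by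
    intro n
    induction n with
    | zero => rw [pow_zero, Matrix.one_fin_two]; simp
    | succ n ih =>
      rw [pow_succ, ih, hY, hc0, had, Matrix.mul_fin_two]
      rcases n with _ | n
      · simp
      · ext i j
        fin_cases i <;> fin_cases j <;> simp <;> ring
  have hyp : φ (y ^ p) = !![a ^ p, 0; 0, a ^ p] := by
    rw [map_pow, hpow p, CharP.cast_eq_zero F p]
    simp
  rw [mem_center_iff]
  intro g
  apply hφ
  rw [map_mul, map_mul, hyp, Matrix.eta_fin_two (φ g), Matrix.mul_fin_two, Matrix.mul_fin_two]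
  simp
  refine ⟨⟨mul_comm _ _, mul_comm _ _⟩, mul_comm _ _, mul_comm _ _⟩

theorem not_mix_psl2 (F : Type*) [Field F] [Finite F] : ¬ Mix (Matrix.ProjectiveSpecialLinearGroup (Fin 2) F) := by
  let φ : Matrix.SpecialLinearGroup (Fin 2) F →* Matrix (Fin 2) (Fin 2) F :=
    { toFun := fun g => g.1
      map_one' := rfl
      map_mul' := fun _ _ => rfl }
  exact not_mix_two φ Subtype.val_injective ⟨!![1, 1; 0, 1], by simp [Matrix.det_fin_two]⟩
    ⟨!![1, 0; 1, 1], by simp [Matrix.det_fin_two]⟩ rfl rfl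

theorem not_mix_pgl2 (F : Type*) [Field F] [Finite F] : ¬ Mix (GL (Fin 2) F ⧸ center (GL (Fin 2) F)) := by
  exact not_mix_two (Units.coeHom _) Units.val_injective
    (⟨!![1, 1; 0, 1], !![1, -1; 0, 1], by rw [Matrix.mul_fin_two, Matrix.one_fin_two]; simp, by rw [Matrix.mul_fin_two, Matrix.one_fin_two]; simp⟩ : GL (Fin 2) F)
    (⟨!![1, 0; 1, 1], !![1, 0; -1, 1], by rw [Matrix.mul_fin_two, Matrix.one_fin_two]; simp, by rw [Matrix.mul_fin_two, Matrix.one_fin_two]; simp⟩ : GL (Fin 2) F)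
    rfl rfl

theorem Mix.hughes {M : Type*} [Group M] (h : Mix M) {p : ℕ} (hp : p.Prime) :
    Subgroup.closure {g : M | g ^ p ≠ 1} = ⊤ := by
  set K := Subgroup.closure {g : M | g ^ p ≠ 1} with hK
  have hmem : ∀ g : M, g ^ p ≠ 1 → g ∈ K := fun g hg => Subgroup.subset_closure hg
  rw [eq_top_iff]
  intro x _
  by_contra hx
  have hx1 : x ≠ 1 := by rintro rfl; exact hx (one_mem _)
  have hxp : x ^ p = 1 := by
    by_contra h1; exact hx (hmem x h1)
  obtain ⟨r, hr, hrp, w, hw1, hxw, k, hk⟩ := h x hx1 p hp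
  have hwp : w ^ p ≠ 1 := by
    intro h1
    exact hw1 (eq_one_of_pow_pow hp hr hrp hk (l := 1) (by rwa [pow_one]))
  have hxwp : (x * w) ^ p ≠ 1 := by
    rw [hxw.mul_pow, hxp, one_mul]; exact hwp
  apply hx
  have h2 := mul_mem (hmem _ hxwp) (inv_mem (hmem _ hwp))
  rwa [mul_inv_cancel_right] at h2

end H70.RegT
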