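import Mathlib
import Cfsg.Agent.Lib.H70.ItoA
import Cfsg.Agent.Lib.H70.RegH
import Cfsg.Agent.Lib.H70.Real
import Cfsg.Agent.Lib.H12.KW7

/-!
Three class sizes, no proper inclusion of centralizers of noncentral elements.
-/

set_option autoImplicit false

namespace H70.RegT

open Subgroup Cfsg
open scoped Pointwise

universe u

/-- the statement about partitions -/
def PS : Prop := ∀ (M : Type u) [Group M] [Finite M], Mix M → ∀ S : Set (Subgroup M),
    (∃ H ∈ S, ∃ K ∈ S, H ≠ K) → (∀ H ∈ S, H ≠ ⊥) →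
    (∀ g : M, g ≠ 1 → ∃! H : Subgroup M, H ∈ S ∧ g ∈ H) →
    (∀ A ∈ S, ∀ a ∈ A, ∀ b ∈ A, a * b = b * a) → Group.IsSolvable M

variable {G : Type u} [Group G]

theorem solvable_of_center [Finite G] (h3 : Group.IsSolvable (G ⧸ center G)) : Group.IsSolvable G := by
  haveI h0 : Group.IsSolvable (center G) := by
    apply Group.isSolvable_of_comm
    intro a b
    apply Subtype.ext
    exact (mem_center_iff.mp b.2 a)
  exact Group.isSolvable_of_ker_le_range (center G).subtype (QuotientGroup.mk' (center G)) (by simp)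

/-- case A-II -/
theorem aii (hPS : PS.{u}) [Finite G]
    (hC : ∀ x : G, x ∉ center G → ∀ u v : G, Commute x u → Commute x v → Commute u v)
    (hmix : ∀ x : G, x ∉ center G → ∀ p : ℕ, p.Prime → ∃ r : ℕ, r.Prime ∧ r ≠ p ∧ ∃ w : G, w ∉ center G ∧
      Commute x w ∧ ∃ k : ℕ, w ^ (r ^ k) = 1) : Group.IsSolvable G := by
  by_cases hex : ∃ x : G, x ∉ center G
  swap
  · push Not at hex
    apply Group.isSolvable_of_comm
    intro a b
    exact (commute_of_center (hex a) b).eq
  obtain ⟨x0, hx0⟩ := hex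
  obtain ⟨y0, hxy0⟩ : ∃ y0 : G, ¬ Commute x0 y0 := by
    by_contra hcon
    push Not at hcon
    exact hx0 (mem_center_of_forall hcon)
  have hy0 : y0 ∉ center G := fun h => hxy0 (commute_of_center h x0).symm
  apply solvable_of_center
  set M := G ⧸ center G with hMdef
  have hne : ∀ x : G, (QuotientGroup.mk x : M) ≠ 1 ↔ x ∉ center G := by
    intro x
    rw [Ne, QuotientGroup.eq_one_iff]
  -- components
  have hmem : ∀ x y : G, (QuotientGroup.mk y : M) ∈ (centralizer ({x} : Set G)).map (QuotientGroup.mk' (center G)) ↔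
      Commute x y := by
    intro x y
    constructor
    · rintro ⟨c, hc, hcy⟩
      have h1 : (QuotientGroup.mk c : M) = QuotientGroup.mk y := hcy
      rw [QuotientGroup.eq] at h1
      have h2 : Commute x c := (mem_centralizer_singleton_iff.mp hc).symm
      have h3 := h2.mul_right (commute_of_center h1 x).symm
      rwa [mul_inv_cancel_left] at h3
    · intro h
      exact ⟨y, mem_centralizer_singleton_iff.mpr h.eq.symm, rfl⟩
  have hceq : ∀ x y : G, x ∉ center G → y ∉ center G → Commute x y →
      centralizer ({x} : Set G) = centralizer ({y} : Set G) := by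
    intro x y hx hy hxy
    ext g
    rw [mem_centralizer_singleton_iff, mem_centralizer_singleton_iff]
    constructor
    · intro h
      exact (hC x hx g y (Commute.symm h) hxy).eq
    · intro h
      exact (hC y hy g x (Commute.symm h) hxy.symm).eq
  apply hPS M ?_ {A : Subgroup M | ∃ x : G, x ∉ center G ∧ A = (centralizer ({x} : Set G)).map (QuotientGroup.mk' (center G))}
  · refine ⟨_, ⟨x0, hx0, rfl⟩, _, ⟨y0, hy0, rfl⟩, ?_⟩
    intro h
    apply hxy0
    have h1 := (hmem x0 x0).mpr (Commute.refl x0)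
    rw [h, hmem] at h1
    exact h1.symm
  · rintro _ ⟨x, hx, rfl⟩ hbot
    have h1 := (hmem x x).mpr (Commute.refl x)
    rw [hbot, mem_bot] at h1
    exact (hne x).mpr hx h1
  · intro g hg
    obtain ⟨y, rfl⟩ := QuotientGroup.mk_surjective g
    rw [hne] at hg
    refine ⟨_, ⟨⟨y, hg, rfl⟩, (hmem y y).mpr (Commute.refl y)⟩, ?_⟩
    rintro _ ⟨⟨x, hx, rfl⟩, hxy⟩
    rw [hmem] at hxy
    rw [hceq x y hx hg hxy]
  · rintro _ ⟨x, hx, rfl⟩ _ ⟨a, ha, rfl⟩ _ ⟨b, hb, rfl⟩
    rw [← map_mul, ← map_mul, (hC x hx a b (mem_centralizer_singleton_iff.mp ha).symm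
      (mem_centralizer_singleton_iff.mp hb).symm).eq]
  · intro x hx p hp
    obtain ⟨y, rfl⟩ := QuotientGroup.mk_surjective x
    rw [hne] at hx
    obtain ⟨r, hr, hrp, w, hw, hyw, k, hk⟩ := hmix y hx p hp
    refine ⟨r, hr, hrp, QuotientGroup.mk w, (hne w).mpr hw, ?_, k, ?_⟩
    · exact hyw.map (QuotientGroup.mk' (center G))
    · rw [← QuotientGroup.mk_pow, hk]; rfl

/-- an abelian `p`-complement -/
theorem compl_Hs [Finite G] {p : ℕ} (hp : p.Prime) (hA : HA p G) {x : G} (hx : X p x)
    (h : ∀ q : ℕ, q.Prime → q ≠ p →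
      (Nat.card (centralizer ({x} : Set G))).factorization q = (Nat.card G).factorization q) :
    ∃ H : Subgroup G, IsMulCommutative H ∧ ¬ p ∣ Nat.card H ∧ ∃ k : ℕ, H.index = p ^ k := by
  refine ⟨Hs p x, ?_, ?_, ?_⟩
  · constructor
    constructor
    rintro ⟨a, ha⟩ ⟨b, hb⟩
    apply Subtype.ext
    exact (ha.2 b (hb.2 x (Commute.refl x)).symm).eq
  · intro hd
    haveI : Fact p.Prime := ⟨hp⟩
    obtain ⟨z, hz⟩ := exists_prime_orderOf_dvd_card' p hd
    have h1 : (orderOf (z : G)).Coprime p := z.2.1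
    rw [Subgroup.orderOf_coe, hz] at h1
    exact hp.one_lt.ne' ((Nat.coprime_self _).mp h1)
  · refine ⟨_, Nat.eq_prime_pow_of_unique_prime_dvd Subgroup.index_ne_zero_of_finite ?_⟩
    intro q hq hqd
    by_contra hqp
    have h1 : T q x ≤ Hs p x := by
      rintro y ⟨⟨k, hk⟩, h2⟩
      exact ⟨coprime_of_pow hp hq hqp hk, h2⟩
    have h2 := hqd.trans (Subgroup.index_dvd_of_le h1)
    have h3 := hA.card_T hp hq hqp hx.1 hx.2
    rw [h q hq hqp] at h3
    have h4 := Subgroup.card_mul_index (T q x)
    rw [h3] at h4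
    have h5 : q ^ (Nat.card G).factorization q * q ∣ q ^ (Nat.card G).factorization q * (T q x).index :=
      Nat.mul_dvd_mul_left _ h2
    rw [h4, ← pow_succ] at h5
    exact Nat.pow_succ_factorization_not_dvd Nat.card_pos.ne' hq h5

/-- all `p`-regular classes of the same size: solvable -/
theorem solv33 [Finite G] {p : ℕ} (hp : p.Prime)
    (hcard : ∀ x y : G, X p x → X p y →
      Nat.card (centralizer ({x} : Set G)) = Nat.card (centralizer ({y} : Set G))) : Group.IsSolvable G := by
  by_cases hne : ∃ x : G, X p x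
  swap
  · apply isSolvable_of_central hp hp
    intro r hr hrp _ y hy
    obtain ⟨k, hk⟩ := hy
    by_contra hyc
    exact hne ⟨y, coprime_of_pow hp hr hrp hk, hyc⟩
  rcases dichotomy hp hcard hne with ⟨q, hq, -, h⟩ | ⟨hA, h⟩
  · exact isSolvable_of_central hp hq h
  · obtain ⟨x, hx⟩ := hne
    obtain ⟨H, hH, hpH, k, hk⟩ := compl_Hs hp hA hx (h x hx)
    haveI : Fact p.Prime := ⟨hp⟩
    obtain ⟨P⟩ : Nonempty (Sylow p G) := inferInstance
    haveI := hH
    have hHn : Group.IsNilpotent H := by
      letI : CommGroup H := { (inferInstance : Group H) with mul_comm := fun a b => mul_comm' a b }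
      infer_instance
    have hPn : Group.IsNilpotent (P : Subgroup G) := P.2.isNilpotent
    have hcop : (Nat.card P).Coprime (Nat.card H) := by
      rw [Sylow.card_eq_multiplicity P]
      exact Nat.Coprime.pow_left _ ((Nat.Prime.coprime_iff_not_dvd hp).mpr hpH)
    have hcompl : (P : Subgroup G).IsComplement' H := by
      apply Subgroup.isComplement'_of_coprime _ hcop
      have h1 := Subgroup.card_mul_index H
      have h2 := Sylow.card_eq_multiplicity P
      have h3 : Nat.card G = p ^ k * Nat.card H := by rw [← h1, hk, mul_comm]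
      have h4 : (Nat.card G).factorization p = k := by
        rw [h3, Nat.factorization_mul (pow_ne_zero _ hp.ne_zero) Nat.card_pos.ne', hp.factorization_pow,
          Finsupp.add_apply, Nat.factorization_eq_zero_of_not_dvd hpH]
        simp
      rw [h4] at h2
      rw [h2, h3]
    apply H12.KW.solvable _ G rfl (P : Subgroup G) H hPn hHn
    intro g
    obtain ⟨⟨⟨a, ha⟩, ⟨b, hb⟩⟩, hab⟩ := hcompl.surjective g
    exact ⟨a, ha, b, hb, hab.symm⟩

/-- CASE A -/
theorem caseA (hPS : PS.{u}) [Finite G] {a b : ℕ}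
    (hab : ∀ x : G, x ∉ center G → Nat.card (centralizer ({x} : Set G)) = a ∨ Nat.card (centralizer ({x} : Set G)) = b)
    (hF : ∀ x y : G, x ∉ center G → y ∉ center G → centralizer ({x} : Set G) ≤ centralizer ({y} : Set G) →
      centralizer ({x} : Set G) = centralizer ({y} : Set G)) : Group.IsSolvable G := by
  have hF' : ∀ x y : G, x ∉ center G → y ∉ center G → (∀ g, Commute x g → Commute y g) →
      ∀ g, Commute y g → Commute x g := by
    intro x y hx hy h g hg
    have h1 : centralizer ({x} : Set G) ≤ centralizer ({y} : Set G) := fun u hu =>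
      mem_centralizer_singleton_iff.mpr (h u (Commute.symm (mem_centralizer_singleton_iff.mp hu))).eq.symm
    have h2 : g ∈ centralizer ({x} : Set G) := by
      rw [hF x y hx hy h1]; exact mem_centralizer_singleton_iff.mpr hg.eq.symm
    exact Commute.symm (mem_centralizer_singleton_iff.mp h2)
  have hprim : ∀ x : G, x ∉ center G → ∃ z : G, z ∉ center G ∧ ∃ q k : ℕ, q.Prime ∧ z ^ (q ^ k) = 1 ∧
      z ∈ zpowers x ∧ centralizer ({x} : Set G) = centralizer ({z} : Set G) := by
    intro x hx
    obtain ⟨z, hz, q, k, hq, hk, hzc⟩ := exists_primary hx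
    refine ⟨z, hzc, q, k, hq, hk, hz, hF x z hx hzc ?_⟩
    intro g hg
    exact mem_centralizer_singleton_iff.mpr
      (commute_zpowers hz (Commute.symm (mem_centralizer_singleton_iff.mp hg))).eq.symm
  by_cases hAI : ∃ x : G, x ∉ center G ∧ ∃ p : ℕ, p.Prime ∧ ∀ r : ℕ, r.Prime → r ≠ p → ∀ w : G,
      (∃ k : ℕ, w ^ (r ^ k) = 1) → Commute x w → w ∈ center G
  · -- case A-I
    obtain ⟨x, hx, p, hp, hcen⟩ := hAI
    have hneq : ∀ y : G, X p y → Nat.card (centralizer ({y} : Set G)) ≠ Nat.card (centralizer ({x} : Set G)) := by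
      intro y hy heq
      obtain ⟨z, hz, q, k, hq, hqp, hk, hzX⟩ := exists_primary' hp hy
      have h1 : centralizer ({y} : Set G) = centralizer ({z} : Set G) := by
        apply hF y z hy.2 hzX.2
        intro g hg
        exact mem_centralizer_singleton_iff.mpr
          (commute_zpowers hz (Commute.symm (mem_centralizer_singleton_iff.mp hg))).eq.symm
      apply hzX.2
      apply all_central hq (x := x) (y := z)
      · rw [← h1]; exact heq.symm
      · intro w hw hxw
        exact hcen q hq hqp w hw hxw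
      · exact ⟨k, hk⟩
    apply solv33 hp
    intro y z hy hz
    have h1 := hneq y hy
    have h2 := hneq z hz
    rcases hab x hx with h3 | h3 <;> rcases hab y hy.2 with h4 | h4 <;> rcases hab z hz.2 with h5 | h5 <;>
      rw [h3] at h1 h2 <;> rw [h4] at h1 ⊢ <;> rw [h5] at h2 ⊢ <;> first | exact absurd rfl h1 | exact absurd rfl h2
  · -- case A-II
    push Not at hAI
    have hmix : ∀ x : G, x ∉ center G → ∀ p : ℕ, p.Prime → ∃ r : ℕ, r.Prime ∧ r ≠ p ∧ ∃ w : G, w ∉ center G ∧
        Commute x w ∧ ∃ k : ℕ, w ^ (r ^ k) = 1 := by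
      intro x hx p hp
      obtain ⟨r, hr, hrp, w, hw, hxw, hwc⟩ := hAI x hx p hp
      exact ⟨r, hr, hrp, w, hwc, hxw, hw⟩
    apply aii hPS _ hmix
    -- centralizers are abelian
    -- elements of coprime order
    have hcop : ∀ x w : G, x ∉ center G → Commute x w → (orderOf x).Coprime (orderOf w) → ∀ g, Commute x g → Commute w g := by
      intro x w hx hxw hc g hg
      have h1 := mem_zpowers_mul_left hxw hc
      have h2 := mem_zpowers_mul_right hxw hc
      have h3 : x * w ∉ center G := by
        intro h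
        apply hx
        obtain ⟨m, hm⟩ := mem_zpowers_iff.mp h1
        rw [← hm]; exact zpow_mem h m
      have h4 := hF' (x * w) x h3 hx (fun g hg => commute_zpowers h1 hg) g hg
      exact commute_zpowers h2 h4
    intro x hx u v hu hv
    obtain ⟨z, hz, p, k, hp, hk, hzx, hxz⟩ := hprim x hx
    have hzu : Commute z u := commute_zpowers hzx hu
    have hzv : Commute z v := commute_zpowers hzx hv
    obtain ⟨r, hr, hrp, w, hw, hzw, l, hl⟩ := hmix z hz p hp
    have hzw' : (orderOf z).Coprime (orderOf w) := coprime_of_pow_ne hp hr (Ne.symm hrp) hk hl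
    have h1 := hcop z w hz hzw hzw'
    have h2 := hF' z w hz hw h1
    -- decomposition of `u`
    obtain ⟨i, j, hij, ⟨m, hm⟩, hj⟩ := H70.Real.exists_decomp p hp u
    have h3 : Commute (u ^ j) v := by
      apply hcop z (u ^ j) hz (hzu.pow_right j) _ v hzv
      exact Nat.Coprime.coprime_dvd_left (orderOf_dvd_of_pow_eq_one hk)
        (Nat.Coprime.pow_left k ((Nat.Prime.coprime_iff_not_dvd hp).mpr hj))
    have h4 : Commute (u ^ i) v := by
      apply hcop w (u ^ i) hw ((h1 u hzu).pow_right i) _ v (h1 v hzv)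
      rw [hm]
      exact Nat.Coprime.coprime_dvd_left (orderOf_dvd_of_pow_eq_one hl)
        (Nat.Coprime.pow l m ((Nat.coprime_primes hr hp).mpr hrp))
    rw [← hij]
    exact h4.mul_left h3

end H70.RegT
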