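import Mathlib
import Cfsg.Agent.Lib.H26.Components

/-!
S3915 (modulo the odd order theorem): uniqueness of the component.
-/

set_option autoImplicit false
open Subgroup Cfsg
open scoped commutatorElement

universe u

namespace H70.Lay

variable {G : Type u} [Group G]

/-- the odd order theorem as a hypothesis -/
def FT : Prop := ∀ (X : Type u) [Group X] [Finite X], Odd (Nat.card X) → Group.IsSolvable X

/-- a perfect group with central Sylow `2`-subgroup has odd order -/
theorem odd_of_perfect {X : Type u} [Group X] [Finite X] (hp : ⁅(⊤ : Subgroup X), (⊤ : Subgroup X)⁆ = ⊤)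
    (hc : ∀ (x : X) (k : ℕ), orderOf x = 2 ^ k → x ∈ center X) : Odd (Nat.card X) := by
  haveI : Fact (Nat.Prime 2) := ⟨Nat.prime_two⟩
  obtain ⟨S⟩ : Nonempty (Sylow 2 X) := inferInstance
  have hS : (S : Subgroup X) ≤ center X := by
    intro x hx
    obtain ⟨k, hk⟩ := IsPGroup.iff_orderOf.mp S.isPGroup' ⟨x, hx⟩
    exact hc x k (by rw [← hk, Subgroup.orderOf_mk])
  have hN : normalizer ((S : Subgroup X) : Set X) ≤ centralizer ((S : Subgroup X) : Set X) := by
    intro g _
    rw [mem_centralizer_iff]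
    intro s hs
    exact (mem_center_iff.mp (hS hs) g).symm
  have h1 := MonoidHom.ker_transferSylow_isComplement' S hN
  have h2 : (MonoidHom.transferSylow S hN).ker = ⊤ := by
    rw [eq_top_iff]
    conv_lhs => rw [← hp]
    rw [commutator_le]
    intro a _ b _
    rw [MonoidHom.mem_ker, map_commutatorElement, commutatorElement_eq_one_iff_mul_comm]
    apply Subtype.ext
    exact mem_center_iff.mp (hS (MonoidHom.transferSylow S hN b).2) _
  rw [h2] at h1
  have h3 : (S : Subgroup X) = ⊥ := by
    have h4 := h1.card_mul_card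
    rw [Subgroup.card_top] at h4
    rw [← Subgroup.card_eq_one]
    have := Nat.card_pos (α := X)
    exact Nat.eq_of_mul_eq_mul_left this (by rw [h4, mul_one])
  rw [← Nat.not_even_iff_odd, even_iff_two_dvd]
  intro h5
  exact S.ne_bot_of_dvd_card h5 h3

/-- a component contains a noncentral `2`-element -/
theorem exists_two_elt [Finite G] (hFT : FT.{u}) {K : Subgroup G} (hK : IsComponent K) :
    ∃ k : ℕ, ∃ x ∈ K, orderOf x = 2 ^ k ∧ x ∉ centralizer (K : Set G) := by
  by_contra hcon
  push Not at hcon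
  have hp : ⁅(⊤ : Subgroup K), (⊤ : Subgroup K)⁆ = ⊤ := by
    have h1 := H26.Components.isPerfect hK
    apply Subgroup.map_injective K.subtype_injective
    rw [Subgroup.map_commutator, ← MonoidHom.range_eq_map, Subgroup.range_subtype, h1]
  have hodd := odd_of_perfect hp (by
    intro x k hx
    have h1 := hcon k x x.2 (by rw [Subgroup.orderOf_coe, hx])
    rw [mem_center_iff]
    intro g
    apply Subtype.ext
    exact mem_centralizer_iff.mp h1 g g.2)
  exact H26.Components.not_isSolvable_of_le hK le_rfl (hFT K hodd)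

/-- elements of a component centralize the other components -/
theorem mem_centralizer_of_ne {K M : Subgroup G} (hK : IsComponent K) (hM : IsComponent M) (hne : K ≠ M) {x : G}
    (hx : x ∈ K) : x ∈ centralizer (M : Set G) := by
  have h1 := H26.Components.commutator_eq_bot_of_ne hK hM hne
  rw [commutator_eq_bot_iff_le_centralizer] at h1
  exact h1 hx

/-- the key step -/
theorem key [Finite G] (hP : ∀ (p : ℕ), p.Prime → ∀ A B : Subgroup G, IsCyclic ↥A → IsCyclic ↥B → IsPGroup p ↥A →
      Nat.card ↥A = Nat.card ↥B → ∃ g : G, B = A.map (MulAut.conj g).toMonoidHom)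
    {K L : Subgroup G} (hK : IsComponent K) (hL : IsComponent L) (hne : K ≠ L) {k : ℕ} {x : G} (hx : x ∈ K)
    (hxo : orderOf x = 2 ^ k) (hxc : x ∉ centralizer (K : Set G))
    (hmin : ∀ j < k, ∀ z ∈ K, orderOf z = 2 ^ j → z ∈ centralizer (K : Set G)) {l : ℕ} (hl : l ≤ k) {y : G} (hy : y ∈ L)
    (hyo : orderOf y = 2 ^ l) (hyc : y ∉ centralizer (L : Set G)) : False := by
  have hxL := mem_centralizer_of_ne hK hL hne hx
  have hyK := mem_centralizer_of_ne hL hK hne.symm hy
  have hcomm : Commute x y := (mem_centralizer_iff.mp hxL y hy).symm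
  have hxyK : x * y ∉ centralizer (K : Set G) := fun h => hxc (by
    have := mul_mem h (inv_mem hyK)
    rwa [mul_inv_cancel_right] at this)
  have hxyL : x * y ∉ centralizer (L : Set G) := fun h => hyc (by
    have := mul_mem (inv_mem hxL) h
    rwa [inv_mul_cancel_left] at this)
  obtain ⟨j, hj, hjo⟩ : ∃ j ≤ k, orderOf (x * y) = 2 ^ j := by
    have h1 : orderOf (x * y) ∣ 2 ^ k := by
      apply orderOf_dvd_of_pow_eq_one
      rw [hcomm.mul_pow, ← hxo, pow_orderOf_eq_one, one_mul, hxo]
      obtain ⟨c, rfl⟩ := Nat.exists_eq_add_of_le hl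
      rw [pow_add, pow_mul, ← hyo, pow_orderOf_eq_one, one_pow]
    exact (Nat.dvd_prime_pow Nat.prime_two).mp h1
  -- an element of order `2 ^ j` in `K`
  obtain ⟨z, hz, hzo, hz'⟩ : ∃ z ∈ K, orderOf z = 2 ^ j ∧ (j = k → z = x) := by
    rcases hj.lt_or_eq with h | h
    · refine ⟨x ^ 2 ^ (k - j), pow_mem hx _, ?_, fun h2 => absurd h2 h.ne⟩
      rw [orderOf_pow, hxo]
      have h1 : (2 ^ k : ℕ) = 2 ^ (k - j) * 2 ^ j := by rw [← pow_add]; congr 1; omega
      rw [h1, Nat.gcd_eq_right (dvd_mul_right _ _), Nat.mul_div_cancel_left _ (by positivity)]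
    · exact ⟨x, hx, by rw [h, hxo], fun _ => rfl⟩
  obtain ⟨g, hg⟩ := hP 2 Nat.prime_two (zpowers z) (zpowers (x * y)) inferInstance inferInstance
    (IsPGroup.of_card (n := j) (by rw [Nat.card_zpowers, hzo]))
    (by rw [Nat.card_zpowers, Nat.card_zpowers, hzo, hjo])
  have hmem : x * y ∈ (zpowers z).map (MulAut.conj g).toMonoidHom := by
    rw [← hg]; exact mem_zpowers _
  obtain ⟨_, ⟨m, rfl⟩, hm⟩ := hmem
  have hm' : g * z ^ m * g⁻¹ = x * y := hm
  -- `x * y` centralizes every component except possibly `g K g⁻¹`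
  have hcent : ∀ M : Subgroup G, IsComponent M → (z ∈ centralizer (K : Set G) ∨
      M ≠ K.map (MulAut.conj g).toMonoidHom) → x * y ∈ centralizer (M : Set G) := by
    intro M hM hor
    have hM' : IsComponent (M.map (MulAut.conj g⁻¹).toMonoidHom) := (H26.Components.map_conj_iff g⁻¹).mpr hM
    have hzM : z ∈ centralizer ((M.map (MulAut.conj g⁻¹).toMonoidHom : Subgroup G) : Set G) := by
      by_cases heq : K = M.map (MulAut.conj g⁻¹).toMonoidHom
      · rcases hor with h | h
        · rw [← heq]; exact h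
        · exfalso
          apply h
          rw [heq, Subgroup.map_map]
          ext t
          constructor
          · intro ht
            exact ⟨t, ht, by simp [mul_assoc]⟩
          · rintro ⟨s, hs, rfl⟩
            simpa [mul_assoc] using hs
      · exact mem_centralizer_of_ne hK hM' heq hz
    rw [← hm', mem_centralizer_iff]
    intro t ht
    have h1 := mem_centralizer_iff.mp (zpow_mem hzM m) (g⁻¹ * t * g) ⟨t, ht, by simp⟩
    calc t * (g * z ^ m * g⁻¹) = g * ((g⁻¹ * t * g) * z ^ m) * g⁻¹ := by group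
      _ = g * (z ^ m * (g⁻¹ * t * g)) * g⁻¹ := by rw [h1]
      _ = g * z ^ m * g⁻¹ * t := by group
  rcases hj.lt_or_eq with h | h
  · exact hxyK (hcent K hK (Or.inl (hmin j h z hz hzo)))
  · have h1 : K = K.map (MulAut.conj g).toMonoidHom := by
      by_contra h2
      exact hxyK (hcent K hK (Or.inr h2))
    have h2 : L = K.map (MulAut.conj g).toMonoidHom := by
      by_contra h3
      exact hxyL (hcent L hL (Or.inr h3))
    exact hne (h1.trans h2.symm)

theorem component_unique [Finite G] (hFT : FT.{u}) (hP : ∀ (p : ℕ), p.Prime → ∀ A B : Subgroup G, IsCyclic ↥A → IsCyclic ↥B →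
      IsPGroup p ↥A → Nat.card ↥A = Nat.card ↥B → ∃ g : G, B = A.map (MulAut.conj g).toMonoidHom)
    {K L : Subgroup G} (hK : IsComponent K) (hL : IsComponent L) : K = L := by
  classical
  by_contra hne
  have h1 := exists_two_elt hFT hK
  have h2 := exists_two_elt hFT hL
  have hmin1 : ∀ j < Nat.find h1, ∀ z ∈ K, orderOf z = 2 ^ j → z ∈ centralizer (K : Set G) := by
    intro j hj z hz hzo
    by_contra hcon
    exact Nat.find_min h1 hj ⟨z, hz, hzo, hcon⟩
  have hmin2 : ∀ j < Nat.find h2, ∀ z ∈ L, orderOf z = 2 ^ j → z ∈ centralizer (L : Set G) := by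
    intro j hj z hz hzo
    by_contra hcon
    exact Nat.find_min h2 hj ⟨z, hz, hzo, hcon⟩
  obtain ⟨x, hx, hxo, hxc⟩ := Nat.find_spec h1
  obtain ⟨y, hy, hyo, hyc⟩ := Nat.find_spec h2
  rcases le_total (Nat.find h2) (Nat.find h1) with h | h
  · exact key hP hK hL hne hx hxo hxc hmin1 h hy hyo hyc
  · exact key hP hL hK (Ne.symm hne) hy hyo hyc hmin2 h hx hxo hxc

theorem main [Finite G] (hFT : FT.{u}) (hP : ∀ (p : ℕ), p.Prime → ∀ A B : Subgroup G, IsCyclic ↥A → IsCyclic ↥B →
      IsPGroup p ↥A → Nat.card ↥A = Nat.card ↥B → ∃ g : G, B = A.map (MulAut.conj g).toMonoidHom)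
    (hE : Cfsg.layer G ≠ ⊥) : IsSimpleGroup (↥(Cfsg.layer G) ⧸ Subgroup.center ↥(Cfsg.layer G)) ∧
      ¬ IsMulCommutative (↥(Cfsg.layer G) ⧸ Subgroup.center ↥(Cfsg.layer G)) := by
  obtain ⟨K, hK⟩ : ∃ K : Subgroup G, IsComponent K := by
    by_contra hcon
    push Not at hcon
    exact hE (H26.Components.layer_eq_bot_iff.mpr hcon)
  have hKE : Cfsg.layer G = K := by
    apply le_antisymm
    · apply sSup_le
      intro L hL
      rw [component_unique hFT hP hK hL]
    · exact H26.Components.le_layer hK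
  rw [hKE]
  refine ⟨hK.2.2, ?_⟩
  intro hcomm
  have hs := hK.2.2
  haveI h1 : Group.IsSolvable (K ⧸ center K) := by
    apply Group.isSolvable_of_comm
    intro a b
    exact hcomm.is_comm.comm a b
  haveI h0 : Group.IsSolvable (center K) := by
    apply Group.isSolvable_of_comm
    intro a b
    apply Subtype.ext
    exact (mem_center_iff.mp b.2 a)
  have h2 : Group.IsSolvable K := by
    apply Group.isSolvable_of_ker_le_range (center K).subtype (QuotientGroup.mk' (center K))
    rw [QuotientGroup.ker_mk', Subgroup.range_subtype]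
  exact H26.Components.not_isSolvable_of_le hK le_rfl h2

end H70.Lay
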