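import Mathlib
import Cfsg.Agent.Lib.H70.NilMax
import Cfsg.Agent.Lib.H27.GenSub

set_option autoImplicit false
open Subgroup Cfsg
open scoped commutatorElement Pointwise

namespace H70.NMTwo

universe u

variable {G : Type u} [Group G]

/-- the elements normalizing `Y`, `W` and acting trivially on `Y / W` -/
def triv (Y W : Subgroup G) : Subgroup G where
  carrier := {g | g ∈ normalizer (Y : Set G) ∧ g ∈ normalizer (W : Set G) ∧ ∀ y ∈ Y, y * g * y⁻¹ * g⁻¹ ∈ W}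
  one_mem' := ⟨one_mem _, one_mem _, fun y _ => by simp⟩
  mul_mem' := by
    rintro a b ⟨ha1, ha2, ha3⟩ ⟨hb1, hb2, hb3⟩
    refine ⟨mul_mem ha1 hb1, mul_mem ha2 hb2, fun y hy => ?_⟩
    have h : y * (a * b) * y⁻¹ * (a * b)⁻¹ = (y * a * y⁻¹ * a⁻¹) * (a * (y * b * y⁻¹ * b⁻¹) * a⁻¹) := by group
    rw [h]
    exact mul_mem (ha3 y hy) ((mem_normalizer_iff.mp ha2 _).mp (hb3 y hy))
  inv_mem' := by
    rintro a ⟨ha1, ha2, ha3⟩
    refine ⟨inv_mem ha1, inv_mem ha2, fun y hy => ?_⟩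
    have h : y * a⁻¹ * y⁻¹ * a⁻¹⁻¹ = a⁻¹ * (y * a * y⁻¹ * a⁻¹)⁻¹ * a⁻¹⁻¹ := by group
    rw [h]
    exact (mem_normalizer_iff.mp (inv_mem ha2) _).mp (inv_mem (ha3 y hy))

theorem mem_triv {Y W : Subgroup G} {g : G} : g ∈ triv Y W ↔
    g ∈ normalizer (Y : Set G) ∧ g ∈ normalizer (W : Set G) ∧ ∀ y ∈ Y, y * g * y⁻¹ * g⁻¹ ∈ W := Iff.rfl

/-- odd part / 2-part of an element -/
theorem split [Finite G] (g : G) : ∃ k e : ℕ, Odd (orderOf (g ^ k)) ∧ (g * (g ^ k)⁻¹) ^ 2 ^ e = 1 ∧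
    ∀ n, Odd n → n ∣ orderOf g → k ≡ 1 [MOD n] := by
  obtain ⟨a, m, hm, hnm⟩ := Nat.exists_eq_pow_mul_and_not_dvd (n := orderOf g) (orderOf_pos g).ne' 2 (by norm_num)
  have hmo : Odd m := by
    rw [← Nat.not_even_iff_odd, even_iff_two_dvd]; exact hm
  have hcop : Nat.Coprime m (2 ^ a) := (Nat.Coprime.pow_left a (Nat.coprime_two_left.mpr hmo)).symm
  obtain ⟨k, hk1, hk2⟩ := Nat.chineseRemainder hcop 1 0
  refine ⟨k, a, ?_, ?_, ?_⟩
  · have h1 : (g ^ k) ^ m = 1 := by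
      rw [← pow_mul, ← orderOf_dvd_iff_pow_eq_one, hnm]
      exact Nat.mul_dvd_mul (Nat.modEq_zero_iff_dvd.mp hk2) dvd_rfl
    exact Odd.of_dvd_nat hmo (orderOf_dvd_of_pow_eq_one h1)
  · have h1 : (g ^ k) ^ 2 ^ a = g ^ 2 ^ a := by
      rw [← pow_mul]
      apply pow_eq_pow_iff_modEq.mpr
      rw [hnm]
      have h2 := (hk1.mul_right' (2 ^ a))
      rw [one_mul, mul_comm m] at h2
      exact h2
    have h3 : Commute g (g ^ k)⁻¹ := ((Commute.refl g).pow_right k).inv_right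
    rw [h3.mul_pow, inv_pow, h1, mul_inv_cancel]
  · intro n hn hd
    rw [hnm] at hd
    have h4 : n ∣ m := Nat.Coprime.dvd_of_dvd_mul_left (Nat.Coprime.pow_right a (Nat.coprime_two_right.mpr hn)) hd
    exact hk1.of_dvd h4

/-- the group theoretic core in the quotient -/
theorem quo [Finite G] (S : Sylow 2 G) (hS : IsElementaryAbelian 2 (S : Subgroup G))
    (hN : normalizer ((S : Subgroup G) : Set G) ≤ centralizer ((S : Subgroup G) : Set G)) (M : Subgroup G)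
    (hM : M ≠ ⊤) (hSM : (S : Subgroup G) ≤ M)
    (hc : ∀ s ∈ (S : Subgroup G), s ≠ 1 → centralizer {s} ≤ M)
    (hS1 : (S : Subgroup G) ≠ ⊥)
    (hodd : ∀ g ∈ M, Odd (orderOf g) → g ∈ centralizer ((S : Subgroup G) : Set G)) :
    ∃ s ∈ (S : Subgroup G), s ≠ 1 ∧ (∀ s' ∈ (S : Subgroup G), s' = 1 ∨ s' = s) ∧
      ∃ y, y ∉ M ∧ Odd (orderOf y) ∧ s * y * s⁻¹ = y⁻¹ := by
  haveI : Fact (Nat.Prime 2) := ⟨Nat.prime_two⟩
  have h1 := MonoidHom.ker_transferSylow_isComplement' S hN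
  set R := (MonoidHom.transferSylow S hN).ker with hR
  have hRn : R.Normal := inferInstance
  have hRS : R ⊔ (S : Subgroup G) = ⊤ := h1.sup_eq_top
  have hRM : ¬ R ≤ M := fun h => hM (by rw [eq_top_iff, ← hRS]; exact sup_le h hSM)
  have hRodd : ¬ 2 ∣ Nat.card R := by
    have h2 : (S : Subgroup G).index = Nat.card R := h1.index_eq_card
    rw [← h2]
    exact S.not_dvd_index
  have hcard : Nat.card (S : Subgroup G) = 2 := by
    by_contra hne
    apply hRM
    apply H27.GenSub.le_of_centralizers 2 (S : Subgroup G) R M hS ?_ (by rw [normalizer_eq_top]; exact le_top) hRodd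
    · intro a ha ha1
      exact inf_le_right.trans (hc a ha ha1)
    · obtain ⟨n, hn⟩ := S.isPGroup'.exists_card_eq
      have h2 : n ≠ 0 := by
        rintro rfl
        apply hS1
        rw [← Subgroup.card_eq_one]
        simpa using hn
      have h3 : n ≠ 1 := by
        rintro rfl
        exact hne (by simpa using hn)
      rw [hn]
      exact Nat.pow_le_pow_right (by norm_num) (by omega)
  obtain ⟨s, hs1⟩ := Subgroup.ne_bot_iff_exists_ne_one.mp hS1
  obtain ⟨s, hs⟩ := s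
  have hs1' : s ≠ 1 := fun h => hs1 (Subtype.ext h)
  have hall : ∀ s' ∈ (S : Subgroup G), s' = 1 ∨ s' = s := by
    intro s' hs'
    have h2 : Nat.card (S : Subgroup G) = 2 := hcard
    rw [Nat.card_eq_two_iff' (1 : (S : Subgroup G))] at h2
    obtain ⟨u, hu, huu⟩ := h2
    by_cases h3 : s' = 1
    · exact Or.inl h3
    · right
      have h4 := huu ⟨s', hs'⟩ (fun h => h3 (congrArg Subtype.val h))
      have h5 := huu ⟨s, hs⟩ hs1
      exact congrArg Subtype.val (h4.trans h5.symm)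
  have hss : s * s = 1 := by
    have := hS.2 s hs
    rwa [pow_two] at this
  have hsi : s⁻¹ = s := by
    rw [inv_eq_iff_mul_eq_one]; exact hss
  obtain ⟨r, hr, hrM⟩ := SetLike.not_le_iff_exists.mp hRM
  have hyR : r * s * r⁻¹ * s⁻¹ ∈ R := by
    have h2 : r * s * r⁻¹ * s⁻¹ = r * (s * r⁻¹ * s⁻¹) := by group
    rw [h2]
    exact mul_mem hr (hRn.conj_mem _ (inv_mem hr) s)
  have hyo : Odd (orderOf (r * s * r⁻¹ * s⁻¹)) := by
    have h3 : Odd (Nat.card R) := by rw [← Nat.not_even_iff_odd, even_iff_two_dvd]; exact hRodd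
    have h4 := orderOf_dvd_natCard (⟨_, hyR⟩ : R)
    rw [Subgroup.orderOf_mk] at h4
    exact Odd.of_dvd_nat h3 h4
  have hinv : s * (r * s * r⁻¹ * s⁻¹) * s⁻¹ = (r * s * r⁻¹ * s⁻¹)⁻¹ := by
    simp only [mul_inv_rev, inv_inv, hsi]
    calc s * (r * s * r⁻¹ * s) * s = s * (r * s * r⁻¹) * (s * s) := by group
      _ = s * (r * (s * r⁻¹)) := by rw [hss]; group
  refine ⟨s, hs, hs1', hall, r * s * r⁻¹ * s⁻¹, ?_, hyo, hinv⟩
  intro hmem
  have h5 := mem_centralizer_iff.mp (hodd _ hmem hyo) s hs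
  have h6 : (r * s * r⁻¹ * s⁻¹) = (r * s * r⁻¹ * s⁻¹)⁻¹ := by
    rw [← hinv, h5]; group
  have h7 : (r * s * r⁻¹ * s⁻¹) ^ 2 = 1 := by
    rw [pow_two]; nth_rewrite 2 [h6]; exact mul_inv_cancel _
  have h8 : r * s * r⁻¹ * s⁻¹ = 1 := by
    rw [← orderOf_eq_one_iff]
    have h9 := orderOf_dvd_of_pow_eq_one h7
    rcases (Nat.dvd_prime Nat.prime_two).mp h9 with h | h
    · exact h
    · rw [h] at hyo; exact absurd hyo (by decide)
  apply hrM
  apply hc s hs hs1'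
  rw [mem_centralizer_singleton_iff]
  have h10 : r * s = (r * s * r⁻¹ * s⁻¹) * (s * r) := by group
  rw [h10, h8, one_mul]

/-- standing assumptions -/
structure Two (M T : Subgroup G) : Prop where
  TM : T ≤ M
  MT : M ≤ normalizer (T : Set G)
  isP : IsPGroup 2 T
  odd_cent : ∀ g ∈ M, Odd (orderOf g) → g ∈ centralizer (T : Set G)
  two_mem : ∀ g ∈ M, ∀ e, g ^ 2 ^ e = 1 → g ∈ T
  cl : ∀ a ∈ T, ∀ b ∈ T, ∀ c ∈ T, c * (a * b * a⁻¹ * b⁻¹) = (a * b * a⁻¹ * b⁻¹) * c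
  nT : normalizer (T : Set G) ≤ M
  nZ : normalizer ((H13.Omega.omegaZ 2 T : Subgroup G) : Set G) ≤ M
  nJ : normalizer ((thompsonSubgroupOf 2 T : Subgroup G) : Set G) ≤ M

variable {M T : Subgroup G}

theorem Two.decomp [Finite G] (h : Two M T) {m : G} (hm : m ∈ M) :
    ∃ s ∈ T, ∃ c ∈ M, c ∈ centralizer (T : Set G) ∧ m = s * c := by
  obtain ⟨k, e, h1, h2, -⟩ := split m
  refine ⟨m * (m ^ k)⁻¹, ?_, m ^ k, pow_mem hm k, h.odd_cent _ (pow_mem hm k) h1, by group⟩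
  exact h.two_mem _ (mul_mem hm (inv_mem (pow_mem hm k))) e h2

theorem Two.comm_mem (h : Two M T) {a b : G} (ha : a ∈ T) (hb : b ∈ T) :
    a * b * a⁻¹ * b⁻¹ ∈ T ⊓ centralizer (T : Set G) := by
  refine Subgroup.mem_inf.mpr ⟨mul_mem (mul_mem (mul_mem ha hb) (inv_mem ha)) (inv_mem hb), ?_⟩
  rw [mem_centralizer_iff]
  exact fun c hc => h.cl a ha b hb c hc

theorem Two.le_normalizer (h : Two M T) {Q : Subgroup G} (hZ : T ⊓ centralizer (T : Set G) ≤ Q) (hQ : Q ≤ T) :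
    T ≤ normalizer (Q : Set G) := by
  have key : ∀ t ∈ T, ∀ q ∈ Q, t * q * t⁻¹ ∈ Q := by
    intro t ht q hq
    have h1 : t * q * t⁻¹ = (t * q * t⁻¹ * q⁻¹) * q := by group
    rw [h1]
    exact mul_mem (hZ (h.comm_mem ht (hQ hq))) hq
  intro t ht
  rw [mem_normalizer_iff]
  intro q
  refine ⟨fun hq => key t ht q hq, fun hq => ?_⟩
  have h2 := key _ (inv_mem ht) _ hq
  have h3 : t⁻¹ * (t * q * t⁻¹) * t⁻¹⁻¹ = q := by group
  rwa [h3] at h2

theorem Two.M_le_normalizer [Finite G] (h : Two M T) {Q : Subgroup G} (hQ : Q ≤ T)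
    (hTQ : T ≤ normalizer (Q : Set G)) : M ≤ normalizer (Q : Set G) := by
  intro m hm
  obtain ⟨s, hs, c, -, hc, rfl⟩ := h.decomp hm
  exact mul_mem (hTQ hs) (centralizer_le_normalizer _ (centralizer_le (show (Q : Set G) ⊆ T from hQ) hc))

theorem Two.centralizer_le (h : Two M T) {Q : Subgroup G} (hZ : T ⊓ centralizer (T : Set G) ≤ Q) :
    centralizer (Q : Set G) ≤ M := by
  refine le_trans ?_ h.nZ
  refine le_trans ?_ (centralizer_le_normalizer _)
  apply Subgroup.centralizer_le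
  intro x hx
  exact hZ (H13.Omega.omegaOne_le _ hx)

/-- `Q` -/
structure IsQ (M T Q : Subgroup G) : Prop where
  ZQ : T ⊓ centralizer (T : Set G) ≤ Q
  QT : Q ≤ T
  nQ : ¬ normalizer (Q : Set G) ≤ M
  max : ∀ R : Subgroup G, Q ≤ R → R ≤ T → ¬ normalizer (R : Set G) ≤ M → R = Q

theorem Two.exists_Q [Finite G] (h : Two M T) (hS : ∃ S : Sylow 2 G, (S : Subgroup G) = T)
    (hnpc : ¬ HasNormalPComplement 2 G) : ∃ Q : Subgroup G, IsQ M T Q := by
  haveI : Fact (Nat.Prime 2) := ⟨Nat.prime_two⟩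
  have hex : ∃ Q : Subgroup G, T ⊓ centralizer (T : Set G) ≤ Q ∧ Q ≤ T ∧ ¬ normalizer (Q : Set G) ≤ M := by
    obtain ⟨D₀, ⟨hD₀p, g₀, hg₀, hg₀o, hg₀c⟩, hD₀⟩ := NilMax.exists_bad hnpc
    obtain ⟨S₀, rfl⟩ := hS
    obtain ⟨S, hS⟩ := hD₀p.exists_le_sylow
    obtain ⟨x, hx⟩ := MulAction.exists_smul_eq G S S₀
    refine ⟨MulAut.conj x • D₀, ?_, ?_, ?_⟩
    · intro z hz
      have hz1 := (Subgroup.mem_inf.mp hz).1
      have hz2 := mem_centralizer_iff.mp (Subgroup.mem_inf.mp hz).2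
      have h1 : zpowers (x⁻¹ * z * x) ≤ D₀ := by
        apply hD₀
        · have h3 : IsPGroup 2 (zpowers z) := h.isP.to_le (by rw [zpowers_le]; exact hz1)
          have h4 : zpowers (x⁻¹ * z * x) = (zpowers z).map (MulAut.conj x⁻¹).toMonoidHom := by
            rw [MonoidHom.map_zpowers]; congr 1
            simp
          rw [h4]; exact h3.map _
        · rw [zpowers_le, mem_centralizer_iff]
          intro t ht
          have h2 : x * t * x⁻¹ ∈ (S₀ : Subgroup G) := by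
            rw [← hx]
            have h5 : t ∈ (S : Subgroup G) := hS ht
            show x * t * x⁻¹ ∈ MulAut.conj x • (S : Subgroup G)
            rw [H1.SZ.mem_conj_smul]
            simpa [mul_assoc] using h5
          have h3 := hz2 _ h2
          calc t * (x⁻¹ * z * x) = x⁻¹ * (x * t * x⁻¹ * z) * x := by group
            _ = x⁻¹ * (z * (x * t * x⁻¹)) * x := by rw [h3]
            _ = x⁻¹ * z * x * t := by group
      rw [H1.SZ.mem_conj_smul]
      exact h1 (mem_zpowers _)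
    · rw [← hx]
      exact Subgroup.pointwise_smul_le_pointwise_smul_iff.mpr hS
    · intro hle
      have hgN : x * g₀ * x⁻¹ ∈ normalizer ((MulAut.conj x • D₀ : Subgroup G) : Set G) := by
        apply H1.SZ.mem_normalizer_of_conj_smul_eq
        rw [← H1.SZ.conj_mul_smul]
        have : x * g₀ * x⁻¹ * x = x * g₀ := by group
        rw [this, H1.SZ.conj_mul_smul, H1.SZ.conj_smul_eq_of_mem_normalizer hg₀]
      have hgo : Odd (orderOf (x * g₀ * x⁻¹)) := by
        have : x * g₀ * x⁻¹ = MulAut.conj x g₀ := rfl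
        rw [this, MulEquiv.orderOf_eq]
        exact Nat.coprime_two_right.mp hg₀o
      have h1 := h.odd_cent _ (hle hgN) hgo
      apply hg₀c
      rw [mem_centralizer_iff] at h1 ⊢
      intro t ht
      have h2 : x * t * x⁻¹ ∈ (S₀ : Subgroup G) := by
        rw [← hx]
        have h5 : t ∈ (S : Subgroup G) := hS ht
        show x * t * x⁻¹ ∈ MulAut.conj x • (S : Subgroup G)
        rw [H1.SZ.mem_conj_smul]
        simpa [mul_assoc] using h5
      have h3 := h1 _ h2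
      calc t * g₀ = x⁻¹ * (x * t * x⁻¹ * (x * g₀ * x⁻¹)) * x := by group
        _ = x⁻¹ * (x * g₀ * x⁻¹ * (x * t * x⁻¹)) * x := by rw [h3]
        _ = g₀ * t := by group
  obtain ⟨Q, ⟨h1, h2, h3⟩, h4⟩ := (Set.toFinite {Q : Subgroup G | T ⊓ centralizer (T : Set G) ≤ Q ∧ Q ≤ T ∧
    ¬ normalizer (Q : Set G) ≤ M}).exists_maximal hex
  exact ⟨Q, h1, h2, h3, fun R hQR hRT hR => le_antisymm (h4 ⟨h1.trans hQR, hRT, hR⟩ hQR) hQR⟩

/-- elements of `T` centralizing `Ω₁(Z(Q))` lie in `Q` -/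
theorem IsQ.mem_of_cent [Finite G] (h : Two M T) {Q : Subgroup G} (hQ : IsQ M T Q) {t : G} (ht : t ∈ T)
    (htc : t ∈ centralizer ((H13.Omega.omegaZ 2 Q : Subgroup G) : Set G)) : t ∈ Q := by
  set V := H13.Omega.omegaZ 2 Q with hV
  have hZV : H13.Omega.omegaZ 2 T ≤ V := by
    apply H13.Omega.omegaOne_mono
    intro z hz
    refine Subgroup.mem_inf.mpr ⟨hQ.ZQ hz, ?_⟩
    exact Subgroup.centralizer_le (show (Q : Set G) ⊆ T from hQ.QT) (Subgroup.mem_inf.mp hz).2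
  have hCV : centralizer (V : Set G) ≤ M := by
    refine le_trans ?_ h.nZ
    exact (Subgroup.centralizer_le (show ((H13.Omega.omegaZ 2 T : Subgroup G) : Set G) ⊆ V from hZV)).trans
      (centralizer_le_normalizer _)
  have h1 : T ⊓ centralizer (V : Set G) = Q := by
    apply hQ.max
    · exact le_inf hQ.QT (H13.Omega.le_centralizer_omegaZ Q)
    · exact inf_le_left
    · intro hle
      apply hQ.nQ
      refine le_trans ?_ hle
      have hNV := H1.ThompsonNPC.normalizer_le_omegaZ (p := 2) Q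
      have key : ∀ g ∈ normalizer (Q : Set G), ∀ y ∈ T ⊓ centralizer (V : Set G),
          g * y * g⁻¹ ∈ T ⊓ centralizer (V : Set G) := by
        intro g hg y hy
        have hgV := hNV hg
        have h2 : g * y * g⁻¹ ∈ centralizer (V : Set G) := by
          rw [mem_centralizer_iff]
          intro v hv
          have h3 : g⁻¹ * v * g ∈ V := by
            have := (mem_normalizer_iff.mp (inv_mem hgV) v).mp hv
            simpa using this
          have h4 := mem_centralizer_iff.mp (Subgroup.mem_inf.mp hy).2 _ h3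
          calc v * (g * y * g⁻¹) = g * (g⁻¹ * v * g * y) * g⁻¹ := by group
            _ = g * (y * (g⁻¹ * v * g)) * g⁻¹ := by rw [h4]
            _ = g * y * g⁻¹ * v := by group
        refine Subgroup.mem_inf.mpr ⟨?_, h2⟩
        obtain ⟨e, he⟩ := IsPGroup.iff_orderOf.mp h.isP ⟨y, (Subgroup.mem_inf.mp hy).1⟩
        apply h.two_mem _ (hCV h2) e
        rw [Subgroup.orderOf_mk] at he
        have h5 : (g * y * g⁻¹) ^ 2 ^ e = g * y ^ 2 ^ e * g⁻¹ := conj_pow
        rw [h5, ← he, pow_orderOf_eq_one]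
        group
      intro g hg
      rw [mem_normalizer_iff]
      intro y
      refine ⟨fun hy => key g hg y hy, fun hy => ?_⟩
      have h6 := key _ (inv_mem hg) _ hy
      have h7 : g⁻¹ * (g * y * g⁻¹) * g⁻¹⁻¹ = y := by group
      rwa [h7] at h6
  rw [← h1]
  exact Subgroup.mem_inf.mpr ⟨ht, htc⟩

/-- `T / Q` has exponent two -/
theorem IsQ.sq_mem [Finite G] (h : Two M T) {Q : Subgroup G} (hQ : IsQ M T Q) {t : G} (ht : t ∈ T) :
    t ^ 2 ∈ Q := by
  apply hQ.mem_of_cent h (pow_mem ht 2)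
  rw [mem_centralizer_iff]
  intro v hv
  have hvQ : v ∈ Q := H13.Omega.omegaZ_le _ hv
  have hvT := hQ.QT hvQ
  have hv2 : v * v = 1 := by
    have := (H13.Omega.isElementaryAbelian_omegaZ Q).2 v hv
    rwa [pow_two] at this
  set d := v * t * v⁻¹ * t⁻¹ with hd
  have hdZ : d ∈ T ⊓ centralizer (T : Set G) := h.comm_mem hvT ht
  have hdt : t * d = d * t := mem_centralizer_iff.mp (Subgroup.mem_inf.mp hdZ).2 t ht
  have hdv : v * d = d * v := mem_centralizer_iff.mp (Subgroup.mem_inf.mp hdZ).2 v hvT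
  -- `d` lies in `V`
  have hdV : d ∈ H13.Omega.omegaZ 2 Q := by
    have h1 : t * v⁻¹ * t⁻¹ ∈ H13.Omega.omegaZ 2 Q := by
      have h2 := H1.ThompsonNPC.normalizer_le_omegaZ (p := 2) Q (h.le_normalizer hQ.ZQ hQ.QT ht)
      exact (mem_normalizer_iff.mp h2 _).mp (inv_mem hv)
    have h3 : d = v * (t * v⁻¹ * t⁻¹) := by rw [hd]; group
    rw [h3]; exact mul_mem hv h1
  have hd2 : d * d = 1 := by
    have := (H13.Omega.isElementaryAbelian_omegaZ Q).2 d hdV
    rwa [pow_two] at this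
  have hvt : v * t = d * t * v := by rw [hd]; group
  calc v * t ^ 2 = (v * t) * t := by rw [pow_two]; group
    _ = d * t * v * t := by rw [hvt]
    _ = d * t * (v * t) := by group
    _ = d * t * (d * t * v) := by rw [hvt]
    _ = d * (t * d) * t * v := by group
    _ = (d * d) * t * t * v := by rw [hdt]; group
    _ = t ^ 2 * v := by rw [hd2, pow_two]; group

/-- the element `x` -/
theorem IsQ.exists_x [Finite G] (h : Two M T) (hS : ∃ S : Sylow 2 G, (S : Subgroup G) = T) {Q : Subgroup G}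
    (hQ : IsQ M T Q) : ∃ t ∈ T, t ∉ Q ∧ (∀ s ∈ T, s ∈ Q ∨ s * t ∈ Q) ∧
      ∃ x ∈ normalizer (Q : Set G), x ∉ M ∧ Odd (orderOf x) ∧ t * x * t⁻¹ * x ∈ Q := by
  haveI : Fact (Nat.Prime 2) := ⟨Nat.prime_two⟩
  obtain ⟨S₀, hS₀⟩ := hS
  have hTQ := h.le_normalizer hQ.ZQ hQ.QT
  have hMQ := h.M_le_normalizer hQ.QT hTQ
  set L := normalizer (Q : Set G) with hL
  set N : Subgroup L := Q.subgroupOf L with hN
  haveI hNn : N.Normal := Subgroup.normal_in_normalizer
  set π := QuotientGroup.mk' N with hπ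
  have hπs : Function.Surjective π := QuotientGroup.mk'_surjective N
  have hker : ∀ a b : L, π a = π b → (a : G)⁻¹ * b ∈ Q := by
    intro a b hab
    have h1 := QuotientGroup.eq.mp hab
    rwa [hN, mem_subgroupOf] at h1
  have hker1 : ∀ a : L, π a = 1 ↔ (a : G) ∈ Q := by
    intro a
    rw [hπ, QuotientGroup.mk'_apply, QuotientGroup.eq_one_iff, hN, mem_subgroupOf]
  set S : Sylow 2 (L ⧸ N) := Sylow.mapSurjective hπs (S₀.subtype (hS₀ ▸ hTQ)) with hSdef
  have hmemS : ∀ y : L ⧸ N, y ∈ (S : Subgroup (L ⧸ N)) ↔ ∃ t : L, (t : G) ∈ T ∧ π t = y := by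
    intro y
    rw [hSdef, Sylow.coe_mapSurjective]
    constructor
    · rintro ⟨t, ht, rfl⟩
      exact ⟨t, by rw [← hS₀]; exact ht, rfl⟩
    · rintro ⟨t, ht, rfl⟩
      exact ⟨t, by rw [← hS₀] at ht; exact ht, rfl⟩
  set Mb : Subgroup (L ⧸ N) := (M.subgroupOf L).map π with hMb
  have hmemM : ∀ g : L, π g ∈ Mb → (g : G) ∈ M := by
    rintro g ⟨m, hm, hmg⟩
    have h1 := hker _ _ hmg
    have h2 : (g : G) = m * ((m : G)⁻¹ * g) := by group
    rw [h2]
    exact mul_mem hm (h.TM (hQ.QT h1))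
  have hcomm : ∀ s t : L, (s : G) ∈ T → (t : G) ∈ T → π s * π t = π t * π s := by
    intro s t hs ht
    have h1 : π (s * t * s⁻¹ * t⁻¹) = 1 := by
      rw [hker1]
      exact hQ.ZQ (h.comm_mem hs ht)
    rw [map_mul, map_mul, map_mul, map_inv, map_inv, mul_inv_eq_one, mul_inv_eq_iff_eq_mul] at h1
    exact h1
  have hel : IsElementaryAbelian 2 (S : Subgroup (L ⧸ N)) := by
    refine ⟨⟨⟨?_⟩⟩, ?_⟩
    · rintro ⟨a, ha⟩ ⟨b, hb⟩
      obtain ⟨s, hs, rfl⟩ := (hmemS a).mp ha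
      obtain ⟨t, ht, rfl⟩ := (hmemS b).mp hb
      exact Subtype.ext (hcomm s t hs ht)
    · intro a ha
      obtain ⟨s, hs, rfl⟩ := (hmemS a).mp ha
      rw [← map_pow, hker1]
      exact hQ.sq_mem h hs
  have hcT : ∀ g : L, (g : G) ∈ M → π g ∈ centralizer ((S : Subgroup (L ⧸ N)) : Set (L ⧸ N)) := by
    intro g hg
    obtain ⟨s, hs, c, hcM, hc, hsc⟩ := h.decomp hg
    have hsL : s ∈ L := hTQ hs
    have hcL : c ∈ L := hMQ hcM
    rw [mem_centralizer_iff]
    intro y hy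
    obtain ⟨t, ht, rfl⟩ := (hmemS y).mp hy
    have h1 : g = ⟨s, hsL⟩ * ⟨c, hcL⟩ := Subtype.ext hsc
    have h2 : π t * π ⟨c, hcL⟩ = π ⟨c, hcL⟩ * π t := by
      rw [← map_mul, ← map_mul]
      congr 1
      exact Subtype.ext (mem_centralizer_iff.mp hc t ht)
    rw [h1, map_mul, ← mul_assoc, hcomm t ⟨s, hsL⟩ ht hs, mul_assoc, h2, mul_assoc]
  obtain ⟨s, hs, hs1, hall, y, hyM, hyo, hsy⟩ := quo S hel (by
      intro g hg
      obtain ⟨g, rfl⟩ := hπs g
      apply hcT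
      apply h.nT
      have key : ∀ g : L, π g ∈ normalizer ((S : Subgroup (L ⧸ N)) : Set (L ⧸ N)) → ∀ t ∈ T, (g : G) * t * (g : G)⁻¹ ∈ T := by
        intro g hg t ht
        have h1 := (mem_normalizer_iff.mp hg (π ⟨t, hTQ ht⟩)).mp ((hmemS _).mpr ⟨⟨t, hTQ ht⟩, ht, rfl⟩)
        obtain ⟨t', ht', ht''⟩ := (hmemS _).mp h1
        rw [← map_inv, ← map_mul, ← map_mul] at ht''
        have h2 := hker _ _ ht''
        have h3 : (g : G) * t * (g : G)⁻¹ = t' * ((t' : G)⁻¹ * (g * ⟨t, hTQ ht⟩ * g⁻¹ : L)) := by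
          rw [mul_inv_cancel_left]; rfl
        rw [h3]
        exact mul_mem ht' (hQ.QT h2)
      rw [mem_normalizer_iff]
      intro t
      refine ⟨fun ht => key g hg t ht, fun ht => ?_⟩
      have h4 := key g⁻¹ (by rw [map_inv]; exact inv_mem hg) _ ht
      have h5 : ((g⁻¹ : L) : G) * ((g : G) * t * (g : G)⁻¹) * ((g⁻¹ : L) : G)⁻¹ = t := by
        rw [InvMemClass.coe_inv]; group
      rwa [h5] at h4) Mb
    (by
      intro htop
      apply hQ.nQ
      intro g hg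
      apply hmemM ⟨g, hg⟩
      rw [htop]; exact mem_top _)
    (by
      intro y hy
      obtain ⟨t, ht, rfl⟩ := (hmemS y).mp hy
      exact ⟨t, h.TM ht, rfl⟩)
    (by
      intro s hs hs1 g hg
      obtain ⟨t, ht, rfl⟩ := (hmemS s).mp hs
      obtain ⟨g, rfl⟩ := hπs g
      have htQ : (t : G) ∉ Q := fun h1 => hs1 ((hker1 t).mpr h1)
      refine ⟨g, ?_, rfl⟩
      show (g : G) ∈ M
      have hgt : (g : G) * t * (g : G)⁻¹ * (t : G)⁻¹ ∈ Q := by
        rw [mem_centralizer_singleton_iff] at hg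
        have h1 : π (g * t * g⁻¹ * t⁻¹) = 1 := by
          rw [map_mul, map_mul, map_mul, map_inv, map_inv, mul_inv_eq_one, mul_inv_eq_iff_eq_mul]
          exact hg
        exact (hker1 _).mp h1
      have hnorm : (g : G) ∈ normalizer ((Q ⊔ zpowers (t : G) : Subgroup G) : Set G) := by
        rw [mem_normalizer_iff_map_conj_eq]
        apply Subgroup.eq_of_le_of_card_ge
        · have : ((Q ⊔ zpowers (t : G) : Subgroup G)).map (MulAut.conj (g : G)).toMonoidHom ≤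
              Q ⊔ zpowers (t : G) := by
            rw [Subgroup.map_sup, MonoidHom.map_zpowers]
            apply sup_le
            · rintro _ ⟨q, hq, rfl⟩
              exact Subgroup.mem_sup_left ((mem_normalizer_iff.mp g.2 q).mp hq)
            · rw [zpowers_le]
              show (g : G) * t * (g : G)⁻¹ ∈ _
              have h2 : (g : G) * t * (g : G)⁻¹ = ((g : G) * t * (g : G)⁻¹ * (t : G)⁻¹) * t := by group
              rw [h2]
              exact mul_mem (Subgroup.mem_sup_left hgt) (Subgroup.mem_sup_right (mem_zpowers _))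
          exact this
        · exact (Subgroup.card_map_of_injective (MulAut.conj (g : G)).injective).ge
      by_contra hgM
      apply htQ
      rw [← hQ.max (Q ⊔ zpowers (t : G)) le_sup_left (sup_le hQ.QT (by rw [zpowers_le]; exact ht))
        (fun hle => hgM (hle hnorm))]
      exact Subgroup.mem_sup_right (mem_zpowers _))
    (by
      intro hb
      apply hQ.nQ
      have hTQ' : T ≤ Q := by
        intro t ht
        have h1 : π ⟨t, hTQ ht⟩ ∈ (S : Subgroup (L ⧸ N)) := (hmemS _).mpr ⟨_, ht, rfl⟩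
        rw [hb, mem_bot] at h1
        exact (hker1 _).mp h1
      have hTQ'' : T = Q := le_antisymm hTQ' hQ.QT
      rw [← hTQ'']
      exact h.nT)
    (by
      rintro _ ⟨m, hm, rfl⟩ _
      exact hcT m hm)
  obtain ⟨t, ht, rfl⟩ := (hmemS s).mp hs
  obtain ⟨y, rfl⟩ := hπs y
  obtain ⟨k, e, hk, -, hk2⟩ := split y
  have hyk : π (y ^ k) = π y := by
    rw [map_pow]
    conv_rhs => rw [← pow_one (π y)]
    apply pow_eq_pow_iff_modEq.mpr
    exact hk2 _ hyo (orderOf_map_dvd π y)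
  refine ⟨t, ht, fun h1 => hs1 ((hker1 t).mpr h1), ?_, ((y ^ k : L) : G), (y ^ k).2, ?_, ?_, ?_⟩
  · intro s' hs'
    have hs'L : s' ∈ L := hTQ hs'
    rcases hall (π ⟨s', hs'L⟩) ((hmemS _).mpr ⟨_, hs', rfl⟩) with h1 | h1
    · exact Or.inl ((hker1 _).mp h1)
    · right
      have h2 : π (⟨s', hs'L⟩ * t) = 1 := by
        rw [map_mul, h1, ← map_mul, hker1]
        have := hQ.sq_mem h ht
        rwa [pow_two] at this
      exact (hker1 _).mp h2
  · intro h1
    apply hyM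
    rw [← hyk]
    exact ⟨_, h1, rfl⟩
  · rw [Subgroup.orderOf_coe]; exact hk
  · have h1 : π (t * y ^ k * t⁻¹ * y ^ k) = 1 := by
      rw [map_mul, map_mul, map_mul, map_inv, hyk, hsy, inv_mul_cancel]
    exact (hker1 _).mp h1

theorem mem_norm_of [Finite G] {K : Subgroup G} {g : G} (h : ∀ k ∈ K, g * k * g⁻¹ ∈ K) :
    g ∈ normalizer (K : Set G) := by
  rw [mem_normalizer_iff_map_conj_eq]
  apply Subgroup.eq_of_le_of_card_ge
  · rintro _ ⟨k, hk, rfl⟩
    exact h k hk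
  · exact (Subgroup.card_map_of_injective (MulAut.conj g).injective).ge

theorem mem_of_sq_mem {H : Subgroup G} {x : G} (h : x * x ∈ H) (ho : Odd (orderOf x)) : x ∈ H := by
  obtain ⟨k, hk⟩ := ho
  have h1 : x = (x * x) ^ (k + 1) := by
    rw [← pow_two, ← pow_mul]
    have h2 : 2 * (k + 1) = orderOf x + 1 := by omega
    rw [h2, pow_add, pow_orderOf_eq_one, one_mul, pow_one]
  rw [h1]
  exact pow_mem h _

/-- `[B, x]` for an abelian group `B` -/
def cm (B : Subgroup G) (x : G) : Subgroup G := closure {u | ∃ b ∈ B, b * x * b⁻¹ * x⁻¹ = u}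

theorem mem_cm {B : Subgroup G} {x : G} (hB : ∀ a ∈ B, ∀ b ∈ B, a * b = b * a)
    (hx : x ∈ normalizer (B : Set G)) {u : G} : u ∈ cm B x ↔ ∃ b ∈ B, b * x * b⁻¹ * x⁻¹ = u := by
  have hxB : ∀ b ∈ B, x * b * x⁻¹ ∈ B := fun b hb => (mem_normalizer_iff.mp hx b).mp hb
  constructor
  · intro hu
    induction hu using Subgroup.closure_induction with
    | mem _ h => exact h
    | one => exact ⟨1, one_mem _, by group⟩
    | mul a b _ _ ha hb =>
      obtain ⟨c, hc, rfl⟩ := ha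
      obtain ⟨d, hd, rfl⟩ := hb
      refine ⟨c * d, mul_mem hc hd, ?_⟩
      have h1 := hB _ hd _ (hxB _ (inv_mem hc))
      calc c * d * x * (c * d)⁻¹ * x⁻¹ = c * d * (x * d⁻¹ * x⁻¹) * (x * c⁻¹ * x⁻¹) := by group
        _ = c * d * ((x * d⁻¹ * x⁻¹) * (x * c⁻¹ * x⁻¹)) := by group
        _ = c * d * ((x * c⁻¹ * x⁻¹) * (x * d⁻¹ * x⁻¹)) := by
            rw [hB _ (hxB _ (inv_mem hd)) _ (hxB _ (inv_mem hc))]
        _ = c * (d * (x * c⁻¹ * x⁻¹)) * (x * d⁻¹ * x⁻¹) := by group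
        _ = c * ((x * c⁻¹ * x⁻¹) * d) * (x * d⁻¹ * x⁻¹) := by rw [h1]
        _ = c * x * c⁻¹ * x⁻¹ * (d * x * d⁻¹ * x⁻¹) := by group
    | inv a _ ha =>
      obtain ⟨c, hc, rfl⟩ := ha
      refine ⟨c⁻¹, inv_mem hc, ?_⟩
      have h1 := hB _ (inv_mem hc) _ (hxB _ hc)
      calc c⁻¹ * x * c⁻¹⁻¹ * x⁻¹ = c⁻¹ * (x * c * x⁻¹) := by group
        _ = (x * c * x⁻¹) * c⁻¹ := h1
        _ = (c * x * c⁻¹ * x⁻¹)⁻¹ := by group
  · rintro ⟨b, hb, rfl⟩
    exact subset_closure ⟨b, hb, rfl⟩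

theorem cm_le {B : Subgroup G} {x : G} (hx : x ∈ normalizer (B : Set G)) : cm B x ≤ B := by
  rw [cm, closure_le]
  rintro _ ⟨b, hb, rfl⟩
  have h1 : b * x * b⁻¹ * x⁻¹ = b * (x * b⁻¹ * x⁻¹) := by group
  rw [h1]
  exact mul_mem hb ((mem_normalizer_iff.mp hx _).mp (inv_mem hb))

/-- fixed points on `[B,x]` -/
theorem eq_one_of_fixed {B : Subgroup G} {x : G} (hB : ∀ a ∈ B, ∀ b ∈ B, a * b = b * a)
    (hx : x ∈ normalizer (B : Set G)) (ho : Odd (orderOf x)) (h2 : IsPGroup 2 B) {u : G} (hu : u ∈ cm B x)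
    (hux : x * u = u * x) : u = 1 := by
  obtain ⟨b, hb, rfl⟩ := (mem_cm hB hx).mp hu
  set u := b * x * b⁻¹ * x⁻¹ with hud
  have huB : u ∈ B := cm_le hx hu
  have key : ∀ k : ℕ, b = u ^ k * (x ^ k * b * (x ^ k)⁻¹) := by
    intro k
    induction k with
    | zero => simp
    | succ n ih =>
      have h1 : b = u * (x * b * x⁻¹) := by rw [hud]; group
      have h3 : x * u ^ n * x⁻¹ = u ^ n := by
        have : Commute x (u ^ n) := (show Commute x u from hux).pow_right n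
        rw [this.eq]; group
      calc b = u * (x * b * x⁻¹) := h1
        _ = u * (x * (u ^ n * (x ^ n * b * (x ^ n)⁻¹)) * x⁻¹) := by rw [← ih]
        _ = u * ((x * u ^ n * x⁻¹) * (x * (x ^ n * b * (x ^ n)⁻¹) * x⁻¹)) := by group
        _ = u * (u ^ n * (x * (x ^ n * b * (x ^ n)⁻¹) * x⁻¹)) := by rw [h3]
        _ = u ^ (n + 1) * (x ^ (n + 1) * b * (x ^ (n + 1))⁻¹) := by
            rw [pow_succ' u n, pow_succ' x n]; group
  have h1 := key (orderOf x)
  rw [pow_orderOf_eq_one, one_mul, inv_one, mul_one] at h1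
  have h3 : u ^ orderOf x = 1 := by
    have : u ^ orderOf x * b = 1 * b := by rw [← h1, one_mul]
    exact mul_right_cancel this
  obtain ⟨e, he⟩ := IsPGroup.iff_orderOf.mp h2 ⟨u, huB⟩
  rw [Subgroup.orderOf_mk] at he
  have h4 : orderOf u ∣ orderOf x := orderOf_dvd_of_pow_eq_one h3
  rw [he] at h4
  have h5 : Nat.Coprime (2 ^ e) (orderOf x) := Nat.Coprime.pow_left e (Nat.coprime_two_left.mpr ho)
  have h6 : 2 ^ e = 1 := Nat.Coprime.eq_one_of_dvd h5 h4
  rw [← orderOf_eq_one_iff, he, h6]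

theorem mem_triv_cm {B : Subgroup G} {x : G} [Finite G] (hB : ∀ a ∈ B, ∀ b ∈ B, a * b = b * a)
    (hx : x ∈ normalizer (B : Set G)) : x ∈ triv B (cm B x) := by
  refine ⟨hx, ?_, fun b hb => subset_closure ⟨b, hb, rfl⟩⟩
  apply mem_norm_of
  intro u hu
  obtain ⟨b, hb, rfl⟩ := (mem_cm hB hx).mp hu
  rw [mem_cm hB hx]
  exact ⟨x * b * x⁻¹, (mem_normalizer_iff.mp hx _).mp hb, by group⟩

/-- data found so far -/
structure Dat (M T Q : Subgroup G) (t x : G) : Prop where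
  two : Two M T
  isQ : IsQ M T Q
  tT : t ∈ T
  tQ : t ∉ Q
  st : ∀ s ∈ T, s ∈ Q ∨ s * t ∈ Q
  xQ : x ∈ normalizer (Q : Set G)
  xM : x ∉ M
  xo : Odd (orderOf x)
  tx : t * x * t⁻¹ * x ∈ Q

section dat

variable {Q : Subgroup G} {t x : G}

theorem norm_center (Q : Subgroup G) : normalizer (Q : Set G) ≤ normalizer ((Q ⊓ centralizer (Q : Set G) : Subgroup G) : Set G) :=
  H1.ThompsonNPC.normalizer_le_center Q

theorem Dat.Z_le (h : Dat M T Q t x) : T ⊓ centralizer (T : Set G) ≤ Q ⊓ centralizer (Q : Set G) :=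
  le_inf h.isQ.ZQ (inf_le_right.trans (Subgroup.centralizer_le (show (Q : Set G) ⊆ T from h.isQ.QT)))

theorem Dat.tN (h : Dat M T Q t x) : T ≤ normalizer (Q : Set G) := h.two.le_normalizer h.isQ.ZQ h.isQ.QT

theorem Dat.T_le_triv (h : Dat M T Q t x) : T ≤ triv Q (Q ⊓ centralizer (Q : Set G)) := by
  intro s hs
  refine ⟨h.tN hs, norm_center Q (h.tN hs), fun q hq => h.Z_le (h.two.comm_mem (h.isQ.QT hq) hs)⟩

/-- conjugates by `x` also act trivially -/
theorem Dat.conj_mem_triv (h : Dat M T Q t x) {s : G} (hs : s ∈ T) :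
    x * s * x⁻¹ ∈ triv Q (Q ⊓ centralizer (Q : Set G)) := by
  have hsN := h.tN hs
  refine ⟨mul_mem (mul_mem h.xQ hsN) (inv_mem h.xQ), norm_center Q (mul_mem (mul_mem h.xQ hsN) (inv_mem h.xQ)), ?_⟩
  intro q hq
  have h1 : x⁻¹ * q * x ∈ Q := by
    have := (mem_normalizer_iff.mp (inv_mem h.xQ) q).mp hq
    simpa using this
  have h2 := h.Z_le (h.two.comm_mem (h.isQ.QT h1) hs)
  have h3 := (mem_normalizer_iff.mp (norm_center Q h.xQ) _).mp h2
  have h4 : q * (x * s * x⁻¹) * q⁻¹ * (x * s * x⁻¹)⁻¹ =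
      x * (x⁻¹ * q * x * s * (x⁻¹ * q * x)⁻¹ * s⁻¹) * x⁻¹ := by group
  rw [h4]; exact h3

/-- `x` lies in every subgroup containing `Q`, `t` and `x t x⁻¹` -/
theorem Dat.x_mem (h : Dat M T Q t x) {H : Subgroup G} (hQ : Q ≤ H) (ht : t ∈ H) (hxt : x * t * x⁻¹ ∈ H) :
    x ∈ H := by
  apply mem_of_sq_mem _ h.xo
  have h1 : x * x = (x * t * x⁻¹) * t⁻¹ * (t * x * t⁻¹ * x) := by group
  rw [h1]
  exact mul_mem (mul_mem hxt (inv_mem ht)) (hQ h.tx)

theorem Dat.x_mem_triv (h : Dat M T Q t x) : x ∈ triv Q (Q ⊓ centralizer (Q : Set G)) :=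
  h.x_mem (h.isQ.QT.trans h.T_le_triv) (h.T_le_triv h.tT) (h.conj_mem_triv h.tT)

end dat

end H70.NMTwo
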