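import Cfsg.Agent.Lib.H70.NMTwo

set_option autoImplicit false
open Subgroup Cfsg
open scoped commutatorElement Pointwise

namespace H70.NMTwo

universe u

variable {G : Type u} [Group G] {M T Q : Subgroup G} {t x : G}

theorem solv_zpowers (x : G) : Group.IsSolvable (zpowers x) := by
  apply Group.isSolvable_of_comm
  rintro ⟨_, i, rfl⟩ ⟨_, j, rfl⟩
  apply Subtype.ext
  exact ((Commute.refl x).zpow_zpow i j).eq

/-- center of `Q` inside `G` -/
abbrev zc (Q : Subgroup G) : Subgroup G := Q ⊓ centralizer (Q : Set G)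

theorem zc_comm {Q : Subgroup G} {a q : G} (ha : a ∈ zc Q) (hq : q ∈ Q) : a * q = q * a :=
  (mem_centralizer_iff.mp (Subgroup.mem_inf.mp ha).2 q hq).symm

theorem zc_comm' {Q : Subgroup G} : ∀ a ∈ zc Q, ∀ b ∈ zc Q, a * b = b * a :=
  fun _ ha _ hb => zc_comm ha (Subgroup.mem_inf.mp hb).1

theorem Dat.xB (h : Dat M T Q t x) : x ∈ normalizer (zc Q : Set G) := norm_center Q h.xQ

theorem Dat.W_le (h : Dat M T Q t x) : cm (zc Q) x ≤ zc Q := cm_le h.xB

theorem Dat.Q2 (h : Dat M T Q t x) : IsPGroup 2 Q := h.two.isP.to_le h.isQ.QT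

theorem Dat.B2 (h : Dat M T Q t x) : IsPGroup 2 (zc Q) := h.Q2.to_le inf_le_left

theorem Dat.coprime [Finite G] (h : Dat M T Q t x) : (Nat.card (zpowers x)).Coprime (Nat.card Q) := by
  haveI : Fact (Nat.Prime 2) := ⟨Nat.prime_two⟩
  obtain ⟨n, hn⟩ := h.Q2.exists_card_eq
  rw [Nat.card_zpowers, hn]
  exact Nat.Coprime.pow_right n (Nat.coprime_two_right.mpr h.xo)

theorem Dat.fixed (h : Dat M T Q t x) {u : G} (hu : u ∈ cm (zc Q) x) (hux : x * u = u * x) : u = 1 :=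
  eq_one_of_fixed zc_comm' h.xB h.xo h.B2 hu hux

theorem Dat.commutator_le [Finite G] (h : Dat M T Q t x) : ⁅Q, zpowers x⁆ ≤ cm (zc Q) x := by
  have h1 : ⁅Q, zpowers x⁆ ≤ zc Q := by
    rw [Subgroup.commutator_le]
    intro q hq g hg
    have h2 : zpowers x ≤ triv Q (zc Q) := by rw [zpowers_le]; exact h.x_mem_triv
    exact (h2 hg).2.2 q hq
  have h3 : ⁅zc Q, zpowers x⁆ ≤ cm (zc Q) x := by
    rw [Subgroup.commutator_le]
    intro q hq g hg
    have h2 : zpowers x ≤ triv (zc Q) (cm (zc Q) x) := by rw [zpowers_le]; exact mem_triv_cm zc_comm' h.xB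
    exact (h2 hg).2.2 q hq
  have hs := solv_zpowers x
  rw [← H1.Coprime2.commutator_commutator_eq (zpowers x) Q (by rw [zpowers_le]; exact h.xQ) h.coprime (Or.inl hs)]
  exact (Subgroup.commutator_mono h1 le_rfl).trans h3

theorem Dat.comm_x [Finite G] (h : Dat M T Q t x) {q : G} (hq : q ∈ Q) : q * x * q⁻¹ * x⁻¹ ∈ cm (zc Q) x :=
  h.commutator_le (Subgroup.commutator_mem_commutator hq (mem_zpowers x))

theorem Dat.decomp [Finite G] (h : Dat M T Q t x) {q : G} (hq : q ∈ Q) :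
    ∃ u ∈ cm (zc Q) x, ∃ c ∈ Q, x * c = c * x ∧ q = u * c := by
  have hs := solv_zpowers x
  obtain ⟨u, hu, c, hc, rfl⟩ := H1.Coprime2.exists_mul_of_mem (zpowers x) Q (by rw [zpowers_le]; exact h.xQ)
    h.coprime (Or.inl hs) hq
  refine ⟨u, h.commutator_le hu, c, (Subgroup.mem_inf.mp hc).1, ?_, rfl⟩
  exact mem_centralizer_iff.mp (Subgroup.mem_inf.mp hc).2 x (mem_zpowers x)

/-- `T` normalizes `W` -/
theorem Dat.T_le [Finite G] (h : Dat M T Q t x) : T ≤ normalizer (cm (zc Q) x : Set G) := by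
  have hQ : Q ≤ normalizer (cm (zc Q) x : Set G) := by
    intro q hq
    apply mem_norm_of
    intro u hu
    have h1 : q * u * q⁻¹ = u := by
      rw [← zc_comm (h.W_le hu) hq]; group
    rw [h1]; exact hu
  have ht : t ∈ normalizer (cm (zc Q) x : Set G) := by
    apply mem_norm_of
    intro u hu
    obtain ⟨b, hb, rfl⟩ := (mem_cm zc_comm' h.xB).mp hu
    rw [mem_cm zc_comm' h.xB]
    have htB : t ∈ normalizer (zc Q : Set G) := norm_center Q (h.tN h.tT)
    have hb' : t * b * t⁻¹ ∈ zc Q := (mem_normalizer_iff.mp htB _).mp hb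
    set b' := t * b * t⁻¹ with hb'd
    have hc : x⁻¹ * b'⁻¹ * x ∈ zc Q := by
      have := (mem_normalizer_iff.mp (inv_mem h.xB) _).mp (inv_mem hb')
      simpa using this
    set c := x⁻¹ * b'⁻¹ * x with hcd
    refine ⟨c, hc, ?_⟩
    set q := t * x * t⁻¹ * x with hqd
    have hq : q ∈ Q := h.tx
    have h1 : t * (b * x * b⁻¹ * x⁻¹) * t⁻¹ = b' * (q * c * q⁻¹) := by
      rw [hb'd, hcd, hqd, hb'd]; group
    have h2 : q * c * q⁻¹ = c := by rw [← zc_comm hc hq]; group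
    have h3 : b' = x * c⁻¹ * x⁻¹ := by rw [hcd]; group
    have h4 : x * c⁻¹ * x⁻¹ ∈ zc Q := (mem_normalizer_iff.mp h.xB _).mp (inv_mem hc)
    rw [h1, h2, h3]
    calc c * x * c⁻¹ * x⁻¹ = c * (x * c⁻¹ * x⁻¹) := by group
      _ = (x * c⁻¹ * x⁻¹) * c := zc_comm' _ hc _ h4
  intro s hs
  rcases h.st s hs with h1 | h1
  · exact hQ h1
  · have h2 : s = (s * t) * t⁻¹ := by group
    rw [h2]
    exact mul_mem (hQ h1) (inv_mem ht)

/-- squares and commutators -/
theorem Dat.sq [Finite G] (h : Dat M T Q t x) (h2 : ∀ u ∈ cm (zc Q) x, u * u = 1) {q z : G} (hq : q ∈ Q)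
    (hz : z ∈ cm (zc Q) x) (hqz : q * q = z) : z = 1 := by
  obtain ⟨u, hu, c, hc, hxc, rfl⟩ := h.decomp hq
  apply h.fixed hz
  have h1 : u * c * (u * c) = c * c := by
    calc u * c * (u * c) = u * (c * u) * c := by group
      _ = u * (u * c) * c := by rw [zc_comm (h.W_le hu) hc]
      _ = (u * u) * (c * c) := by group
      _ = c * c := by rw [h2 u hu, one_mul]
  rw [← hqz, h1]
  exact (show Commute x c from hxc).mul_right hxc

theorem Dat.cmm [Finite G] (h : Dat M T Q t x) {q q' z : G} (hq : q ∈ Q) (hq' : q' ∈ Q)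
    (hz : z ∈ cm (zc Q) x) (hqz : q * q' * q⁻¹ * q'⁻¹ = z) : z = 1 := by
  obtain ⟨u, hu, c, hc, hxc, rfl⟩ := h.decomp hq
  obtain ⟨v, hv, d, hd, hxd, rfl⟩ := h.decomp hq'
  apply h.fixed hz
  have e1 := zc_comm (h.W_le hu) hc
  have e2 := zc_comm (h.W_le hu) hd
  have e3 := zc_comm (h.W_le hu) (h.W_le hv).1
  have e4 := zc_comm (h.W_le hv) hc
  have e5 := zc_comm (h.W_le hv) hd
  have h1 : u * c * (v * d) * (u * c)⁻¹ * (v * d)⁻¹ = c * d * c⁻¹ * d⁻¹ := by
    have c1 : Commute u c := e1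
    have c2 : Commute u d := e2
    have c3 : Commute u v := e3
    have c4 : Commute v c := e4
    have c5 : Commute v d := e5
    calc u * c * (v * d) * (u * c)⁻¹ * (v * d)⁻¹ = (u * c) * (v * d) * ((u * c)⁻¹ * (v * d)⁻¹) := by group
      _ = (u * v) * (c * d) * ((v * u)⁻¹ * (d * c)⁻¹) := by
        congr 1
        · calc (u * c) * (v * d) = u * (c * v) * d := by group
            _ = u * (v * c) * d := by rw [c4.eq]
            _ = (u * v) * (c * d) := by group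
        · rw [← mul_inv_rev, ← mul_inv_rev]
          congr 1
          calc v * d * (u * c) = v * (d * u) * c := by group
            _ = v * (u * d) * c := by rw [c2.eq]
            _ = (v * u) * (d * c) := by group
            _ = (d * c) * (v * u) := by
              have : Commute (v * u) (d * c) := (c5.mul_left c2).mul_right (c4.mul_left c1)
              exact this.eq
      _ = (u * v) * (c * d) * ((u * v)⁻¹ * (d * c)⁻¹) := by rw [c3.eq]
      _ = (u * v) * ((c * d) * (u * v)⁻¹) * (d * c)⁻¹ := by group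
      _ = (u * v) * ((u * v)⁻¹ * (c * d)) * (d * c)⁻¹ := by
        have : Commute (u * v) (c * d) := (c1.mul_left c4).mul_right (c2.mul_left c5)
        rw [this.inv_left.eq]
      _ = c * d * c⁻¹ * d⁻¹ := by group
  rw [← hqz, h1]
  have f1 : Commute x c := hxc
  have f2 : Commute x d := hxd
  exact (((f1.mul_right f2).mul_right f1.inv_right).mul_right f2.inv_right).eq

/-- `|B| = |[B,t]| |C_B(t)|` -/
theorem card_cm [Finite G] {B : Subgroup G} {t : G} (hB : ∀ a ∈ B, ∀ b ∈ B, a * b = b * a)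
    (ht : t ∈ normalizer (B : Set G)) : Nat.card B = Nat.card (cm B t) * Nat.card (B ⊓ centralizer {t} : Subgroup G) := by
  have htB : ∀ b ∈ B, t * b * t⁻¹ ∈ B := fun b hb => (mem_normalizer_iff.mp ht b).mp hb
  let δ : B →* G :=
    { toFun := fun b => (b : G) * t * (b : G)⁻¹ * t⁻¹
      map_one' := by simp
      map_mul' := by
        rintro ⟨c, hc⟩ ⟨d, hd⟩
        show c * d * t * (c * d)⁻¹ * t⁻¹ = c * t * c⁻¹ * t⁻¹ * (d * t * d⁻¹ * t⁻¹)
        have h1 := hB _ hd _ (htB _ (inv_mem hc))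
        calc c * d * t * (c * d)⁻¹ * t⁻¹ = c * d * (t * d⁻¹ * t⁻¹) * (t * c⁻¹ * t⁻¹) := by group
          _ = c * d * ((t * d⁻¹ * t⁻¹) * (t * c⁻¹ * t⁻¹)) := by group
          _ = c * d * ((t * c⁻¹ * t⁻¹) * (t * d⁻¹ * t⁻¹)) := by
              rw [hB _ (htB _ (inv_mem hd)) _ (htB _ (inv_mem hc))]
          _ = c * (d * (t * c⁻¹ * t⁻¹)) * (t * d⁻¹ * t⁻¹) := by group
          _ = c * ((t * c⁻¹ * t⁻¹) * d) * (t * d⁻¹ * t⁻¹) := by rw [h1]
          _ = c * t * c⁻¹ * t⁻¹ * (d * t * d⁻¹ * t⁻¹) := by group }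
  have hr : δ.range = cm B t := by
    ext u
    rw [mem_cm hB ht]
    constructor
    · rintro ⟨⟨b, hb⟩, rfl⟩
      exact ⟨b, hb, rfl⟩
    · rintro ⟨b, hb, rfl⟩
      exact ⟨⟨b, hb⟩, rfl⟩
  have hk : Nat.card δ.ker = Nat.card (B ⊓ centralizer {t} : Subgroup G) := by
    have h1 : δ.ker.map B.subtype = B ⊓ centralizer {t} := by
      ext u
      constructor
      · rintro ⟨⟨b, hb⟩, hbk, rfl⟩
        refine Subgroup.mem_inf.mpr ⟨hb, ?_⟩
        rw [mem_centralizer_singleton_iff]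
        have h2 : b * t * b⁻¹ * t⁻¹ = 1 := hbk
        rw [mul_inv_eq_one, mul_inv_eq_iff_eq_mul] at h2
        exact h2
      · intro hu
        obtain ⟨hu1, hu2⟩ := Subgroup.mem_inf.mp hu
        refine ⟨⟨u, hu1⟩, ?_, rfl⟩
        rw [SetLike.mem_coe, MonoidHom.mem_ker]
        show u * t * u⁻¹ * t⁻¹ = 1
        rw [mem_centralizer_singleton_iff] at hu2
        rw [mul_inv_eq_one, mul_inv_eq_iff_eq_mul]
        exact hu2
    rw [← h1, Subgroup.card_map_of_injective B.subtype_injective]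
  rw [← hr, ← hk, mul_comm, ← Subgroup.card_mul_index δ.ker, Subgroup.index_ker]

theorem mem_norm_of_triv [Finite G] {W U : Subgroup G} (hUW : U ≤ W) {g : G}
    (h : ∀ w ∈ W, w * g * w⁻¹ * g⁻¹ ∈ U) : g ∈ normalizer (U : Set G) := by
  apply mem_norm_of
  intro u hu
  have h1 : g * u * g⁻¹ = (u * g * u⁻¹ * g⁻¹)⁻¹ * u := by group
  rw [h1]
  exact mul_mem (inv_mem (h u (hUW hu))) hu

theorem Dat.xW [Finite G] (h : Dat M T Q t x) : x ∈ normalizer (cm (zc Q) x : Set G) :=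
  (mem_triv_cm zc_comm' h.xB).2.1

theorem Dat.W_comm (h : Dat M T Q t x) : ∀ a ∈ cm (zc Q) x, ∀ b ∈ cm (zc Q) x, a * b = b * a :=
  fun a ha b hb => zc_comm' a (h.W_le ha) b (h.W_le hb)

theorem Dat.sup_le [Finite G] (h : Dat M T Q t x) :
    cm (cm (zc Q) x) t ⊔ (cm (cm (zc Q) x) t).map (MulAut.conj x).toMonoidHom ≤ cm (zc Q) x := by
  have h1 : cm (cm (zc Q) x) t ≤ cm (zc Q) x := cm_le (h.T_le h.tT)
  apply _root_.sup_le h1
  rintro _ ⟨u, hu, rfl⟩
  exact (mem_normalizer_iff.mp h.xW u).mp (h1 hu)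

theorem Dat.le_sup [Finite G] (h : Dat M T Q t x) :
    cm (zc Q) x ≤ cm (cm (zc Q) x) t ⊔ (cm (cm (zc Q) x) t).map (MulAut.conj x).toMonoidHom := by
  set W := cm (zc Q) x with hW
  set U := cm W t ⊔ (cm W t).map (MulAut.conj x).toMonoidHom with hU
  have hUW : U ≤ W := h.sup_le
  have hxW : x ∈ normalizer (W : Set G) := h.xW
  have htW : t ∈ normalizer (W : Set G) := h.T_le h.tT
  have key : ∀ g ∈ normalizer (W : Set G), (∀ w ∈ W, w * g * w⁻¹ * g⁻¹ ∈ U) → g ∈ triv W U :=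
    fun g hg hw => ⟨hg, mem_norm_of_triv hUW hw, hw⟩
  have hx : x ∈ triv W U := by
    apply h.x_mem
    · intro q hq
      apply key q (h.T_le (h.isQ.QT hq))
      intro w hw
      have h1 : w * q * w⁻¹ * q⁻¹ = 1 := by
        rw [zc_comm (h.W_le hw) hq]; group
      rw [h1]; exact one_mem _
    · apply key t htW
      intro w hw
      exact (_root_.le_sup_left : cm W t ≤ U) (subset_closure ⟨w, hw, rfl⟩)
    · apply key _ (mul_mem (mul_mem hxW htW) (inv_mem hxW))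
      intro w hw
      have h1 : w * (x * t * x⁻¹) * w⁻¹ * (x * t * x⁻¹)⁻¹ =
          MulAut.conj x ((x⁻¹ * w * x) * t * (x⁻¹ * w * x)⁻¹ * t⁻¹) := by
        rw [MulAut.conj_apply]; group
      rw [h1]
      apply (_root_.le_sup_right : (cm W t).map (MulAut.conj x).toMonoidHom ≤ U)
      refine ⟨_, subset_closure ⟨x⁻¹ * w * x, ?_, rfl⟩, rfl⟩
      have := (mem_normalizer_iff.mp (inv_mem hxW) _).mp hw
      simpa using this
  intro w hw
  obtain ⟨b, hb, rfl⟩ := (mem_cm zc_comm' h.xB).mp hw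
  obtain ⟨u, hu, c, hc, hxc, rfl⟩ := h.decomp (Subgroup.mem_inf.mp hb).1
  have h1 : u * c * x * (u * c)⁻¹ * x⁻¹ = u * x * u⁻¹ * x⁻¹ := by
    have h2 : u * c * x * (u * c)⁻¹ * x⁻¹ = u * (c * x) * c⁻¹ * u⁻¹ * x⁻¹ := by group
    rw [h2, ← hxc]; group
  rw [h1]
  exact hx.2.2 u hu

theorem Dat.cm_sq [Finite G] (h : Dat M T Q t x) {u : G} (hu : u ∈ cm (cm (zc Q) x) t) : u ^ 2 = 1 := by
  obtain ⟨w, hw, rfl⟩ := (mem_cm h.W_comm (h.T_le h.tT)).mp hu
  have hwB := h.W_le hw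
  have hwQ := (Subgroup.mem_inf.mp hwB).1
  have h1 := mem_centralizer_iff.mp (Subgroup.mem_inf.mp (h.two.comm_mem (h.isQ.QT hwQ) h.tT)).2 t h.tT
  set u := w * t * w⁻¹ * t⁻¹ with hud
  have htt : w * (t * t) = (t * t) * w := by
    apply zc_comm hwB
    have := h.isQ.sq_mem h.two h.tT
    rwa [pow_two] at this
  have h2 : t * w⁻¹ * t⁻¹ ∈ cm (zc Q) x := (mem_normalizer_iff.mp (h.T_le h.tT) _).mp (inv_mem hw)
  have h3 : t * u * t⁻¹ = u⁻¹ := by
    have h4 : t * u * t⁻¹ = (t * w * t⁻¹) * ((t * t) * w⁻¹ * (t * t)⁻¹) := by rw [hud]; group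
    have h5 : (t * t) * w⁻¹ * (t * t)⁻¹ = w⁻¹ := by
      have : Commute w (t * t) := htt
      rw [this.inv_left.eq.symm]; group
    rw [h4, h5]
    have h6 : t * w * t⁻¹ = (t * w⁻¹ * t⁻¹)⁻¹ := by group
    have h7 : u = w * (t * w⁻¹ * t⁻¹) := by rw [hud]; group
    rw [h7, h6]
    exact (mul_inv_rev w (t * w⁻¹ * t⁻¹)).symm
  have h8 : u = u⁻¹ := by
    rw [← h3, h1]; group
  rw [pow_two]; nth_rewrite 2 [h8]; exact mul_inv_cancel u

theorem Dat.elem_cm [Finite G] (h : Dat M T Q t x) : IsElementaryAbelian 2 (cm (cm (zc Q) x) t) :=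
  ⟨⟨⟨by
    rintro ⟨a, ha⟩ ⟨b, hb⟩
    exact Subtype.ext (h.W_comm a (cm_le (h.T_le h.tT) ha) b (cm_le (h.T_le h.tT) hb))⟩⟩,
    fun a ha => h.cm_sq ha⟩

theorem Dat.elem_W [Finite G] (h : Dat M T Q t x) : IsElementaryAbelian 2 (cm (zc Q) x) := by
  apply H13.ElemAb.of_le _ h.le_sup
  apply H13.ElemAb.sup h.elem_cm (H13.ElemAb.map h.elem_cm _)
  intro a ha
  rw [mem_centralizer_iff]
  intro b hb
  exact h.W_comm b (h.sup_le (_root_.le_sup_right (a := cm (cm (zc Q) x) t) hb)) a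
    (h.sup_le (_root_.le_sup_left (a := cm (cm (zc Q) x) t) ha))

theorem Dat.exists_E [Finite G] (h : Dat M T Q t x) : ∃ E : Subgroup G, E ≤ T ∧ IsElementaryAbelian 2 E ∧ ¬ E ≤ Q ∧
    ∀ F : Subgroup G, F ≤ T → IsElementaryAbelian 2 F → Nat.card F ≤ Nat.card E := by
  have hJ : ¬ thompsonSubgroupOf 2 T ≤ Q := by
    intro hle
    have h1 := H13.SylowN.thompsonOf_eq_of_le_of_le h.isQ.QT hle
    have h2 := H13.SylowN.normalizer_le_normalizer_thompsonOf (p := 2) Q h.xQ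
    rw [h1] at h2
    exact h.xM (h.two.nJ h2)
  by_contra hcon
  push Not at hcon
  apply hJ
  unfold thompsonSubgroupOf
  rw [Subgroup.map_le_iff_le_comap]
  apply sSup_le
  intro E hE
  rw [← Subgroup.map_le_iff_le_comap]
  by_contra hEQ
  obtain ⟨F, hFT, hF, hlt⟩ := hcon (E.map T.subtype) (Subgroup.map_subtype_le E) (H13.ElemAb.map hE.1 _) hEQ
  rw [Subgroup.card_map_of_injective T.subtype_injective] at hlt
  have h1 := hE.2 (F.subgroupOf T) (H13.ElemAb.subgroupOf hF T)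
  have h2 : Nat.card (F.subgroupOf T) = Nat.card F := Nat.card_congr (Subgroup.subgroupOfEquivOfLe hFT).toEquiv
  rw [h2] at h1
  exact absurd hlt (not_lt.mpr h1)

theorem Dat.relIndex [Finite G] (h : Dat M T Q t x) : Q.relIndex T = 2 := by
  rw [Subgroup.relIndex_eq_two_iff]
  refine ⟨t, h.tT, fun s hs => ?_⟩
  rcases h.st s hs with h1 | h1
  · exact Or.inr ⟨h1, fun h2 => h.tQ (by
      have := mul_mem (inv_mem h1) h2
      rwa [inv_mul_cancel_left] at this)⟩
  · exact Or.inl ⟨h1, fun h2 => h.tQ (by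
      have := mul_mem (inv_mem h2) h1
      rwa [inv_mul_cancel_left] at this)⟩

theorem Dat.mem_cent (h : Dat M T Q t x) {y : G} (hyQ : ∀ q ∈ Q, y * q = q * y) (hyt : y * t = t * y) :
    y ∈ centralizer (T : Set G) := by
  rw [mem_centralizer_iff]
  intro s hs
  rcases h.st s hs with h1 | h1
  · exact (hyQ s h1).symm
  · have h2 : s = (s * t) * t⁻¹ := by group
    rw [h2]
    have c1 : Commute y (s * t) := hyQ _ h1
    have c2 : Commute y t := hyt
    exact (c1.mul_right c2.inv_right).eq.symm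

theorem Dat.card_W_le [Finite G] (h : Dat M T Q t x) :
    Nat.card (cm (zc Q) x) ≤ 2 * Nat.card (cm (zc Q) x ⊓ centralizer {t} : Subgroup G) := by
  set W := cm (zc Q) x with hW
  obtain ⟨E, hET, hE, hEQ, hmax⟩ := h.exists_E
  obtain ⟨e, he, heQ⟩ := SetLike.not_le_iff_exists.mp hEQ
  have hF : IsElementaryAbelian 2 ((E ⊓ Q) ⊔ W : Subgroup G) := by
    apply H13.ElemAb.sup (H13.ElemAb.of_le hE inf_le_left) h.elem_W
    intro a ha
    rw [mem_centralizer_iff]
    intro b hb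
    exact zc_comm (h.W_le hb) (Subgroup.mem_inf.mp ha).2
  have h1 := hmax _ (_root_.sup_le (inf_le_left.trans hET) ((h.W_le.trans inf_le_left).trans h.isQ.QT)) hF
  have hn1 : (E ⊓ Q : Subgroup G) ≤ normalizer (W : Set G) := fun a ha => h.T_le (hET (Subgroup.mem_inf.mp ha).1)
  have h2 := H13.Thompson.card_sup_mul_card_inf hn1
  have hn2 : E ≤ normalizer (Q : Set G) := hET.trans h.tN
  have h3 := H13.Thompson.card_sup_mul_card_inf hn2
  have h4 : Nat.card T = 2 * Nat.card Q := by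
    rw [← h.relIndex, mul_comm, Subgroup.relIndex, ← Subgroup.card_mul_index (Q.subgroupOf T)]
    congr 1
    exact Nat.card_congr (Subgroup.subgroupOfEquivOfLe h.isQ.QT).toEquiv
  have h5 : Nat.card (E ⊔ Q : Subgroup G) ≤ Nat.card T := Subgroup.card_le_of_le (_root_.sup_le hET h.isQ.QT)
  have h6 : Nat.card E ≤ 2 * Nat.card (E ⊓ Q : Subgroup G) := by
    have h7 : Nat.card E * Nat.card Q ≤ (2 * Nat.card (E ⊓ Q : Subgroup G)) * Nat.card Q := by
      rw [← h3]
      calc Nat.card (E ⊔ Q : Subgroup G) * Nat.card (E ⊓ Q : Subgroup G)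
          ≤ Nat.card T * Nat.card (E ⊓ Q : Subgroup G) := Nat.mul_le_mul_right _ h5
        _ = (2 * Nat.card (E ⊓ Q : Subgroup G)) * Nat.card Q := by rw [h4]; ring
    exact Nat.le_of_mul_le_mul_right h7 Nat.card_pos
  have h8 : Nat.card (E ⊓ Q ⊓ W : Subgroup G) ≤ Nat.card (W ⊓ centralizer {t} : Subgroup G) := by
    apply Subgroup.card_le_of_le
    intro y hy
    obtain ⟨hy1, hyW⟩ := Subgroup.mem_inf.mp hy
    obtain ⟨hyE, hyQ⟩ := Subgroup.mem_inf.mp hy1
    refine Subgroup.mem_inf.mpr ⟨hyW, ?_⟩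
    rw [mem_centralizer_singleton_iff]
    have c1 : Commute y e := H13.ElemAb.comm hE hyE he
    have c2 : Commute y (e * t) := zc_comm (h.W_le hyW) ((h.st e (hET he)).resolve_left heQ)
    have h9 : t = e⁻¹ * (e * t) := by group
    rw [h9]
    exact (c1.inv_right.mul_right c2).eq
  have h10 : Nat.card (E ⊓ Q : Subgroup G) * Nat.card W ≤
      Nat.card (E ⊓ Q : Subgroup G) * (2 * Nat.card (W ⊓ centralizer {t} : Subgroup G)) := by
    rw [← h2]
    calc Nat.card (E ⊓ Q ⊔ W : Subgroup G) * Nat.card (E ⊓ Q ⊓ W : Subgroup G)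
        ≤ (2 * Nat.card (E ⊓ Q : Subgroup G)) * Nat.card (W ⊓ centralizer {t} : Subgroup G) :=
          Nat.mul_le_mul (h1.trans h6) h8
      _ = Nat.card (E ⊓ Q : Subgroup G) * (2 * Nat.card (W ⊓ centralizer {t} : Subgroup G)) := by ring
  exact Nat.le_of_mul_le_mul_left h10 Nat.card_pos

theorem Dat.W_ne_bot [Finite G] (h : Dat M T Q t x) : cm (zc Q) x ≠ ⊥ := by
  intro hb
  apply h.xM
  apply h.two.centralizer_le h.isQ.ZQ
  rw [mem_centralizer_iff]
  intro q hq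
  have h1 := h.comm_x hq
  rw [hb, mem_bot, mul_inv_eq_one, mul_inv_eq_iff_eq_mul] at h1
  exact h1

theorem Dat.card_W [Finite G] (h : Dat M T Q t x) : Nat.card (cm (zc Q) x) = 4 ∧
    Nat.card (cm (zc Q) x ⊓ centralizer {t} : Subgroup G) = 2 := by
  set W := cm (zc Q) x with hW
  have h1 : Nat.card W = Nat.card (cm W t) * Nat.card (W ⊓ centralizer {t} : Subgroup G) :=
    card_cm h.W_comm (h.T_le h.tT)
  have h2 : Nat.card W ≤ 2 * Nat.card (W ⊓ centralizer {t} : Subgroup G) := h.card_W_le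
  have h3 : Nat.card (cm W t) ≤ 2 := by
    rw [h1] at h2
    exact Nat.le_of_mul_le_mul_right h2 Nat.card_pos
  have h4 : Nat.card W ≤ Nat.card (cm W t) * Nat.card (cm W t) := by
    have h5 : (cm W t) ≤ normalizer (((cm W t).map (MulAut.conj x).toMonoidHom : Subgroup G) : Set G) := by
      intro a ha
      apply centralizer_le_normalizer
      rw [mem_centralizer_iff]
      intro b hb
      exact h.W_comm b (h.sup_le (_root_.le_sup_right (a := cm W t) hb)) a
        (h.sup_le (_root_.le_sup_left (a := cm W t) ha))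
    have h6 := H13.Thompson.card_sup_mul_card_inf h5
    have h7 : Nat.card ((cm W t).map (MulAut.conj x).toMonoidHom) = Nat.card (cm W t) :=
      Subgroup.card_map_of_injective (MulAut.conj x).injective
    rw [h7] at h6
    calc Nat.card W ≤ Nat.card (cm W t ⊔ (cm W t).map (MulAut.conj x).toMonoidHom : Subgroup G) :=
          Subgroup.card_le_of_le h.le_sup
      _ ≤ Nat.card (cm W t ⊔ (cm W t).map (MulAut.conj x).toMonoidHom : Subgroup G) *
            Nat.card (cm W t ⊓ (cm W t).map (MulAut.conj x).toMonoidHom : Subgroup G) :=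
          Nat.le_mul_of_pos_right _ Nat.card_pos
      _ = _ := h6
  have hWne : 1 < Nat.card W := by
    rw [Finite.one_lt_card_iff_nontrivial]; exact (Subgroup.nontrivial_iff_ne_bot _).mpr h.W_ne_bot
  have h8 : Nat.card (cm W t) = 2 := by
    have : Nat.card (cm W t) ≠ 1 := fun h9 => by rw [h9] at h4; omega
    have := Nat.card_pos (α := cm W t)
    omega
  rw [h8] at h1 h4
  have h9 : Nat.card W ≠ 2 := by
    intro h10
    obtain ⟨u, hu⟩ := Subgroup.ne_bot_iff_exists_ne_one.mp h.W_ne_bot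
    obtain ⟨v, hv, hvv⟩ := (Nat.card_eq_two_iff' (1 : W)).mp h10
    have hvx : x * (v : G) * x⁻¹ ∈ W := (mem_normalizer_iff.mp h.xW _).mp v.2
    have h11 := hvv ⟨_, hvx⟩ (by
      intro h12
      apply hv
      have h13 : x * (v : G) * x⁻¹ = 1 := congrArg Subtype.val h12
      apply Subtype.ext
      have h14 : (v : G) = x⁻¹ * (x * (v : G) * x⁻¹) * x := by group
      rw [h14, h13]; simp)
    have h15 : x * (v : G) * x⁻¹ = v := congrArg Subtype.val h11
    apply hv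
    apply Subtype.ext
    apply h.fixed v.2
    rw [mul_inv_eq_iff_eq_mul] at h15
    exact h15
  omega

/-- the final package of the `2`-local analysis -/
structure Pack (M T Q W : Subgroup G) (x z w : G) : Prop where
  two : Two M T
  QT : Q ≤ T
  ZQ : T ⊓ centralizer (T : Set G) ≤ Q
  WQ : W ≤ Q
  WQc : ∀ u ∈ W, ∀ q ∈ Q, u * q = q * u
  idx : ∀ s ∈ T, ∀ s' ∈ T, s ∉ Q → s' ∉ Q → s * s' ∈ Q
  TW : T ≤ normalizer (W : Set G)
  nQ : x ∈ normalizer (Q : Set G)
  xM : x ∉ M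
  comm : ∀ q ∈ Q, q * x * q⁻¹ * x⁻¹ ∈ W
  zW : z ∈ W
  z1 : z ≠ 1
  zZ : z ∈ T ⊓ centralizer (T : Set G)
  hz : ∀ u ∈ W, u ∈ T ⊓ centralizer (T : Set G) → u = 1 ∨ u = z
  wW : w ∈ W
  wZ : w ∉ T ⊓ centralizer (T : Set G)
  w2 : w * w = 1
  hw : ∀ u ∈ W, u ∈ T ⊓ centralizer (T : Set G) ∨ w * u ∈ T ⊓ centralizer (T : Set G)
  sq : ∀ q ∈ Q, q * q ≠ z
  cm : ∀ q ∈ Q, ∀ q' ∈ Q, q * q' * q⁻¹ * q'⁻¹ ≠ z

theorem Dat.pack [Finite G] (h : Dat M T Q t x) : ∃ z w : G, Pack M T Q (cm (zc Q) x) x z w := by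
  obtain ⟨h4, h2⟩ := h.card_W
  set W := cm (zc Q) x with hW
  have hWQ : W ≤ Q := h.W_le.trans inf_le_left
  have hZ : ∀ u ∈ W, u ∈ T ⊓ centralizer (T : Set G) ↔ u ∈ W ⊓ centralizer {t} := by
    intro u hu
    constructor
    · intro h1
      refine Subgroup.mem_inf.mpr ⟨hu, ?_⟩
      rw [mem_centralizer_singleton_iff]
      exact (mem_centralizer_iff.mp (Subgroup.mem_inf.mp h1).2 t h.tT).symm
    · intro h1
      refine Subgroup.mem_inf.mpr ⟨h.isQ.QT (hWQ hu), ?_⟩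
      apply h.mem_cent (fun q hq => zc_comm (h.W_le hu) hq)
      exact mem_centralizer_singleton_iff.mp (Subgroup.mem_inf.mp h1).2
  obtain ⟨z, hz1, hzz⟩ := (Nat.card_eq_two_iff' (1 : (W ⊓ centralizer {t} : Subgroup G))).mp h2
  have hzW : (z : G) ∈ W := (Subgroup.mem_inf.mp z.2).1
  obtain ⟨w, hwW, hwn⟩ : ∃ w ∈ W, w ∉ W ⊓ centralizer {t} := by
    by_contra hcon
    push Not at hcon
    have h5 : Nat.card W ≤ Nat.card (W ⊓ centralizer {t} : Subgroup G) := Subgroup.card_le_of_le hcon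
    omega
  have hsq : ∀ u ∈ W, u * u = 1 := by
    intro u hu
    have := h.elem_W.2 u hu
    rwa [pow_two] at this
  refine ⟨z, w, ⟨h.two, h.isQ.QT, h.isQ.ZQ, hWQ, fun u hu q hq => zc_comm (h.W_le hu) hq, ?_, h.T_le, h.xQ, h.xM,
    fun q hq => h.comm_x hq, hzW, fun h5 => hz1 (Subtype.ext h5), (hZ _ hzW).mpr z.2, ?_, hwW,
    fun h5 => hwn ((hZ _ hwW).mp h5), hsq w hwW, ?_, ?_, ?_⟩⟩
  · intro s hs s' hs' h5 h6
    have h7 := (h.st s hs).resolve_left h5
    have h8 : s'⁻¹ * t ∈ Q := (h.st s'⁻¹ (inv_mem hs')).resolve_left (fun h9 => h6 (by simpa using inv_mem h9))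
    have h10 : s * s' = (s * t) * (s'⁻¹ * t)⁻¹ := by group
    rw [h10]
    exact mul_mem h7 (inv_mem h8)
  · intro u hu huZ
    by_cases hu1 : u = 1
    · exact Or.inl hu1
    · right
      exact congrArg Subtype.val (hzz ⟨u, (hZ u hu).mp huZ⟩ (fun h5 => hu1 (congrArg Subtype.val h5)))
  · intro u hu
    by_cases hu1 : u ∈ W ⊓ centralizer {t}
    · exact Or.inl ((hZ u hu).mpr hu1)
    · right
      rw [hZ _ (mul_mem hwW hu)]
      -- `W / C_W(t)` has order two
      have h5 : ((W ⊓ centralizer {t}).subgroupOf W).index = 2 := by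
        have h6 := Subgroup.card_mul_index ((W ⊓ centralizer {t}).subgroupOf W)
        have h7 : Nat.card ((W ⊓ centralizer {t}).subgroupOf W) = 2 := by
          rw [← h2]
          exact Nat.card_congr (Subgroup.subgroupOfEquivOfLe inf_le_left).toEquiv
        rw [h7, h4] at h6
        omega
      have h8 := (Subgroup.mul_mem_iff_of_index_two h5 (a := ⟨w, hwW⟩) (b := ⟨u, hu⟩))
      rw [mem_subgroupOf, mem_subgroupOf, mem_subgroupOf] at h8
      exact h8.mpr (iff_of_false hwn hu1)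
  · intro q hq h5
    exact hz1 (Subtype.ext (h.sq hsq hq hzW h5))
  · intro q hq q' hq' h5
    exact hz1 (Subtype.ext (h.cmm hq hq' hzW h5))

theorem Two.exists_pack [Finite G] (h : Two M T) (hS : ∃ S : Sylow 2 G, (S : Subgroup G) = T)
    (hnpc : ¬ HasNormalPComplement 2 G) : ∃ (Q W : Subgroup G) (x z w : G), Pack M T Q W x z w := by
  obtain ⟨Q, hQ⟩ := h.exists_Q hS hnpc
  obtain ⟨t, ht, htQ, hst, x, hx, hxM, hxo, htx⟩ := hQ.exists_x h hS
  have hd : Dat M T Q t x := ⟨h, hQ, ht, htQ, hst, hx, hxM, hxo, htx⟩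
  obtain ⟨z, w, hp⟩ := hd.pack
  exact ⟨Q, _, x, z, w, hp⟩

end H70.NMTwo
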