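import Cfsg.Agent.Lib.H70.NMTwoB

set_option autoImplicit false
open Subgroup Cfsg
open scoped commutatorElement Pointwise

namespace H70.NilMaxA

universe u

variable {G A : Type u} [Group G] [Group A] (φ : A →* MulAut G)

/-- invariance -/
def Inv (X : Subgroup G) : Prop := ∀ (a : A) (x : G), x ∈ X → φ a x ∈ X

variable {φ}

theorem Inv.map_le {X : Subgroup G} (h : Inv φ X) (a : A) : X.map (φ a).toMonoidHom ≤ X := by
  rintro _ ⟨x, hx, rfl⟩
  exact h a x hx

theorem Inv.map_eq {X : Subgroup G} (h : Inv φ X) (a : A) : X.map (φ a).toMonoidHom = X := by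
  apply le_antisymm (h.map_le a)
  intro x hx
  refine ⟨φ a⁻¹ x, h a⁻¹ x hx, ?_⟩
  show φ a (φ a⁻¹ x) = x
  rw [map_inv]; exact (φ a).apply_symm_apply x

theorem of_map_eq {X : Subgroup G} (h : ∀ a : A, X.map (φ a).toMonoidHom = X) : Inv φ X := by
  intro a x hx
  rw [← h a]; exact ⟨x, hx, rfl⟩

theorem phi_inv_apply (a : A) (x : G) : φ a (φ a⁻¹ x) = x := by
  rw [map_inv]; exact (φ a).apply_symm_apply x

theorem phi_inv_apply' (a : A) (x : G) : φ a⁻¹ (φ a x) = x := by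
  rw [map_inv]; exact (φ a).symm_apply_apply x

theorem Inv.centralizer {X : Subgroup G} (h : Inv φ X) : Inv φ (centralizer (X : Set G)) := by
  intro a c hc
  rw [mem_centralizer_iff] at hc ⊢
  intro y hy
  have h1 := hc _ (h a⁻¹ y hy)
  have h2 := congrArg (φ a) h1
  rwa [map_mul, map_mul, phi_inv_apply] at h2

theorem Inv.normalizer {X : Subgroup G} (h : Inv φ X) : Inv φ (normalizer (X : Set G)) := by
  intro a g hg
  rw [mem_normalizer_iff] at hg ⊢
  intro y
  constructor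
  · intro hy
    have h1 := (hg _).mp (h a⁻¹ y hy)
    have h2 := h a _ h1
    rwa [map_mul, map_mul, map_inv (φ a), phi_inv_apply] at h2
  · intro hy
    have h1 := h a⁻¹ _ hy
    rw [map_mul, map_mul, map_inv (φ a⁻¹), phi_inv_apply'] at h1
    have h2 := h a _ ((hg _).mpr h1)
    rwa [phi_inv_apply] at h2

theorem Inv.inf {X Y : Subgroup G} (hX : Inv φ X) (hY : Inv φ Y) : Inv φ (X ⊓ Y) :=
  fun a x hx => Subgroup.mem_inf.mpr ⟨hX a x (Subgroup.mem_inf.mp hx).1, hY a x (Subgroup.mem_inf.mp hx).2⟩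

theorem Inv.sup {X Y : Subgroup G} (hX : Inv φ X) (hY : Inv φ Y) : Inv φ (X ⊔ Y) := by
  apply of_map_eq
  intro a
  rw [Subgroup.map_sup, hX.map_eq, hY.map_eq]

theorem Inv.thompson {p : ℕ} {X : Subgroup G} (h : Inv φ X) : Inv φ (thompsonSubgroupOf p X) := by
  apply of_map_eq
  intro a
  have h1 : (Cfsg.thompsonSubgroupOf p X).map (φ a).toMonoidHom =
      Cfsg.thompsonSubgroupOf p (X.map (φ a).toMonoidHom) := by
    unfold Cfsg.thompsonSubgroupOf
    rw [← H13.Thompson.map_equiv_thompson (p := p)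
      (X.equivMapOfInjective (φ a).toMonoidHom (φ a).injective),
      Subgroup.map_map, Subgroup.map_map]
    rfl
  rw [h1, h.map_eq]

theorem Inv.omegaZ {p : ℕ} {X : Subgroup G} (h : Inv φ X) : Inv φ (H13.Omega.omegaZ p X) := by
  apply of_map_eq
  intro a
  have h1 := H13.Omega.map_omegaZ_equiv (p := p) (φ a) X
  exact h1.trans (congrArg _ (h.map_eq a))

/-- the contradiction for the prime two -/
theorem pack_false [Finite G] [Finite A] (hA : Odd (Nat.card A)) {M T Q W : Subgroup G} {x z w : G}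
    (hp : NMTwo.Pack M T Q W x z w) (hT : Inv φ T)
    (hN : ∀ X : Subgroup G, X ≤ T → X ≠ ⊥ → T ≤ normalizer (X : Set G) → Inv φ X → normalizer (X : Set G) ≤ M) :
    False := by
  have hZ : Inv φ (T ⊓ centralizer (T : Set G)) := hT.inf hT.centralizer
  have hCw : ∀ s ∈ T, Commute w s → s ∈ Q := by
    intro s hs hc
    by_contra hsQ
    apply hp.wZ
    refine Subgroup.mem_inf.mpr ⟨hp.QT (hp.WQ hp.wW), ?_⟩
    rw [mem_centralizer_iff]
    intro s' hs'
    by_cases h1 : s' ∈ Q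
    · exact (hp.WQc w hp.wW s' h1).symm
    · have h2 := hp.idx s' hs' s hs h1 hsQ
      have c1 : Commute w (s' * s) := hp.WQc w hp.wW _ h2
      have h3 : s' = (s' * s) * s⁻¹ := by group
      rw [h3]
      exact (c1.mul_right hc.inv_right).eq.symm
  have hwT : w ∈ T := hp.QT (hp.WQ hp.wW)
  -- Step A
  obtain ⟨a, ha⟩ : ∃ a : A, ¬ Commute w (φ a w) := by
    by_contra hcon
    push Not at hcon
    set X : Subgroup G := ⨆ a : A, W.map (φ a).toMonoidHom with hX
    have hWX : W ≤ X := by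
      have h1 : W.map (φ 1).toMonoidHom ≤ X := le_iSup (fun a : A => W.map (φ a).toMonoidHom) 1
      intro u hu
      exact h1 ⟨u, hu, by rw [map_one]; rfl⟩
    have hXQ : X ≤ Q := by
      refine iSup_le fun a => ?_
      rintro _ ⟨u, hu, rfl⟩
      show φ a u ∈ Q
      rcases hp.hw u hu with h1 | h1
      · exact hp.ZQ (hZ a u h1)
      · have h2 := hp.ZQ (hZ a _ h1)
        rw [map_mul] at h2
        have h3 : φ a w ∈ Q := hCw _ (hT a w hwT) (hcon a)
        have h4 : φ a u = (φ a w)⁻¹ * (φ a w * φ a u) := by group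
        rw [h4]
        exact mul_mem (inv_mem h3) h2
    have hXne : X ≠ ⊥ := by
      intro hb
      apply hp.z1
      have := hWX hp.zW
      rwa [hb, mem_bot] at this
    have hTX : T ≤ normalizer (X : Set G) := by
      intro s hs
      apply NMTwo.mem_norm_of
      have h1 : X.map (MulAut.conj s).toMonoidHom ≤ X := by
        rw [hX, Subgroup.map_iSup]
        refine iSup_le fun a => le_trans ?_ (le_iSup (fun a : A => W.map (φ a).toMonoidHom) a)
        rintro _ ⟨_, ⟨u, hu, rfl⟩, rfl⟩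
        refine ⟨φ a⁻¹ s * u * (φ a⁻¹ s)⁻¹, (mem_normalizer_iff.mp (hp.TW (hT a⁻¹ s hs)) u).mp hu, ?_⟩
        show φ a (φ a⁻¹ s * u * (φ a⁻¹ s)⁻¹) = s * φ a u * s⁻¹
        rw [map_mul, map_mul, map_inv (φ a), phi_inv_apply]
      intro k hk
      exact h1 ⟨k, hk, rfl⟩
    have hXi : Inv φ X := by
      intro a y hy
      have h1 : X.map (φ a).toMonoidHom ≤ X := by
        rw [hX, Subgroup.map_iSup]
        refine iSup_le fun b => le_trans ?_ (le_iSup (fun a : A => W.map (φ a).toMonoidHom) (a * b))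
        rintro _ ⟨_, ⟨u, hu, rfl⟩, rfl⟩
        exact ⟨u, hu, by rw [map_mul]; rfl⟩
      exact h1 ⟨y, hy, rfl⟩
    apply hp.xM
    apply hN X (hXQ.trans hp.QT) hXne hTX hXi
    apply NMTwo.mem_norm_of
    intro k hk
    have h1 : x * k * x⁻¹ = (k * x * k⁻¹ * x⁻¹)⁻¹ * k := by group
    rw [h1]
    exact mul_mem (inv_mem (hWX (hp.comm k (hXQ hk)))) hk
  -- Step B
  have haw : φ a w ∈ T := hT a w hwT
  have hz : φ a z = z := by
    set v := w * (φ a w) * w⁻¹ * (φ a w)⁻¹ with hv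
    have hvZ : v ∈ T ⊓ Subgroup.centralizer (T : Set G) := hp.two.comm_mem hwT haw
    have hv1 : v ≠ 1 := by
      intro h1
      apply ha
      rw [hv, mul_inv_eq_one, mul_inv_eq_iff_eq_mul] at h1
      exact h1
    have hvW : v ∈ W := by
      have h1 : v = w * ((φ a w) * w⁻¹ * (φ a w)⁻¹) := by rw [hv]; group
      rw [h1]
      exact mul_mem hp.wW ((mem_normalizer_iff.mp (hp.TW haw) _).mp (inv_mem hp.wW))
    have hvz : v = z := (hp.hz v hvW hvZ).resolve_left hv1
    have hv' : φ a⁻¹ v = φ a⁻¹ w * w * (φ a⁻¹ w)⁻¹ * w⁻¹ := by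
      rw [hv, map_mul, map_mul, map_mul, map_inv (φ a⁻¹), map_inv (φ a⁻¹), phi_inv_apply']
    have hv'W : φ a⁻¹ v ∈ W := by
      rw [hv']
      exact mul_mem ((mem_normalizer_iff.mp (hp.TW (hT a⁻¹ w hwT)) _).mp hp.wW) (inv_mem hp.wW)
    have hv'Z := hZ a⁻¹ v hvZ
    have hv'1 : φ a⁻¹ v ≠ 1 := by
      intro h1
      apply hv1
      rw [← phi_inv_apply (φ := φ) a v, h1, map_one]
    have h2 := (hp.hz _ hv'W hv'Z).resolve_left hv'1
    rw [hvz] at h2
    conv_lhs => rw [← h2]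
    exact phi_inv_apply a z
  have hzi : ∀ i : ℕ, φ (a ^ i) z = z := by
    intro i
    induction i with
    | zero => rw [pow_zero, map_one]; rfl
    | succ n ih => rw [pow_succ, map_mul, MulAut.mul_apply, hz, ih]
  have huT : ∀ i : ℕ, φ (a ^ i) w ∈ T := fun i => hT _ w hwT
  have hcomm : ∀ i j : ℕ, φ (a ^ i) w * φ (a ^ j) w * (φ (a ^ i) w)⁻¹ * (φ (a ^ j) w)⁻¹ = 1 ∨
      φ (a ^ i) w * φ (a ^ j) w * (φ (a ^ i) w)⁻¹ * (φ (a ^ j) w)⁻¹ = z := by
    intro i j
    set s := φ (a ^ i)⁻¹ (φ (a ^ j) w) with hs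
    have hsT : s ∈ T := hT _ _ (huT j)
    have h1 : φ (a ^ i) w * φ (a ^ j) w * (φ (a ^ i) w)⁻¹ * (φ (a ^ j) w)⁻¹ = φ (a ^ i) (w * s * w⁻¹ * s⁻¹) := by
      rw [map_mul, map_mul, map_mul, map_inv, map_inv, hs, phi_inv_apply]
    have h2 : w * s * w⁻¹ * s⁻¹ ∈ W := by
      have h3 : w * s * w⁻¹ * s⁻¹ = w * (s * w⁻¹ * s⁻¹) := by group
      rw [h3]
      exact mul_mem hp.wW ((mem_normalizer_iff.mp (hp.TW hsT) _).mp (inv_mem hp.wW))
    rw [h1]
    rcases hp.hz _ h2 (hp.two.comm_mem hwT hsT) with h3 | h3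
    · left; rw [h3, map_one]
    · right; rw [h3, hzi]
  have hww : ∀ i : ℕ, φ (a ^ i) w * φ (a ^ i) w = 1 := by
    intro i
    rw [← map_mul, hp.w2, map_one]
  have claim : ∀ i j : ℕ, (φ (a ^ i) w ∈ Q ↔ φ (a ^ j) w ∈ Q) → Commute (φ (a ^ i) w) (φ (a ^ j) w) := by
    intro i j hij
    rcases hcomm i j with h1 | h1
    · rw [mul_inv_eq_one, mul_inv_eq_iff_eq_mul] at h1
      exact h1
    · exfalso
      by_cases h2 : φ (a ^ i) w ∈ Q
      · exact hp.cm _ h2 _ (hij.mp h2) h1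
      · have h3 := hp.idx _ (huT i) _ (huT j) h2 (fun h4 => h2 (hij.mpr h4))
        apply hp.sq _ h3
        have h4 : (φ (a ^ i) w)⁻¹ = φ (a ^ i) w := by
          rw [inv_eq_iff_mul_eq_one]; exact hww i
        have h5 : (φ (a ^ j) w)⁻¹ = φ (a ^ j) w := by
          rw [inv_eq_iff_mul_eq_one]; exact hww j
        rw [h4, h5] at h1
        rw [← h1]
        group
  have hnot : ∀ i : ℕ, ¬ (φ (a ^ i) w ∈ Q ↔ φ (a ^ (i + 1)) w ∈ Q) := by
    intro i hi
    have h1 := claim i (i + 1) hi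
    apply ha
    rw [pow_succ, map_mul, MulAut.mul_apply] at h1
    have h2 : φ (a ^ i) (w * φ a w) = φ (a ^ i) (φ a w * w) := by
      rw [map_mul, map_mul]; exact h1
    exact (φ (a ^ i)).injective h2
  have heven : ∀ i : ℕ, φ (a ^ i) w ∈ Q ↔ Even i := by
    intro i
    induction i with
    | zero =>
      rw [pow_zero, map_one]
      exact iff_of_true (hp.WQ hp.wW) (by decide)
    | succ n ih =>
      have h1 := hnot n
      rw [Nat.even_add_one, ← ih]
      tauto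
  have h1 := heven (orderOf a)
  rw [pow_orderOf_eq_one, map_one] at h1
  have h2 : Odd (orderOf a) := Odd.of_dvd_nat hA (orderOf_dvd_natCard a)
  exact (Nat.not_even_iff_odd.mpr h2) (h1.mp (hp.WQ hp.wW))

end H70.NilMaxA
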