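import Cfsg.Agent.Lib.H70.NilMaxA

set_option autoImplicit false
open Subgroup Cfsg
open scoped commutatorElement Pointwise

namespace H70.NilMaxA

universe u

/-- the odd order theorem as a hypothesis -/
def FT : Prop := ∀ (X : Type u) [Group X] [Finite X], Odd (Nat.card X) → Group.IsSolvable X

variable {G A : Type u} [Group G] [Group A] {φ : A →* MulAut G}

/-- the hypothesis on `M` -/
structure Max (φ : A →* MulAut G) (M : Subgroup G) : Prop where
  ne : M ≠ ⊤
  inv : Inv φ M
  max : ∀ H : Subgroup G, M ≤ H → H ≠ ⊤ → Inv φ H → H = M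
  nil : Group.IsNilpotent M

/-- no invariant normal subgroup inside `M` -/
def CoreFree (φ : A →* MulAut G) (M : Subgroup G) : Prop := ∀ X : Subgroup G, X.Normal → X ≤ M → Inv φ X → X = ⊥

/-- the Sylow `2`-subgroup of `M` has class at most two -/
def Cl (M : Subgroup G) : Prop := ∃ S : Subgroup G, S ≤ M ∧ (∀ g ∈ M, ∀ e, g ^ 2 ^ e = 1 → g ∈ S) ∧
  ∀ a ∈ S, ∀ b ∈ S, ∀ c ∈ S, c * (a * b * a⁻¹ * b⁻¹) = (a * b * a⁻¹ * b⁻¹) * c

section max

variable [Finite G] {M : Subgroup G}

omit [Finite G] in
theorem Max.normalizer_eq (h : Max φ M) (hcore : CoreFree φ M)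
    {X : Subgroup G} (hXM : X ≤ M) (hX : X ≠ ⊥) (hMX : M ≤ normalizer (X : Set G)) (hXi : Inv φ X) :
    normalizer (X : Set G) = M := by
  by_contra hne
  have h1 : normalizer (X : Set G) = ⊤ := by
    by_contra h2
    exact hne (h.max _ hMX h2 hXi.normalizer)
  exact hX (hcore X (normalizer_eq_top_iff.mp h1) hXM hXi)

/-- a Sylow `p`-subgroup of `M` is one of `G` -/
theorem Max.exists_sylow (h : Max φ M) (hcore : CoreFree φ M) {p : ℕ} [hp : Fact p.Prime] (hpM : p ∣ Nat.card M) :
    ∃ T : Sylow p G, (T : Subgroup G) ≤ M ∧ (T : Subgroup G) ≠ ⊥ ∧ M ≤ normalizer ((T : Subgroup G) : Set G) ∧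
      Inv φ (T : Subgroup G) := by
  have hnil := h.nil
  obtain ⟨S, hS⟩ := H1.Coprime2.exists_isSylIn p M
  obtain ⟨P, hP⟩ := hS.exists_sylow
  have hPn : (P : Subgroup M).Normal := inferInstance
  have h0 : S.subgroupOf M = P := by
    rw [← hP, Subgroup.subgroupOf, Subgroup.comap_map_eq_self_of_injective M.subtype_injective]
  have hSM : M ≤ normalizer (S : Set G) := by
    rw [← Subgroup.normal_subgroupOf_iff_le_normalizer hS.1, h0]
    exact hPn
  have hSne : S ≠ ⊥ := by
    intro hb
    have h1 := hS.2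
    rw [hb, Subgroup.card_bot] at h1
    have h2 : (Nat.card M).factorization p ≠ 0 :=
      (hp.out.factorization_pos_of_dvd Nat.card_pos.ne' hpM).ne'
    exact (Nat.one_lt_pow h2 hp.out.one_lt).ne h1
  have hSi : Inv φ S := by
    apply of_map_eq
    intro a
    -- `φ a S` is a `p`-subgroup of `M`
    have h1 : S.map (φ a).toMonoidHom ≤ M := (Subgroup.map_mono hS.1).trans (h.inv.map_le a)
    have h2 : IsPGroup p (S.map (φ a).toMonoidHom) := hS.isPGroup.map _
    have h3 : (S.map (φ a).toMonoidHom).subgroupOf M ≤ P := by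
      have h4 : IsPGroup p ((P : Subgroup M) ⊔ (S.map (φ a).toMonoidHom).subgroupOf M : Subgroup M) :=
        P.isPGroup'.to_sup_of_normal_left (h2.comap_subtype)
      have h5 := P.is_maximal' h4 le_sup_left
      have h6 : (P : Subgroup M) ⊔ (S.map (φ a).toMonoidHom).subgroupOf M = P := h5
      exact le_sup_right.trans h6.le
    apply Subgroup.eq_of_le_of_card_ge
    · intro y hy
      have h4 : (⟨y, h1 hy⟩ : M) ∈ (P : Subgroup M) := h3 hy
      rw [← h0] at h4
      exact h4
    · exact (Subgroup.card_map_of_injective (φ a).injective).ge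
  have hN := h.normalizer_eq hcore hS.1 hSne hSM hSi
  have hidx : ¬ p ∣ S.index := by
    intro hd
    have h1 : p ^ ((Nat.card M).factorization p + 1) ∣ Nat.card G := by
      rw [← Subgroup.card_mul_index S, hS.2, pow_succ]
      exact Nat.mul_dvd_mul dvd_rfl hd
    have h2 := Sylow.prime_dvd_card_quotient_normalizer h1 hS.2
    rw [hN] at h2
    have h3 : Nat.card (M ⧸ S.subgroupOf M) = (P : Subgroup M).index := by
      rw [h0]; rfl
    exact P.not_dvd_index (by rw [← h3]; exact h2)
  exact ⟨hS.isPGroup.toSylow hidx, hS.1, hSne, hSM, hSi⟩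

theorem center_ne_bot {p : ℕ} [hp : Fact p.Prime] {T : Subgroup G} (hT : IsPGroup p T) (hne : T ≠ ⊥) :
    T ⊓ centralizer (T : Set G) ≠ ⊥ := H1.ThompsonNPC.center_ne_bot hT hne

omit [Finite G] in
theorem M_le_normalizer_center {T : Subgroup G} : normalizer (T : Set G) ≤
    normalizer ((T ⊓ centralizer (T : Set G) : Subgroup G) : Set G) := H1.ThompsonNPC.normalizer_le_center T

/-- odd primes -/
theorem Max.npc_odd (h : Max φ M) (hcore : CoreFree φ M) {p : ℕ} [hp : Fact p.Prime] (hp2 : p ≠ 2)
    (hpM : p ∣ Nat.card M) : HasNormalPComplement p G := by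
  obtain ⟨T, hTM, hT, hMT, hTi⟩ := h.exists_sylow hcore hpM
  have hMnpc : HasNormalPComplement p M := H2.Nilp.hasNPC_of_nilpotent h.nil
  apply H1.ThompsonNPC.tpc hp2 T
  · rw [h.normalizer_eq hcore ((H13.SylowN.thompsonOf_le _).trans hTM)
      (H1.ThompsonNPC.thompsonOf_ne_bot T.isPGroup' hT)
      (hMT.trans (H13.SylowN.normalizer_le_normalizer_thompsonOf _)) hTi.thompson]
    exact hMnpc
  · have h1 := h.normalizer_eq hcore (X := (T : Subgroup G) ⊓ centralizer ((T : Subgroup G) : Set G))
      (inf_le_left.trans hTM) (H1.ThompsonNPC.center_ne_bot T.isPGroup' hT)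
      (hMT.trans (H1.ThompsonNPC.normalizer_le_center _)) (hTi.inf hTi.centralizer)
    exact H1.ThompsonNPC.mono ((centralizer_le_normalizer _).trans h1.le) hMnpc

/-- the prime two -/
theorem Max.npc_two [Finite A] (hA : Odd (Nat.card A)) (h : Max φ M) (hcore : CoreFree φ M) (hcl : Cl M)
    (hpM : 2 ∣ Nat.card M) : HasNormalPComplement 2 G := by
  haveI : Fact (Nat.Prime 2) := ⟨Nat.prime_two⟩
  obtain ⟨T, hTM, hT, hMT, hTi⟩ := h.exists_sylow hcore hpM
  have hMnpc : HasNormalPComplement 2 M := H2.Nilp.hasNPC_of_nilpotent h.nil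
  have hTM' : ∀ t ∈ (T : Subgroup G), ∃ e, t ^ 2 ^ e = 1 := by
    intro t ht
    obtain ⟨e, he⟩ := T.isPGroup' ⟨t, ht⟩
    exact ⟨e, congrArg Subtype.val he⟩
  have htwo : NMTwo.Two M (T : Subgroup G) := by
    refine ⟨hTM, hMT, T.isPGroup', ?_, ?_, ?_, ?_, ?_, ?_⟩
    · intro g hg hgo
      have h1 := H2.Frobenius.local_of_hasNPC hMnpc ((T : Subgroup G).subgroupOf M) (T.isPGroup'.comap_subtype) ⟨g, hg⟩
        (by
          rw [mem_normalizer_iff]
          intro y
          rw [mem_subgroupOf, mem_subgroupOf]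
          exact mem_normalizer_iff.mp (hMT hg) y) (by
            rw [Subgroup.orderOf_mk]; exact Nat.coprime_two_right.mpr hgo)
      rw [mem_centralizer_iff] at h1 ⊢
      intro t ht
      exact congrArg Subtype.val (h1 ⟨t, hTM ht⟩ ht)
    · intro g hg e hge
      have h1 : IsPGroup 2 (zpowers g) := by
        rintro ⟨_, i, rfl⟩
        refine ⟨e, Subtype.ext ?_⟩
        show (g ^ i) ^ 2 ^ e = 1
        rw [← zpow_natCast, zpow_comm, zpow_natCast, hge, one_zpow]
      have h2 : IsPGroup 2 ((T : Subgroup G) ⊔ zpowers g : Subgroup G) :=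
        T.isPGroup'.to_sup_of_normal_left' h1 (by rw [zpowers_le]; exact hMT hg)
      have h3 : (T : Subgroup G) ⊔ zpowers g = T := T.is_maximal' h2 le_sup_left
      rw [← h3]
      exact Subgroup.mem_sup_right (mem_zpowers g)
    · obtain ⟨S, hSM, hS, hc⟩ := hcl
      have h1 : ∀ t ∈ (T : Subgroup G), t ∈ S := by
        intro t ht
        obtain ⟨e, he⟩ := hTM' t ht
        exact hS t (hTM ht) e he
      exact fun a ha b hb c hcc => hc a (h1 a ha) b (h1 b hb) c (h1 c hcc)
    · exact (h.normalizer_eq hcore hTM hT hMT hTi).le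
    · refine (h.normalizer_eq hcore ((H13.Omega.omegaZ_le _).trans hTM) ?_
        (hMT.trans (H1.ThompsonNPC.normalizer_le_omegaZ _)) hTi.omegaZ).le
      -- nontrivial
      have h1 := H1.ThompsonNPC.center_ne_bot T.isPGroup' hT
      intro hb
      have h2 : 2 ∣ Nat.card ((T : Subgroup G) ⊓ centralizer ((T : Subgroup G) : Set G) : Subgroup G) := by
        have h3 : IsPGroup 2 ((T : Subgroup G) ⊓ centralizer ((T : Subgroup G) : Set G) : Subgroup G) :=
          T.isPGroup'.to_le inf_le_left
        obtain ⟨n, hn⟩ := h3.exists_card_eq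
        rw [hn]
        apply dvd_pow_self
        rintro rfl
        apply h1
        rw [← Subgroup.card_eq_one]
        simpa using hn
      obtain ⟨y, hy⟩ := exists_prime_orderOf_dvd_card' 2 h2
      have h3 : (y : G) ∈ H13.Omega.omegaZ 2 (T : Subgroup G) := by
        apply H13.Omega.mem_omegaOne_of y.2
        have hy2 : y ^ 2 = 1 := by
          have := pow_orderOf_eq_one y
          rwa [hy] at this
        exact congrArg Subtype.val hy2
      rw [hb, mem_bot] at h3
      have h4 : y = 1 := Subtype.ext h3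
      rw [h4, orderOf_one] at hy
      exact absurd hy (by decide)
    · exact (h.normalizer_eq hcore ((H13.SylowN.thompsonOf_le _).trans hTM)
        (H1.ThompsonNPC.thompsonOf_ne_bot T.isPGroup' hT)
        (hMT.trans (H13.SylowN.normalizer_le_normalizer_thompsonOf _)) hTi.thompson).le
  by_contra hnpc
  obtain ⟨Q, W, x, z, w, hp⟩ := htwo.exists_pack ⟨T, rfl⟩ hnpc
  refine pack_false hA hp hTi ?_
  intro X hXT hX hTX hXi
  exact (h.normalizer_eq hcore (hXT.trans hTM) hX (htwo.M_le_normalizer hXT hTX) hXi).le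

end max

theorem Inv.residual (p : ℕ) : Inv φ (pResidual p G) := by
  intro a g hg
  unfold pResidual at hg ⊢
  induction hg using Subgroup.closure_induction with
  | mem x hx =>
    apply Subgroup.subset_closure
    show Nat.Coprime (orderOf (φ a x)) p
    rw [MulEquiv.orderOf_eq]; exact hx
  | one => rw [map_one]; exact one_mem _
  | mul x y _ _ hx hy => rw [map_mul]; exact mul_mem hx hy
  | inv x _ hx => rw [map_inv (φ a)]; exact inv_mem hx

/-- the final step -/
theorem Max.solvable_of_npc [Finite G] [Finite A] (hFT : FT.{u}) (hcop : (Nat.card A).Coprime (Nat.card G))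
    {M : Subgroup G} (hM : Max φ M) (h : ∀ p : ℕ, p.Prime → p ∣ Nat.card M → HasNormalPComplement p G) :
    Group.IsSolvable G := by
  classical
  have hnil := hM.nil
  set K : Subgroup G := ⨅ p ∈ (Nat.card M).primeFactors, pResidual p G with hK
  haveI hKn : K.Normal := by
    rw [hK]
    refine Subgroup.normal_iInf_normal fun p => Subgroup.normal_iInf_normal fun _ => inferInstance
  have hKi : Inv φ K := by
    intro a x hx
    rw [hK] at hx ⊢
    simp only [Subgroup.mem_iInf] at hx ⊢
    exact fun p hp => Inv.residual p a x (hx p hp)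
  have hcopM : (Nat.card M).Coprime (Nat.card K) := by
    apply Nat.coprime_of_dvd
    intro p hp hpM hpK
    haveI : Fact p.Prime := ⟨hp⟩
    have h1 : K ≤ pResidual p G := by
      rw [hK]
      exact iInf₂_le p (Nat.mem_primeFactors.mpr ⟨hp, hpM, Nat.card_pos.ne'⟩)
    exact (H2.NPC.iff_not_dvd_card_residual.mp (h p hp hpM)) (hpK.trans (Subgroup.card_dvd_of_le h1))
  -- the quotient is solvable
  have hGK : ∃ n, derivedSeries G n ≤ K := by
    have h1 : ∀ p ∈ (Nat.card M).primeFactors, ∃ n, derivedSeries G n ≤ pResidual p G := by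
      intro p hp
      haveI : Fact p.Prime := ⟨Nat.prime_of_mem_primeFactors hp⟩
      have h2 : IsPGroup p (G ⧸ pResidual p G) := H2.Residual.isPGroup_quotient_residual
      have h3 : Group.IsNilpotent (G ⧸ pResidual p G) := h2.isNilpotent
      have h4 : Group.IsSolvable (G ⧸ pResidual p G) := inferInstance
      obtain ⟨n, hn⟩ := h4
      refine ⟨n, ?_⟩
      have h5 := map_derivedSeries_le_derivedSeries (QuotientGroup.mk' (pResidual p G)) n
      rw [hn, le_bot_iff, Subgroup.map_eq_bot_iff, QuotientGroup.ker_mk'] at h5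
      exact h5
    choose! f hf using h1
    refine ⟨(Nat.card M).primeFactors.sup f, ?_⟩
    rw [hK]
    refine le_iInf₂ fun p hp => ?_
    exact (derivedSeries_antitone G (Finset.le_sup hp)).trans (hf p hp)
  have hinf : K ⊓ M = ⊥ := (Subgroup.disjoint_of_coprime_natCard hcopM.symm).eq_bot
  have hKs : Group.IsSolvable K := by
    by_cases hKb : K = ⊥
    · rw [hKb]; infer_instance
    · obtain ⟨q, hq, hqK⟩ := Nat.exists_prime_and_dvd (n := Nat.card K) (by
        rw [Ne, Subgroup.card_eq_one]; exact hKb)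
      haveI : Fact q.Prime := ⟨hq⟩
      -- the semidirect product
      haveI : Finite (G ⋊[φ] A) := Finite.of_equiv _ SemidirectProduct.equivProd.symm
      set ι : G →* G ⋊[φ] A := SemidirectProduct.inl with hι
      set R : Subgroup (G ⋊[φ] A) := (SemidirectProduct.inr : A →* G ⋊[φ] A).range with hR
      have hιinj : Function.Injective ι := SemidirectProduct.inl_injective
      have hRnorm : ∀ X : Subgroup G, Inv φ X → R ≤ normalizer ((X.map ι : Subgroup (G ⋊[φ] A)) : Set (G ⋊[φ] A)) := by
        rintro X hX _ ⟨a, rfl⟩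
        apply NMTwo.mem_norm_of
        rintro _ ⟨x, hx, rfl⟩
        refine ⟨φ a x, hX a x hx, ?_⟩
        rw [hι, SemidirectProduct.inl_aut, map_inv]
      have hnormR : ∀ X : Subgroup G, R ≤ normalizer ((X.map ι : Subgroup (G ⋊[φ] A)) : Set (G ⋊[φ] A)) → Inv φ X := by
        intro X hX a x hx
        have h1 := (mem_normalizer_iff.mp (hX ⟨a, rfl⟩) (ι x)).mp ⟨x, hx, rfl⟩
        have h2 : SemidirectProduct.inr a * ι x * (SemidirectProduct.inr a)⁻¹ = ι (φ a x) := by
          rw [hι, SemidirectProduct.inl_aut, map_inv]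
        rw [h2] at h1
        obtain ⟨y, hy, hyx⟩ := h1
        rw [← hιinj hyx]; exact hy
      have hιnorm : ∀ X Y : Subgroup G, X ≤ normalizer (Y : Set G) →
          X.map ι ≤ normalizer ((Y.map ι : Subgroup (G ⋊[φ] A)) : Set (G ⋊[φ] A)) := by
        rintro X Y hXY _ ⟨x, hx, rfl⟩
        apply NMTwo.mem_norm_of
        rintro _ ⟨y, hy, rfl⟩
        exact ⟨x * y * x⁻¹, (mem_normalizer_iff.mp (hXY hx) y).mp hy, by rw [map_mul, map_mul, map_inv]⟩
      have hnormι : ∀ X Y : Subgroup G, X.map ι ≤ normalizer ((Y.map ι : Subgroup (G ⋊[φ] A)) : Set (G ⋊[φ] A)) →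
          X ≤ normalizer (Y : Set G) := by
        intro X Y hXY x hx
        apply NMTwo.mem_norm_of
        intro y hy
        obtain ⟨z, hz, hzz⟩ := (mem_normalizer_iff.mp (hXY ⟨x, hx, rfl⟩) (ι y)).mp ⟨y, hy, rfl⟩
        have h1 : ι z = ι (x * y * x⁻¹) := by rw [hzz, map_mul, map_mul, map_inv]
        rw [← hιinj h1]; exact hz
      set B : Subgroup (G ⋊[φ] A) := R ⊔ M.map ι with hB
      have hBK : B ≤ normalizer ((K.map ι : Subgroup (G ⋊[φ] A)) : Set (G ⋊[φ] A)) :=
        sup_le (hRnorm K hKi) (hιnorm M K (by rw [normalizer_eq_top]; exact le_top))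
      have hcardK : Nat.card (K.map ι) = Nat.card K := Subgroup.card_map_of_injective hιinj
      have hcopB : (Nat.card B).Coprime (Nat.card (K.map ι)) := by
        rw [hcardK]
        have h1 := H13.Thompson.card_sup_mul_card_inf (hRnorm M hM.inv)
        have h2 : Nat.card R = Nat.card A := by
          rw [hR]
          exact (Nat.card_congr (MonoidHom.ofInjective SemidirectProduct.inr_injective).toEquiv).symm
        rw [h2, Subgroup.card_map_of_injective hιinj] at h1
        have h3 : Nat.card B ∣ Nat.card A * Nat.card M := ⟨_, h1.symm⟩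
        apply Nat.Coprime.coprime_dvd_left h3
        exact Nat.Coprime.mul_left (Nat.Coprime.coprime_dvd_right (Subgroup.card_subgroup_dvd_card K) hcop) hcopM
      have hsolv : Group.IsSolvable B ∨ Group.IsSolvable (K.map ι) := by
        rcases Nat.even_or_odd (Nat.card B) with h1 | h1
        · right
          apply hFT
          have h2 := Nat.Coprime.coprime_dvd_left h1.two_dvd hcopB
          exact Nat.coprime_two_left.mp h2
        · exact Or.inl (hFT _ h1)
      obtain ⟨S', hS', hBS'⟩ := H1.Coprime2.exists_invariant_sylow B (K.map ι) hBK hcopB hsolv q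
      -- back to `G`
      set S : Subgroup G := S'.comap ι with hS
      have hSS' : S.map ι = S' := by
        rw [hS, Subgroup.map_comap_eq, inf_eq_right]
        exact hS'.1.trans (Subgroup.map_le_range ι K)
      have hSK : S ≤ K := by
        have h1 := hS'.1
        rw [← hSS'] at h1
        exact (Subgroup.map_le_map_iff_of_injective hιinj).mp h1
      have hScard : Nat.card S = q ^ (Nat.card K).factorization q := by
        rw [← Subgroup.card_map_of_injective hιinj, hSS', hS'.2, hcardK]
      have hSi : Inv φ S := hnormR S (by rw [hSS']; exact le_sup_left.trans hBS')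
      have hMS : M ≤ normalizer (S : Set G) := hnormι M S (by rw [hSS']; exact le_sup_right.trans hBS')
      have hSM : S ⊓ M = ⊥ := by
        rw [eq_bot_iff, ← hinf]; exact inf_le_inf_right _ hSK
      have hSne : S ≠ ⊥ := by
        intro hb
        rw [hb, Subgroup.card_bot] at hScard
        have h2 : (Nat.card K).factorization q ≠ 0 :=
          (hq.factorization_pos_of_dvd Nat.card_pos.ne' hqK).ne'
        exact (Nat.one_lt_pow h2 hq.one_lt).ne hScard
      have hsup : M ⊔ S = ⊤ := by
        by_contra hne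
        have h1 : M ⊔ S = M := hM.max _ le_sup_left hne (hM.inv.sup hSi)
        have h2 : S ≤ M := by rw [← h1]; exact le_sup_right
        apply hSne
        rw [← hSM, inf_eq_left.mpr h2]
      have hSn : S.Normal := by
        rw [← normalizer_eq_top_iff, eq_top_iff, ← hsup]
        exact sup_le hMS Subgroup.le_normalizer
      have h1 : Nat.card (M ⊔ S : Subgroup G) = Nat.card M * Nat.card S :=
        H1.Hall.card_sup_of_disjoint_normal (by rw [inf_comm]; exact hSM)
      have h2 : Nat.card (M ⊔ K : Subgroup G) = Nat.card M * Nat.card K :=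
        H1.Hall.card_sup_of_disjoint_normal (by rw [inf_comm]; exact hinf)
      have h3 : Nat.card (M ⊔ K : Subgroup G) ≤ Nat.card (M ⊔ S : Subgroup G) := by
        rw [hsup, Subgroup.card_top]; exact Subgroup.card_le_card_group _
      rw [h1, h2] at h3
      have h4 : Nat.card K ≤ Nat.card S := Nat.le_of_mul_le_mul_left h3 Nat.card_pos
      have h5 : S = K := Subgroup.eq_of_le_of_card_ge hSK h4
      rw [← h5]
      haveI := (IsPGroup.of_card hScard).isNilpotent
      infer_instance
  obtain ⟨n, hn⟩ := hGK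
  have hGKs : Group.IsSolvable (G ⧸ K) := by
    refine ⟨n, ?_⟩
    rw [← map_derivedSeries_eq (QuotientGroup.mk'_surjective K), Subgroup.map_eq_bot_iff, QuotientGroup.ker_mk']
    exact hn
  exact Group.isSolvable_of_ker_le_range K.subtype (QuotientGroup.mk' K)
    (by rw [QuotientGroup.ker_mk', Subgroup.range_subtype])

/-- the action on a quotient -/
def quoAct {X : Subgroup G} [X.Normal] (hX : Inv φ X) : A →* MulAut (G ⧸ X) where
  toFun a := QuotientGroup.congr X X (φ a) (hX.map_eq a)
  map_one' := by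
    ext x
    obtain ⟨x, rfl⟩ := QuotientGroup.mk_surjective x
    show ((φ 1 x : G) : G ⧸ X) = x
    rw [map_one]; rfl
  map_mul' a b := by
    ext x
    obtain ⟨x, rfl⟩ := QuotientGroup.mk_surjective x
    show ((φ (a * b) x : G) : G ⧸ X) = ((φ a (φ b x) : G) : G ⧸ X)
    rw [map_mul]; rfl

theorem quoAct_mk {X : Subgroup G} [X.Normal] (hX : Inv φ X) (a : A) (x : G) :
    quoAct hX a (x : G ⧸ X) = ((φ a x : G) : G ⧸ X) := rfl

theorem main (hFT : FT.{u}) (n : ℕ) : ∀ (G A : Type u) [Group G] [Group A] [Finite G] [Finite A]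
    (φ : A →* MulAut G), Nat.card G = n → Odd (Nat.card A) → (Nat.card A).Coprime (Nat.card G) →
    ∀ M : Subgroup G, Max φ M → Cl M → Group.IsSolvable G := by
  induction n using Nat.strong_induction_on with
  | _ n ih =>
  intro G A _ _ _ _ φ hn hA hcop M hM hcl
  by_cases hcore : CoreFree φ M
  · refine hM.solvable_of_npc hFT hcop fun p hp hpM => ?_
    haveI : Fact p.Prime := ⟨hp⟩
    by_cases hp2 : p = 2
    · subst hp2
      exact hM.npc_two hA hcore hcl hpM
    · exact hM.npc_odd hcore hp2 hpM
  · unfold CoreFree at hcore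
    push Not at hcore
    obtain ⟨X, hXn, hXM, hXi, hX⟩ := hcore
    have hnil := hM.nil
    have hXs : Group.IsSolvable X := by
      haveI h1 : Group.IsSolvable M := IsNilpotent.to_isSolvable
      exact Group.isSolvable_of_isSolvable_injective (Subgroup.inclusion_injective hXM)
    have hXc : 1 < Nat.card X := by
      rw [Finite.one_lt_card_iff_nontrivial]; exact (Subgroup.nontrivial_iff_ne_bot _).mpr hX
    have hcM : (M.map (QuotientGroup.mk' X)).comap (QuotientGroup.mk' X) = M := by
      rw [QuotientGroup.comap_map_mk', sup_eq_right.mpr hXM]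
    have hquo : Group.IsSolvable (G ⧸ X) := by
      refine ih (Nat.card (G ⧸ X)) ?_ (G ⧸ X) A (quoAct hXi) rfl hA ?_ (M.map (QuotientGroup.mk' X)) ?_ ?_
      · rw [← hn, ← Subgroup.card_mul_index X]
        have h1 : Nat.card (G ⧸ X) = X.index := rfl
        have h2 : 0 < X.index := Nat.pos_of_ne_zero Subgroup.index_ne_zero_of_finite
        rw [h1]
        nlinarith
      · exact Nat.Coprime.coprime_dvd_right (Subgroup.card_quotient_dvd_card X) hcop
      · refine ⟨?_, ?_, ?_, ?_⟩
        · intro h
          apply hM.ne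
          have h1 := congrArg (Subgroup.comap (QuotientGroup.mk' X)) h
          rwa [hcM, Subgroup.comap_top] at h1
        · rintro a _ ⟨m, hm, rfl⟩
          exact ⟨φ a m, hM.inv a m hm, rfl⟩
        · intro Y hY hYtop hYi
          have h1 : M ≤ Y.comap (QuotientGroup.mk' X) := by
            rw [← hcM]; exact Subgroup.comap_mono hY
          have h2 : Y.comap (QuotientGroup.mk' X) = M := by
            apply hM.max _ h1
            · intro h3
              apply hYtop
              have h4 := congrArg (Subgroup.map (QuotientGroup.mk' X)) h3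
              rw [Subgroup.map_comap_eq_self_of_surjective (QuotientGroup.mk'_surjective X)] at h4
              rw [h4, ← MonoidHom.range_eq_map, MonoidHom.range_eq_top]
              exact QuotientGroup.mk'_surjective X
            · intro a g hg
              exact hYi a _ hg
          rw [← h2, Subgroup.map_comap_eq_self_of_surjective (QuotientGroup.mk'_surjective X)]
        · exact Group.nilpotent_of_surjective ((QuotientGroup.mk' X).subgroupMap M)
            ((QuotientGroup.mk' X).subgroupMap_surjective M)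
      · obtain ⟨S, hSM, hS, hc⟩ := hcl
        refine ⟨S.map (QuotientGroup.mk' X), Subgroup.map_mono hSM, ?_, ?_⟩
        · rintro _ ⟨m, hm, rfl⟩ e he
          obtain ⟨k, e', hk1, hk2, -⟩ := NMTwo.split m
          refine ⟨m * (m ^ k)⁻¹, hS _ (mul_mem hm (inv_mem (pow_mem hm k))) e' hk2, ?_⟩
          have h1 : (QuotientGroup.mk' X) (m ^ k) = 1 := by
            have h2 : orderOf ((QuotientGroup.mk' X) (m ^ k)) ∣ orderOf (m ^ k) := orderOf_map_dvd _ _
            have h3 : orderOf ((QuotientGroup.mk' X) (m ^ k)) ∣ 2 ^ e := by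
              apply orderOf_dvd_of_pow_eq_one
              rw [map_pow, ← pow_mul, mul_comm, pow_mul, he, one_pow]
            have h4 : Nat.Coprime (orderOf (m ^ k)) (2 ^ e) :=
              Nat.Coprime.pow_right e (Nat.coprime_two_right.mpr hk1)
            rw [← orderOf_eq_one_iff]
            exact Nat.eq_one_of_dvd_coprimes h4 h2 h3
          rw [map_mul, map_inv, h1, inv_one, mul_one]
        · rintro _ ⟨a, ha, rfl⟩ _ ⟨b, hb, rfl⟩ _ ⟨c, hc', rfl⟩
          simp only [← map_mul, ← map_inv]
          rw [hc a ha b hb c hc']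
    exact Group.isSolvable_of_ker_le_range X.subtype (QuotientGroup.mk' X)
      (by rw [QuotientGroup.ker_mk', Subgroup.range_subtype])

universe v

theorem main' (hFT : FT.{u}) {G : Type u} {A : Type v} [Group G] [Finite G]
    [Group A] [Finite A] (φ : A →* MulAut G) (hcop : (Nat.card A).Coprime (Nat.card G))
    (M : Subgroup G) (hMtop : M ≠ ⊤) (hMinv : ∀ a : A, ∀ m : G, m ∈ M → φ a m ∈ M)
    (hMmax : ∀ H : Subgroup G, M ≤ H → H ≠ ⊤ → (∀ a : A, ∀ h : G, h ∈ H → φ a h ∈ H) → H = M)
    (hnil : Group.IsNilpotent M) (h2 : ∀ S : Sylow 2 ↥M, Group.nilpotencyClass ↥(S : Subgroup ↥M) ≤ 2) :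
    Group.IsSolvable G := by
  haveI : Fact (Nat.Prime 2) := ⟨Nat.prime_two⟩
  rcases Nat.even_or_odd (Nat.card G) with hG | hG
  swap
  · exact hFT G hG
  have hdvd : Nat.card φ.range ∣ Nat.card A := Subgroup.card_range_dvd φ
  have hAodd : Odd (Nat.card φ.range) := by
    have h1 := Nat.Coprime.coprime_dvd_right hG.two_dvd hcop
    exact Odd.of_dvd_nat (Nat.coprime_two_right.mp h1) hdvd
  refine main hFT _ G φ.range φ.range.subtype rfl hAodd (Nat.Coprime.coprime_dvd_left hdvd hcop) M ⟨hMtop, ?_, ?_, hnil⟩ ?_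
  · rintro ⟨_, a, rfl⟩ x hx
    exact hMinv a x hx
  · intro H h1 h3 h4
    exact hMmax H h1 h3 fun a h hh => h4 ⟨φ a, a, rfl⟩ h hh
  · obtain ⟨S⟩ : Nonempty (Sylow 2 M) := inferInstance
    refine ⟨(S : Subgroup M).map M.subtype, Subgroup.map_subtype_le _, ?_, ?_⟩
    · intro g hg e he
      have h1 : IsPGroup 2 (zpowers (⟨g, hg⟩ : M)) := by
        rintro ⟨_, i, rfl⟩
        refine ⟨e, Subtype.ext (Subtype.ext ?_)⟩
        show (g ^ i) ^ 2 ^ e = 1
        rw [← zpow_natCast, zpow_comm, zpow_natCast, he, one_zpow]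
      have hSn : (S : Subgroup M).Normal := inferInstance
      have h3 : (S : Subgroup M) ⊔ zpowers (⟨g, hg⟩ : M) = S :=
        S.is_maximal' (S.isPGroup'.to_sup_of_normal_left h1) le_sup_left
      refine ⟨⟨g, hg⟩, ?_, rfl⟩
      show (⟨g, hg⟩ : M) ∈ (S : Subgroup M)
      rw [← h3]
      exact Subgroup.mem_sup_right (mem_zpowers _)
    · have hSnil : Group.IsNilpotent (S : Subgroup M) := S.isPGroup'.isNilpotent
      rintro _ ⟨a, ha, rfl⟩ _ ⟨b, hb, rfl⟩ _ ⟨c, hc, rfl⟩
      have h1 := H70.ClassTwo.commutator_mem_center (h2 S) (⟨a, ha⟩ : (S : Subgroup M)) ⟨b, hb⟩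
      exact congrArg (fun y : (S : Subgroup M) => ((y : M) : G)) (mem_center_iff.mp h1 ⟨c, hc⟩)

end H70.NilMaxA
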