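import Mathlib
import Cfsg.Agent.Lib.H70.DLen
import Cfsg.Agent.Lib.H37.PBasic

/-!
Linear `p`-groups over an algebraically closed field of characteristic not `p`: bound for the derived length.
-/

set_option autoImplicit false
open Subgroup Module
open scoped commutatorElement

namespace H70.PLin

universe u v

section basics

variable {K : Type*} [Field K] {V : Type*} [AddCommGroup V] [Module K V]

theorem sum_finrank_le [FiniteDimensional K V] {ι : Type*} [Fintype ι] [DecidableEq ι] (p : ι → Submodule K V)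
    (h : iSupIndep p) : ∑ i, finrank K (p i) ≤ finrank K V := by
  have h1 := h.dfinsupp_lsum_injective
  have h2 : finrank K (DirectSum ι fun i => p i) ≤ finrank K V :=
    LinearMap.finrank_le_finrank_of_injective (f := DFinsupp.lsum ℕ fun i => (p i).subtype) h1
  rwa [Module.finrank_directSum] at h2

variable {P : Type*} [Group P]

/-- restriction of a linear action to an invariant subspace -/
def res (ρ : P →* (V →ₗ[K] V)) (W : Submodule K V) (h : ∀ g, ∀ w ∈ W, ρ g w ∈ W) : P →* (W →ₗ[K] W) where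
  toFun g := (ρ g).restrict (h g)
  map_one' := by ext; simp
  map_mul' a b := by ext; simp

@[simp] theorem res_apply (ρ : P →* (V →ₗ[K] V)) (W : Submodule K V) (h : ∀ g, ∀ w ∈ W, ρ g w ∈ W) (g : P) (w : W) :
    ((res ρ W h g w : W) : V) = ρ g w := rfl

theorem rho_inv_self (ρ : P →* (V →ₗ[K] V)) (g : P) (v : V) : ρ g⁻¹ (ρ g v) = v := by
  rw [← Module.End.mul_apply, ← map_mul, inv_mul_cancel, map_one]; rfl

theorem rho_self_inv (ρ : P →* (V →ₗ[K] V)) (g : P) (v : V) : ρ g (ρ g⁻¹ v) = v := by
  rw [← Module.End.mul_apply, ← map_mul, mul_inv_cancel, map_one]; rfl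

/-- Maschke -/
theorem exists_compl [Finite P] (ρ : P →* (V →ₗ[K] V)) (hcard : (Nat.card P : K) ≠ 0) (W : Submodule K V)
    (hW : ∀ g, ∀ w ∈ W, ρ g w ∈ W) : ∃ W' : Submodule K V, IsCompl W W' ∧ ∀ g, ∀ w ∈ W', ρ g w ∈ W' := by
  classical
  haveI := Fintype.ofFinite P
  obtain ⟨π, hπ⟩ := W.subtype.exists_leftInverse_of_injective W.ker_subtype
  have hπ' : ∀ w : W, π (w : V) = w := fun w => LinearMap.congr_fun hπ w
  set q : V →ₗ[K] V := ∑ g : P, (ρ g) ∘ₗ W.subtype ∘ₗ π ∘ₗ (ρ g⁻¹) with hq
  have hqv : ∀ v, q v = ∑ g : P, ρ g (π (ρ g⁻¹ v) : V) := by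
    intro v
    rw [hq, LinearMap.sum_apply]; rfl
  have hqW : ∀ v, q v ∈ W := by
    intro v
    rw [hqv]
    exact Submodule.sum_mem _ fun g _ => hW g _ (π _).2
  have hqw : ∀ w ∈ W, q w = (Nat.card P : K) • w := by
    intro w hw
    rw [hqv]
    have h1 : ∀ g : P, ρ g (π (ρ g⁻¹ w) : V) = w := by
      intro g
      have h2 := hπ' ⟨ρ g⁻¹ w, hW _ w hw⟩
      rw [h2]
      exact rho_self_inv ρ g w
    rw [Finset.sum_congr rfl fun g _ => h1 g, Finset.sum_const, Finset.card_univ, ← Nat.card_eq_fintype_card,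
      Nat.cast_smul_eq_nsmul]
  have hqh : ∀ h v, q (ρ h v) = ρ h (q v) := by
    intro h v
    rw [hqv, hqv, map_sum]
    refine Fintype.sum_equiv (Equiv.mulLeft h⁻¹) _ _ fun g => ?_
    rw [Equiv.coe_mulLeft, mul_inv_rev, inv_inv, map_mul, map_mul, Module.End.mul_apply, Module.End.mul_apply,
      rho_self_inv]
  refine ⟨LinearMap.ker q, ⟨?_, ?_⟩, ?_⟩
  · rw [Submodule.disjoint_def]
    intro w hw hk
    rw [LinearMap.mem_ker, hqw w hw] at hk
    exact (smul_eq_zero.mp hk).resolve_left hcard
  · rw [codisjoint_iff, eq_top_iff]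
    intro v _
    rw [Submodule.mem_sup]
    refine ⟨(Nat.card P : K)⁻¹ • q v, W.smul_mem _ (hqW v), v - (Nat.card P : K)⁻¹ • q v, ?_, by abel⟩
    rw [LinearMap.mem_ker, map_sub, map_smul, hqw _ (hqW v), smul_smul, inv_mul_cancel₀ hcard, one_smul, sub_self]
  · intro g w hw
    rw [LinearMap.mem_ker] at hw ⊢
    rw [hqh, hw, map_zero]

end basics

/-- the main bound over an algebraically closed field -/
theorem derived_length {p : ℕ} [hp : Fact p.Prime] {K : Type*} [Field K] [IsAlgClosed K] (hpK : (p : K) ≠ 0)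
    (n : ℕ) : ∀ (P : Type v) [Group P] [Finite P] (V : Type u) [AddCommGroup V] [Module K V] [FiniteDimensional K V]
      (ρ : P →* (V →ₗ[K] V)), IsPGroup p P → finrank K V = n →
      ∀ g ∈ derivedSeries P (Nat.log p n + 1), ρ g = 1 := by
  induction n using Nat.strong_induction_on with
  | _ n ih =>
  intro P _ _ V _ _ _ ρ hP hn g hg
  have hcard : (Nat.card P : K) ≠ 0 := by
    obtain ⟨k, hk⟩ := IsPGroup.iff_card.mp hP
    rw [hk, Nat.cast_pow]
    exact pow_ne_zero _ hpK
  by_cases hred : ∃ W : Submodule K V, (∀ g, ∀ w ∈ W, ρ g w ∈ W) ∧ W ≠ ⊥ ∧ W ≠ ⊤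
  · -- reducible
    obtain ⟨W, hW, hW0, hW1⟩ := hred
    obtain ⟨W', hc, hW'⟩ := exists_compl ρ hcard W hW
    have hd := Submodule.finrank_add_eq_of_isCompl hc
    have h0 : 0 < finrank K W := by
      rw [Nat.pos_iff_ne_zero]
      intro h; exact hW0 (Submodule.finrank_eq_zero.mp h)
    have h1 : finrank K W < finrank K V := Submodule.finrank_lt hW1
    have hWd : ∀ w ∈ W, ρ g w = w := by
      intro w hw
      have h2 := ih (finrank K W) (by omega) P W (res ρ W hW) hP rfl g
        (derivedSeries_antitone P (Nat.add_le_add_right (Nat.log_mono_right (by omega)) 1) hg)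
      exact congrArg Subtype.val (LinearMap.congr_fun h2 ⟨w, hw⟩)
    have hWd' : ∀ w ∈ W', ρ g w = w := by
      intro w hw
      have h2 := ih (finrank K W') (by omega) P W' (res ρ W' hW') hP rfl g
        (derivedSeries_antitone P (Nat.add_le_add_right (Nat.log_mono_right (by omega)) 1) hg)
      exact congrArg Subtype.val (LinearMap.congr_fun h2 ⟨w, hw⟩)
    ext v
    have hv : v ∈ W ⊔ W' := by rw [hc.sup_eq_top]; trivial
    obtain ⟨a, ha, b, hb, rfl⟩ := Submodule.mem_sup.mp hv
    rw [map_add, hWd a ha, hWd' b hb]; rfl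
  push Not at hred
  by_cases hV : Subsingleton V
  · ext v; exact Subsingleton.elim _ _
  haveI hV' : Nontrivial V := not_subsingleton_iff_nontrivial.mp hV
  -- Schur
  have schur : ∀ f : V →ₗ[K] V, (∀ h v, f (ρ h v) = ρ h (f v)) → ∃ μ : K, ∀ v, f v = μ • v := by
    intro f hf
    obtain ⟨μ, hμ⟩ := Module.End.exists_eigenvalue f
    refine ⟨μ, ?_⟩
    have h1 : Module.End.eigenspace f μ = ⊤ := by
      apply hred
      · intro h w hw
        rw [Module.End.mem_eigenspace_iff] at hw ⊢
        rw [hf, hw, map_smul]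
      · exact hμ
    intro v
    have h2 : v ∈ Module.End.eigenspace f μ := by rw [h1]; trivial
    exact Module.End.mem_eigenspace_iff.mp h2
  -- the elements acting as scalars
  have hmulv : ∀ a b v, ρ (a * b) v = ρ a (ρ b v) := by
    intro a b v; rw [map_mul]; rfl
  let C : Subgroup P :=
    { carrier := {g | ∀ h v, ρ g (ρ h v) = ρ h (ρ g v)}
      mul_mem' := by
        intro a b ha hb h v
        rw [hmulv, hmulv, hb, ha]
      one_mem' := by
        intro h v; rw [map_one]; rfl
      inv_mem' := by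
        intro a ha h v
        have h1 := ha h (ρ a⁻¹ v)
        rw [rho_self_inv] at h1
        rw [← h1, rho_inv_self] }
  have hCmem : ∀ g, g ∈ C ↔ ∀ h v, ρ g (ρ h v) = ρ h (ρ g v) := fun g => Iff.rfl
  haveI hCn : C.Normal := by
    constructor
    intro a ha g h v
    have ha' := (hCmem a).mp ha
    have h1 : ∀ w, ρ (g * a * g⁻¹) w = ρ a w := by
      intro w
      rw [hmulv, hmulv, ← ha', rho_self_inv]
    rw [h1, h1, ha']
  by_cases hCtop : C = ⊤
  · have h1 : derivedSeries P 1 ≤ ρ.ker := by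
      rw [derivedSeries_one, _root_.commutator_def, Subgroup.commutator_le]
      intro a _ b _
      rw [MonoidHom.mem_ker]
      ext v
      have hb : b ∈ C := by rw [hCtop]; trivial
      rw [commutatorElement_def, hmulv, hmulv, hmulv, (hCmem _).mp hb a⁻¹, rho_self_inv, rho_self_inv]
      rfl
    exact (h1 (derivedSeries_antitone P (by omega) hg))
  obtain ⟨x, -, hxC, hx⟩ := H37.PBasic.exists_central_mod hP C ⊤ (lt_top_iff_ne_top.mpr hCtop)
  -- the commutator scalars
  have hex : ∀ g : P, ∃ μ : K, ∀ v, ρ (x * g * x⁻¹ * g⁻¹) v = μ • v := by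
    intro g
    apply schur
    have h1 : x * g * x⁻¹ * g⁻¹ = (g * x * g⁻¹ * x⁻¹)⁻¹ := by group
    rw [h1]
    exact (hCmem _).mp (C.inv_mem (hx g))
  choose c₀ hc₀ using hex
  have hcomm : ∀ g v, ρ x (ρ g v) = c₀ g • ρ g (ρ x v) := by
    intro g v
    rw [← hc₀ g (ρ g (ρ x v)), ← hmulv, ← hmulv, ← hmulv]
    congr 2; group
  obtain ⟨v₀, hv₀⟩ := exists_ne (0 : V)
  have hinj : ∀ g v, ρ g v = 0 → v = 0 := by
    intro g v h
    rw [← rho_inv_self ρ g v, h, map_zero]
  let c : P →* K :=
    { toFun := c₀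
      map_one' := by
        have h1 := hcomm 1 v₀
        rw [map_one] at h1
        have h2 : ρ x v₀ = c₀ 1 • ρ x v₀ := h1
        have h3 : (c₀ 1 - 1) • ρ x v₀ = 0 := by rw [sub_smul, one_smul, ← h2, sub_self]
        rcases smul_eq_zero.mp h3 with h4 | h4
        · exact sub_eq_zero.mp h4
        · exact absurd (hinj _ _ h4) hv₀
      map_mul' := by
        intro a b
        have h1 := hcomm (a * b) v₀
        rw [hmulv, hcomm a, hcomm b, map_smul, smul_smul, hmulv] at h1
        have h3 : (c₀ (a * b) - c₀ a * c₀ b) • ρ a (ρ b (ρ x v₀)) = 0 := by rw [sub_smul, h1, sub_self]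
        rcases smul_eq_zero.mp h3 with h4 | h4
        · exact sub_eq_zero.mp h4
        · exact absurd (hinj _ _ (hinj _ _ (hinj _ _ h4))) hv₀ }
  have hc : ∀ g v, ρ x (ρ g v) = c g • ρ g (ρ x v) := hcomm
  let T : Subgroup P := c.ker
  have hT : _root_.commutator P ≤ T := by
    rw [_root_.commutator_def, Subgroup.commutator_le]
    intro a _ b _
    rw [MonoidHom.mem_ker, commutatorElement_def, map_mul, map_mul, map_mul]
    calc c a * c b * c a⁻¹ * c b⁻¹ = (c a * c a⁻¹) * (c b * c b⁻¹) := by ring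
      _ = 1 := by rw [← map_mul, ← map_mul, mul_inv_cancel, mul_inv_cancel, map_one, one_mul]
  -- the eigenspaces
  obtain ⟨lam, hlam⟩ := Module.End.exists_eigenvalue (ρ x)
  set E : K → Submodule K V := fun μ => Module.End.eigenspace (ρ x) μ with hE
  have hEmem : ∀ μ v, v ∈ E μ ↔ ρ x v = μ • v := fun μ v => Module.End.mem_eigenspace_iff
  have hEg : ∀ g μ v, v ∈ E μ → ρ g v ∈ E (c g * μ) := by
    intro g μ v hv
    rw [hEmem] at hv ⊢
    rw [hc, hv, map_smul, smul_smul]
  have hlam0 : lam ≠ 0 := by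
    intro h
    apply hlam
    rw [eq_bot_iff]
    intro v hv
    have h1 := (hEmem lam v).mp hv
    rw [h, zero_smul] at h1
    exact (Submodule.mem_bot K).mpr (hinj _ _ h1)
  have hcinv : ∀ g, c g⁻¹ * c g = 1 := by
    intro g; rw [← map_mul, inv_mul_cancel, map_one]
  have hle : ∀ g μ, finrank K (E μ) ≤ finrank K (E (c g * μ)) := by
    intro g μ
    refine LinearMap.finrank_le_finrank_of_injective (f := (ρ g).restrict (hEg g μ)) ?_
    intro a b hab
    have h1 : ρ g a = ρ g b := congrArg Subtype.val hab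
    have h2 : ρ g ((a : V) - b) = 0 := by rw [map_sub, h1, sub_self]
    exact Subtype.ext (sub_eq_zero.mp (hinj _ _ h2))
  have hdim : ∀ g, finrank K (E (c g * lam)) = finrank K (E lam) := by
    intro g
    apply le_antisymm _ (hle g lam)
    have h1 := hle g⁻¹ (c g * lam)
    rwa [← mul_assoc, hcinv, one_mul] at h1
  -- the index set
  set ι := (c.toHomUnits).range with hι
  haveI : Finite ι := by
    exact Finite.of_surjective c.toHomUnits.rangeRestrict c.toHomUnits.rangeRestrict_surjective
  haveI : Fintype ι := Fintype.ofFinite ι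
  classical
  let F : ι → Submodule K V := fun i => E (((i : Kˣ) : K) * lam)
  have hFind : iSupIndep F := by
    have h1 := Module.End.eigenspaces_iSupIndep (ρ x)
    refine h1.comp (f := fun i : ι => ((i : Kˣ) : K) * lam) ?_
    intro i j hij
    exact Subtype.ext (Units.ext (mul_right_cancel₀ hlam0 hij))
  set d := finrank K (E lam) with hd
  have hd0 : 0 < d := by
    rw [Nat.pos_iff_ne_zero]
    intro h
    exact hlam (Submodule.finrank_eq_zero.mp h)
  have hFd : ∀ i, finrank K (F i) = d := by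
    rintro ⟨_, g, rfl⟩
    exact hdim g
  have hsum := sum_finrank_le F hFind
  rw [Finset.sum_congr rfl fun i _ => hFd i, Finset.sum_const, Finset.card_univ, ← Nat.card_eq_fintype_card,
    smul_eq_mul, hn] at hsum
  have hpt : p ≤ Nat.card ι := by
    have h1 : IsPGroup p ι := hP.of_surjective (c.toHomUnits).rangeRestrict (c.toHomUnits).rangeRestrict_surjective
    obtain ⟨k, hk⟩ := IsPGroup.iff_card.mp h1
    rw [hk]
    have h2 : k ≠ 0 := by
      rintro rfl
      rw [pow_zero] at hk
      have h3 := (Nat.card_eq_one_iff_unique.mp hk).1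
      apply hxC
      rw [hCmem]
      intro h v
      rw [hc]
      have h4 : c.toHomUnits h = 1 := congrArg Subtype.val
        (h3.elim ⟨c.toHomUnits h, h, rfl⟩ (1 : ι))
      have h5 : c h = 1 := congrArg Units.val h4
      rw [h5, one_smul]
    calc p = p ^ 1 := (pow_one p).symm
      _ ≤ p ^ k := Nat.pow_le_pow_right hp.out.pos (by omega)
  have hpd : p * d ≤ n := (Nat.mul_le_mul_right d hpt).trans hsum
  have hdn : d < n := by
    have := hp.out.one_lt
    nlinarith
  have hlog : Nat.log p d + 1 ≤ Nat.log p n := by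
    have h1 : Nat.log p (d * p) = Nat.log p d + 1 := Nat.log_mul_base hp.out.one_lt hd0.ne'
    rw [← h1]
    exact Nat.log_mono_right (by rw [mul_comm]; exact hpd)
  -- `T` acts on the eigenspaces
  have hg2 : g ∈ (derivedSeries T (Nat.log p d + 1)).map T.subtype :=
    H70.DLen.derivedSeries_succ_le_map hT _ (derivedSeries_antitone P (by omega) hg)
  obtain ⟨t, ht, rfl⟩ := hg2
  have hfix : ∀ i, ∀ w ∈ F i, ρ t w = w := by
    intro i w hw
    have hinv : ∀ s : T, ∀ w ∈ F i, (ρ.comp T.subtype) s w ∈ F i := by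
      intro s w hw
      have h1 := hEg s _ w hw
      have h2 : c s = 1 := s.2
      rwa [h2, one_mul] at h1
    have h2 := ih d hdn T (F i) (res (ρ.comp T.subtype) (F i) hinv) (hP.to_subgroup T) (hFd i) t ht
    exact congrArg Subtype.val (LinearMap.congr_fun h2 ⟨w, hw⟩)
  have htop : (⨆ i, F i) = ⊤ := by
    apply hred
    · intro g w hw
      induction hw using Submodule.iSup_induction' with
      | mem i w hw =>
        have h1 := hEg g _ w hw
        rw [← mul_assoc] at h1
        have h2 : c g * ((i : Kˣ) : K) = (((⟨c.toHomUnits g, g, rfl⟩ * i : ι) : Kˣ) : K) := rfl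
        rw [h2] at h1
        exact Submodule.mem_iSup_of_mem _ h1
      | zero => rw [map_zero]; exact Submodule.zero_mem _
      | add a b _ _ ha hb => rw [map_add]; exact Submodule.add_mem _ ha hb
    · intro hb
      have h1 : F 1 ≤ ⊥ := by rw [← hb]; exact le_iSup F 1
      have h2 : finrank K (F 1) = 0 := by
        rw [le_bot_iff.mp h1]; exact finrank_bot K V
      rw [hFd] at h2
      omega
  ext v
  have hv : v ∈ ⨆ i, F i := by rw [htop]; trivial
  show ρ t v = v
  induction hv using Submodule.iSup_induction' with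
  | mem i w hw => exact hfix i w hw
  | zero => rw [map_zero]
  | add a b _ _ ha hb => rw [map_add, ha, hb]

end H70.PLin
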