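import Mathlib
import Cfsg.Agent.Lib.H70.PLin

/-!
Linear `p`-groups in characteristic `p`; the bound `log₂ n + 1` for the derived length of linear `p`-groups.
-/

set_option autoImplicit false
open Subgroup Module
open scoped commutatorElement

namespace H70.PLin

universe u v

section charp

variable {K : Type*} [Field K] {V : Type*} [AddCommGroup V] [Module K V] {P : Type*} [Group P]

/-- fixed vectors in characteristic `p` -/
theorem exists_fixed {p : ℕ} [hp : Fact p.Prime] (hpK : (p : K) = 0) [Finite P] (hP : IsPGroup p P)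
    (ρ : P →* (V →ₗ[K] V)) [Nontrivial V] : ∃ v : V, v ≠ 0 ∧ ∀ g, ρ g v = v := by
  classical
  obtain ⟨u, hu⟩ := exists_ne (0 : V)
  have hpV : ∀ x : V, p • x = 0 := by
    intro x
    rw [← Nat.cast_smul_eq_nsmul K, hpK, zero_smul]
  obtain ⟨inst⟩ : Nonempty (Module (ZMod p) V) := ⟨AddCommGroup.zmodModule hpV⟩
  set S : Set V := Set.range fun g : P => ρ g u with hS
  have hSf : S.Finite := Set.finite_range _
  set A : Submodule (ZMod p) V := Submodule.span (ZMod p) S with hA
  haveI : Finite (A : Submodule (ZMod p) V) := by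
    haveI : Module.Finite (ZMod p) (A : Submodule (ZMod p) V) := Module.Finite.span_of_finite _ hSf
    exact Module.finite_of_finite (ZMod p)
  have hinv : ∀ g : P, ∀ a ∈ A, ρ g a ∈ A := by
    intro g a ha
    have h1 : A ≤ A.comap ((ρ g).toAddMonoidHom.toZModLinearMap p) := by
      rw [hA, Submodule.span_le]
      rintro _ ⟨h, rfl⟩
      show ρ g (ρ h u) ∈ A
      apply Submodule.subset_span
      exact ⟨g * h, by show ρ (g * h) u = _; rw [map_mul]; rfl⟩
    exact h1 ha
  letI : MulAction P A :=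
    { smul := fun g a => ⟨ρ g a, hinv g a a.2⟩
      one_smul := fun a => Subtype.ext (by show ρ 1 (a : V) = a; rw [map_one]; rfl)
      mul_smul := fun g h a => Subtype.ext (by show ρ (g * h) (a : V) = ρ g (ρ h a); rw [map_mul]; rfl) }
  have hAd : p ∣ Nat.card A := by
    have h1 : Nontrivial A := by
      refine ⟨⟨u, Submodule.subset_span ⟨1, by show ρ 1 u = u; rw [map_one]; rfl⟩⟩, 0, ?_⟩
      intro h
      exact hu (congrArg Subtype.val h)
    rw [Module.natCard_eq_pow_finrank (K := ZMod p), Nat.card_zmod]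
    exact dvd_pow_self p (Module.finrank_pos).ne'
  obtain ⟨b, hb, hb0⟩ := hP.exists_fixed_point_of_prime_dvd_card_of_fixed_point A hAd (a := 0) (by
    intro g
    apply Subtype.ext
    show ρ g 0 = 0
    exact map_zero _)
  refine ⟨b, fun h => hb0 (Subtype.ext h.symm), fun g => ?_⟩
  exact congrArg Subtype.val (hb g)

/-- the filtration by fixed points -/
def fil (ρ : P →* (V →ₗ[K] V)) : ℕ → Submodule K V
  | 0 => ⊥
  | i + 1 => ⨅ g, (fil ρ i).comap (ρ g - 1)

theorem mem_fil_succ {ρ : P →* (V →ₗ[K] V)} {i : ℕ} {v : V} :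
    v ∈ fil ρ (i + 1) ↔ ∀ g, ρ g v - v ∈ fil ρ i := by
  rw [fil, Submodule.mem_iInf]
  exact Iff.rfl

theorem fil_le_succ (ρ : P →* (V →ₗ[K] V)) (i : ℕ) : fil ρ i ≤ fil ρ (i + 1) := by
  induction i with
  | zero => rw [fil]; exact bot_le
  | succ i ih =>
    intro v hv
    rw [mem_fil_succ] at hv ⊢
    exact fun g => ih (hv g)

theorem fil_mono (ρ : P →* (V →ₗ[K] V)) : Monotone (fil ρ) := monotone_nat_of_le_succ (fil_le_succ ρ)

theorem fil_inv (ρ : P →* (V →ₗ[K] V)) (i : ℕ) (g : P) (v : V) (hv : v ∈ fil ρ i) : ρ g v ∈ fil ρ i := by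
  have h1 := fil_le_succ ρ i hv
  rw [mem_fil_succ] at h1
  have h2 := Submodule.add_mem _ (h1 g) hv
  rwa [sub_add_cancel] at h2

theorem fil_lt {p : ℕ} [hp : Fact p.Prime] (hpK : (p : K) = 0) [Finite P] (hP : IsPGroup p P)
    (ρ : P →* (V →ₗ[K] V)) {i : ℕ} (h : fil ρ i ≠ ⊤) : fil ρ i < fil ρ (i + 1) := by
  set W := fil ρ i with hW
  let σ : P →* ((V ⧸ W) →ₗ[K] (V ⧸ W)) :=
    { toFun := fun g => W.mapQ W (ρ g) (fun v hv => fil_inv ρ i g v hv)
      map_one' := by
        ext v
        show Submodule.Quotient.mk (ρ 1 v) = Submodule.Quotient.mk v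
        rw [map_one]; rfl
      map_mul' := by
        intro a b
        ext v
        show Submodule.Quotient.mk (ρ (a * b) v) = Submodule.Quotient.mk (ρ a (ρ b v))
        rw [map_mul]; rfl }
  haveI : Nontrivial (V ⧸ W) := Submodule.Quotient.nontrivial_iff.mpr h
  obtain ⟨v', hv', hfix⟩ := exists_fixed hpK hP σ
  obtain ⟨v, rfl⟩ := Submodule.Quotient.mk_surjective W v'
  refine lt_of_le_of_ne (fil_le_succ ρ i) ?_
  intro heq
  apply hv'
  rw [Submodule.Quotient.mk_eq_zero, heq, mem_fil_succ]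
  intro g
  have h1 : Submodule.Quotient.mk (p := W) (ρ g v) = Submodule.Quotient.mk v := hfix g
  exact (Submodule.Quotient.eq W).mp h1

theorem fil_eq_top {p : ℕ} [hp : Fact p.Prime] (hpK : (p : K) = 0) [Finite P] (hP : IsPGroup p P)
    [FiniteDimensional K V] (ρ : P →* (V →ₗ[K] V)) : fil ρ (finrank K V) = ⊤ := by
  have key : ∀ i, fil ρ i = ⊤ ∨ i ≤ finrank K (fil ρ i) := by
    intro i
    induction i with
    | zero => exact Or.inr (Nat.zero_le _)
    | succ i ih =>
      rcases ih with h | h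
      · left
        rw [eq_top_iff, ← h]; exact fil_le_succ ρ i
      · by_cases ht : fil ρ i = ⊤
        · left
          rw [eq_top_iff, ← ht]; exact fil_le_succ ρ i
        · right
          have := Submodule.finrank_lt_finrank_of_lt (fil_lt hpK hP ρ ht)
          omega
  rcases key (finrank K V) with h | h
  · exact h
  · apply Submodule.eq_top_of_finrank_eq
    exact le_antisymm (Submodule.finrank_le _) h

/-- elements moving the filtration down by `a` -/
def lev (ρ : P →* (V →ₗ[K] V)) (a : ℕ) : Subgroup P where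
  carrier := {g | ∀ i v, v ∈ fil ρ (i + a) → ρ g v - v ∈ fil ρ i}
  mul_mem' := by
    intro g h hg hh i v hv
    have h1 : ρ (g * h) v - v = ρ g (ρ h v - v) + (ρ g v - v) := by
      rw [map_mul, Module.End.mul_apply, map_sub]; abel
    rw [h1]
    exact Submodule.add_mem _ (fil_inv ρ i g _ (hh i v hv)) (hg i v hv)
  one_mem' := by
    intro i v _
    rw [map_one, Module.End.one_apply, sub_self]; exact Submodule.zero_mem _
  inv_mem' := by
    intro g hg i v hv
    have h1 : ρ g⁻¹ v - v = -ρ g⁻¹ (ρ g v - v) := by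
      rw [map_sub, rho_inv_self]; abel
    rw [h1]
    exact Submodule.neg_mem _ (fil_inv ρ i _ _ (hg i v hv))

theorem mem_lev {ρ : P →* (V →ₗ[K] V)} {a : ℕ} {g : P} :
    g ∈ lev ρ a ↔ ∀ i v, v ∈ fil ρ (i + a) → ρ g v - v ∈ fil ρ i := Iff.rfl

theorem commutator_lev (ρ : P →* (V →ₗ[K] V)) (a b : ℕ) : ⁅lev ρ a, lev ρ b⁆ ≤ lev ρ (a + b) := by
  rw [Subgroup.commutator_le]
  intro g hg h hh i v hv
  rw [mem_lev] at hg hh
  set w := ρ (h * g)⁻¹ v with hw
  have hwm : w ∈ fil ρ (i + a + b) := by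
    rw [add_assoc]; exact fil_inv ρ _ _ _ hv
  have hwm' : w ∈ fil ρ (i + b + a) := by
    rw [add_assoc, add_comm b a]; exact fil_inv ρ _ _ _ hv
  have hvw : v = ρ (h * g) w := by rw [hw, rho_self_inv]
  have h1 : ρ ⁅g, h⁆ v = ρ (g * h) w := by
    rw [hw, ← Module.End.mul_apply, ← map_mul]
    congr 2
    rw [commutatorElement_def]; group
  rw [h1, hvw]
  have h2 : ρ (g * h) w - ρ (h * g) w = (ρ g (ρ h w - w) - (ρ h w - w)) - (ρ h (ρ g w - w) - (ρ g w - w)) := by
    rw [map_mul, map_mul, Module.End.mul_apply, Module.End.mul_apply, map_sub, map_sub]; abel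
  rw [h2]
  refine Submodule.sub_mem _ ?_ ?_
  · exact hg i _ (hh (i + a) w hwm)
  · exact hh i _ (hg (i + b) w hwm')

theorem derivedSeries_le_lev (ρ : P →* (V →ₗ[K] V)) (j : ℕ) : derivedSeries P j ≤ lev ρ (2 ^ j) := by
  induction j with
  | zero =>
    intro g _ i v hv
    rw [pow_zero, mem_fil_succ] at hv
    exact hv g
  | succ j ih =>
    rw [derivedSeries_succ, pow_succ, mul_two]
    exact (Subgroup.commutator_mono ih ih).trans (commutator_lev ρ _ _)

/-- in characteristic `p` -/
theorem derived_length_char {p : ℕ} [hp : Fact p.Prime] (hpK : (p : K) = 0) [Finite P] (hP : IsPGroup p P)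
    [FiniteDimensional K V] (ρ : P →* (V →ₗ[K] V)) {j : ℕ} (hj : finrank K V ≤ 2 ^ j) :
    ∀ g ∈ derivedSeries P j, ρ g = 1 := by
  intro g hg
  ext v
  have h1 := derivedSeries_le_lev ρ j hg
  rw [mem_lev] at h1
  have h2 : v ∈ fil ρ (0 + 2 ^ j) := by
    rw [zero_add]
    apply fil_mono ρ hj
    rw [fil_eq_top hpK hP]; trivial
  have h3 := h1 0 v h2
  rw [fil, Submodule.mem_bot, sub_eq_zero] at h3
  exact h3

end charp

/-- the action of a matrix group on column vectors over an extension field -/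
noncomputable def matRep {P : Type*} [Group P] {F : Type*} [Field F] {n : ℕ} (ρ : P →* Matrix.GeneralLinearGroup (Fin n) F)
    {K : Type*} [Field K] (f : F →+* K) : P →* ((Fin n → K) →ₗ[K] (Fin n → K)) where
  toFun g := Matrix.toLin' ((ρ g : Matrix (Fin n) (Fin n) F).map f)
  map_one' := by
    rw [map_one, Units.val_one, Matrix.map_one f (map_zero f) (map_one f), Matrix.toLin'_one]; rfl
  map_mul' a b := by
    rw [map_mul, Units.val_mul, Matrix.map_mul, Matrix.toLin'_mul]; rfl

theorem matRep_eq_one {P : Type*} [Group P] {F : Type*} [Field F] {n : ℕ} {ρ : P →* Matrix.GeneralLinearGroup (Fin n) F}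
    {K : Type*} [Field K] {f : F →+* K} {g : P} (h : matRep ρ f g = 1) : ρ g = 1 := by
  have h1 : Matrix.toLin' ((ρ g : Matrix (Fin n) (Fin n) F).map f) = Matrix.toLin' (1 : Matrix (Fin n) (Fin n) K) := by
    rw [Matrix.toLin'_one]; exact h
  have h2 := Matrix.toLin'.injective h1
  apply Units.ext
  rw [Units.val_one]
  apply Matrix.map_injective f.injective
  show (ρ g : Matrix (Fin n) (Fin n) F).map f = (1 : Matrix (Fin n) (Fin n) F).map f
  rw [h2, Matrix.map_one f (map_zero f) (map_one f)]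

theorem main4010 {P : Type*} [Group P] [Finite P] (p : ℕ) [Fact p.Prime] (hP : IsPGroup p P) (F : Type*) [Field F]
    (n : ℕ) (ρ : P →* Matrix.GeneralLinearGroup (Fin n) F) (hρ : Function.Injective ρ) :
    derivedSeries P (Nat.log 2 n + 1) = ⊥ := by
  have hp : p.Prime := Fact.out
  rw [eq_bot_iff]
  intro g hg
  rw [mem_bot]
  apply hρ
  rw [map_one]
  by_cases hpF : (p : F) = 0
  · apply matRep_eq_one (f := RingHom.id F)
    refine derived_length_char hpF hP _ ?_ g hg
    rw [Module.finrank_fin_fun]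
    exact (Nat.lt_pow_succ_log_self (by norm_num) n).le
  · apply matRep_eq_one (f := algebraMap F (AlgebraicClosure F))
    have hpK : (p : AlgebraicClosure F) ≠ 0 := by
      rw [← map_natCast (algebraMap F (AlgebraicClosure F)), Ne, map_eq_zero]; exact hpF
    refine derived_length hpK n P _ _ hP (Module.finrank_fin_fun _) g ?_
    exact derivedSeries_antitone P (Nat.add_le_add_right (Nat.log_anti_left (by norm_num) hp.two_le) 1) hg

end H70.PLin
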