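import Mathlib
import Cfsg.Agent.Lib.H70.PLin2

/-!
The derived length of Sylow `p`-subgroups of `GL(n, q)`, `p` prime to `q`.
-/

set_option autoImplicit false
open Subgroup Module
open scoped commutatorElement

namespace H70.PLin

universe u v

/-! ### upper bound -/

section upper

variable {F : Type*} [Field F] [Fintype F] {K : Type*} [Field K] [Algebra F K] [IsAlgClosed K] {n : ℕ}

/-- eigenspaces of a matrix over `F` for Galois conjugate eigenvalues -/
theorem finrank_eigenspace_le (M : Matrix (Fin n) (Fin n) F) (μ : K) :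
    finrank K (Module.End.eigenspace (Matrix.toLin' (M.map (algebraMap F K))) μ) ≤
      finrank K (Module.End.eigenspace (Matrix.toLin' (M.map (algebraMap F K))) (μ ^ Fintype.card F)) := by
  set σ := FiniteField.frobeniusAlgHom F K with hσ
  have hσa : ∀ x, σ x = x ^ Fintype.card F := fun x => rfl
  let j : (Fin n → K) →+ (Fin n → K) :=
    { toFun := fun v i => σ (v i)
      map_zero' := by ext i; simp
      map_add' := by intro a b; ext i; simp }
  have hj : ∀ v i, j v i = σ (v i) := fun v i => rfl
  have hsurj : Function.Surjective σ := by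
    intro x
    obtain ⟨y, hy⟩ := IsAlgClosed.exists_pow_nat_eq x (n := Fintype.card F) Fintype.card_pos
    exact ⟨y, hy⟩
  have hmul : ∀ v, (M.map (algebraMap F K)).mulVec (j v) = j ((M.map (algebraMap F K)).mulVec v) := by
    intro v
    ext i
    rw [hj, Matrix.mulVec, Matrix.mulVec, dotProduct, dotProduct, map_sum]
    refine Finset.sum_congr rfl fun k _ => ?_
    rw [map_mul, hj, Matrix.map_apply, AlgHom.commutes]
  set E := Module.End.eigenspace (Matrix.toLin' (M.map (algebraMap F K))) μ with hE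
  set b := Module.finBasis K E with hb
  have h1 : LinearIndependent K (fun i => ((b i : E) : Fin n → K)) :=
    b.linearIndependent.map' E.subtype E.ker_subtype
  have h2 := h1.map_of_surjective_injective σ j hsurj (by
    intro v hv
    ext i
    have : σ (v i) = 0 := congrFun hv i
    exact (map_eq_zero σ).mp this) (by
    intro r m; ext i
    rw [hj, Pi.smul_apply, smul_eq_mul, map_mul]; rfl)
  set E' := Module.End.eigenspace (Matrix.toLin' (M.map (algebraMap F K))) (μ ^ Fintype.card F) with hE'
  have h3 : ∀ i, j ((b i : E) : Fin n → K) ∈ E' := by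
    intro i
    rw [hE', Module.End.mem_eigenspace_iff, Matrix.toLin'_apply, hmul]
    have h4 : ((b i : E) : Fin n → K) ∈ E := (b i).2
    have h5 := Module.End.mem_eigenspace_iff.mp h4
    rw [Matrix.toLin'_apply] at h5
    rw [h5]
    ext k
    rw [hj, Pi.smul_apply, smul_eq_mul, map_mul, hσa μ]; rfl
  have h4 : LinearIndependent K (fun i => (⟨j ((b i : E) : Fin n → K), h3 i⟩ : E')) :=
    LinearIndependent.of_comp E'.subtype h2
  have h5 := h4.fintype_card_le_finrank
  rwa [Fintype.card_fin] at h5

theorem finrank_eigenspace_mul_le (M : Matrix (Fin n) (Fin n) F) {p : ℕ} [hp : Fact p.Prime]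
    (hpq : ¬ p ∣ Fintype.card F) (ζ : K) (hζ : orderOf ζ = p) :
    finrank K (Module.End.eigenspace (Matrix.toLin' (M.map (algebraMap F K))) ζ) *
      orderOf (Fintype.card F : ZMod p) ≤ n := by
  classical
  set q := Fintype.card F with hq
  set e := orderOf (q : ZMod p) with he
  set f := Matrix.toLin' (M.map (algebraMap F K)) with hf
  have h1 : ∀ j : ℕ, finrank K (Module.End.eigenspace f ζ) ≤ finrank K (Module.End.eigenspace f (ζ ^ (q ^ j))) := by
    intro j
    induction j with
    | zero => rw [pow_zero, pow_one]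
    | succ j ih =>
      refine ih.trans ?_
      have h2 := finrank_eigenspace_le M (ζ ^ q ^ j)
      rwa [← pow_mul, ← pow_succ] at h2
  let E : Fin e → Submodule K (Fin n → K) := fun j => Module.End.eigenspace f (ζ ^ (q ^ (j : ℕ)))
  have hind : iSupIndep E := by
    refine (Module.End.eigenspaces_iSupIndep f).comp (f := fun j : Fin e => ζ ^ (q ^ (j : ℕ))) ?_
    intro i j hij
    have h2 : q ^ (i : ℕ) ≡ q ^ (j : ℕ) [MOD p] := by
      have hij' : ζ ^ (q ^ (i : ℕ)) = ζ ^ (q ^ (j : ℕ)) := hij
      have h5 : ζ ^ (q ^ (i : ℕ) % p) = ζ ^ (q ^ (j : ℕ) % p) := by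
        rw [← hζ, pow_mod_orderOf, pow_mod_orderOf]; exact hij'
      have h6 : ∀ m, m % p ∈ Set.Iio (orderOf ζ) := fun m => by
        rw [hζ]; exact Nat.mod_lt _ hp.out.pos
      exact pow_injOn_Iio_orderOf (h6 _) (h6 _) h5
    have h3 : (q : ZMod p) ^ (i : ℕ) = (q : ZMod p) ^ (j : ℕ) := by
      have := (ZMod.natCast_eq_natCast_iff _ _ _).mpr h2
      push_cast at this
      exact this
    exact Fin.ext (pow_injOn_Iio_orderOf i.2 j.2 h3)
  have h2 := sum_finrank_le E hind
  rw [Module.finrank_fin_fun] at h2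
  calc finrank K (Module.End.eigenspace f ζ) * e = ∑ j : Fin e, finrank K (Module.End.eigenspace f ζ) := by
        rw [Finset.sum_const, Finset.card_univ, Fintype.card_fin, smul_eq_mul, mul_comm]
    _ ≤ ∑ j : Fin e, finrank K (E j) := Finset.sum_le_sum fun j _ => h1 j
    _ ≤ n := h2

/-- the upper bound -/
theorem upper_bound {p : ℕ} [hp : Fact p.Prime] (hpq : ¬ p ∣ Fintype.card F) {P : Type*} [Group P] [Finite P]
    (hP : IsPGroup p P) (ρ : P →* Matrix.GeneralLinearGroup (Fin n) F) (hρ : Function.Injective ρ) :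
    derivedSeries P (Nat.log p (n / orderOf (Fintype.card F : ZMod p)) + 1) = ⊥ := by
  set e := orderOf (Fintype.card F : ZMod p) with he
  have hpF : (p : F) ≠ 0 := by
    intro h
    obtain ⟨r, hr, m, hrp, hm⟩ := FiniteField.card' F
    have h1 : r ∣ p := (CharP.cast_eq_zero_iff F r p).mp h
    have h2 : r = p := (Nat.prime_dvd_prime_iff_eq hrp hp.out).mp h1
    apply hpq
    rw [hm, h2]
    exact dvd_pow_self p m.pos.ne'
  let K := AlgebraicClosure F
  have hpK : (p : K) ≠ 0 := by
    rw [← map_natCast (algebraMap F K), Ne, map_eq_zero]; exact hpF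
  have hcard : (Nat.card P : K) ≠ 0 := by
    obtain ⟨k, hk⟩ := IsPGroup.iff_card.mp hP
    rw [hk, Nat.cast_pow]
    exact pow_ne_zero _ hpK
  have he0 : 0 < e := by
    rw [he, orderOf_pos_iff, isOfFinOrder_iff_pow_eq_one]
    have h1 : (Fintype.card F).Coprime p := ((Nat.Prime.coprime_iff_not_dvd hp.out).mpr hpq).symm
    refine ⟨p.totient, Nat.totient_pos.mpr hp.out.pos, ?_⟩
    have h2 := ZMod.pow_totient (ZMod.unitOfCoprime _ h1)
    have h3 := congrArg Units.val h2
    rwa [Units.val_pow_eq_pow_val, ZMod.coe_unitOfCoprime] at h3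
  set τ := matRep ρ (algebraMap F K) with hτ
  set D := derivedSeries P (Nat.log p (n / e) + 1) with hD
  have hmulv : ∀ a b v, τ (a * b) v = τ a (τ b v) := by
    intro a b v; rw [map_mul]; rfl
  let Fix : Submodule K (Fin n → K) :=
    { carrier := {v | ∀ g ∈ D, τ g v = v}
      zero_mem' := fun g _ => map_zero _
      add_mem' := by
        intro a b ha hb g hg
        rw [map_add, ha g hg, hb g hg]
      smul_mem' := by
        intro c a ha g hg
        rw [map_smul, ha g hg] }
  have hFmem : ∀ v, v ∈ Fix ↔ ∀ g ∈ D, τ g v = v := fun v => Iff.rfl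
  have hFinv : ∀ h, ∀ v ∈ Fix, τ h v ∈ Fix := by
    intro h v hv g hg
    have h1 : h⁻¹ * g * h ∈ D := by
      have := (inferInstance : D.Normal).conj_mem g hg h⁻¹
      rwa [inv_inv] at this
    have h2 := hv _ h1
    rw [← hmulv]
    have h3 : g * h = h * (h⁻¹ * g * h) := by group
    rw [h3, hmulv, h2]
  obtain ⟨W', hc, hW'⟩ := exists_compl τ hcard Fix hFinv
  have hW'bot : W' = ⊥ := by
    by_contra hne
    obtain ⟨W, ⟨hWW', hW0, hW⟩, hmin⟩ := WellFounded.has_min (wellFounded_lt (α := Submodule K (Fin n → K)))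
      {W | W ≤ W' ∧ W ≠ ⊥ ∧ ∀ g, ∀ w ∈ W, τ g w ∈ W} ⟨W', le_rfl, hne, hW'⟩
    have hirr : ∀ U : Submodule K (Fin n → K), U ≤ W → U ≠ ⊥ → (∀ g, ∀ w ∈ U, τ g w ∈ U) → U = W := by
      intro U hUW hU0 hU
      by_contra h
      exact hmin U ⟨hUW.trans hWW', hU0, hU⟩ (lt_of_le_of_ne hUW h)
    have hnot : ¬ W ≤ Fix := by
      intro h
      apply hW0
      rw [eq_bot_iff, ← hc.inf_eq_bot]
      exact le_inf h hWW'
    apply hnot
    -- the kernel of the action on `W`
    let N : Subgroup P :=
      { carrier := {g | ∀ w ∈ W, τ g w = w}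
        mul_mem' := by
          intro a b ha hb w hw
          rw [hmulv, hb w hw, ha w hw]
        one_mem' := by
          intro w _; rw [map_one]; rfl
        inv_mem' := by
          intro a ha w hw
          conv_lhs => rw [← ha w hw]
          exact rho_inv_self τ a w }
    have hNmem : ∀ g, g ∈ N ↔ ∀ w ∈ W, τ g w = w := fun g => Iff.rfl
    haveI hNn : N.Normal := by
      constructor
      intro a ha g w hw
      rw [hmulv, hmulv, (hNmem a).mp ha _ (hW _ w hw), rho_self_inv]
    by_cases hNtop : N = ⊤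
    · intro w hw g _
      have : g ∈ N := by rw [hNtop]; trivial
      exact this w hw
    obtain ⟨z, -, hzN, hz⟩ := H37.PBasic.exists_central_mod hP N ⊤ (lt_top_iff_ne_top.mpr hNtop)
    have hzc : ∀ g, ∀ w ∈ W, τ z (τ g w) = τ g (τ z w) := by
      intro g w hw
      have h1 := (hNmem _).mp (hz g) (τ z (τ g w)) (hW _ _ (hW _ _ hw))
      rw [← hmulv, ← hmulv] at h1
      rw [← h1, ← hmulv]
      congr 2; group
    haveI : Nontrivial W := Submodule.nontrivial_iff_ne_bot.mpr hW0
    obtain ⟨ζ, hζ⟩ := Module.End.exists_eigenvalue (res τ W hW z)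
    have hWζ : W ≤ Module.End.eigenspace (τ z) ζ := by
      have h1 : W ⊓ Module.End.eigenspace (τ z) ζ = W := by
        apply hirr _ inf_le_left
        · obtain ⟨w, hw⟩ := hζ.exists_hasEigenvector
          intro hb
          have h2 : (w : Fin n → K) ∈ W ⊓ Module.End.eigenspace (τ z) ζ := by
            refine Submodule.mem_inf.mpr ⟨w.2, ?_⟩
            rw [Module.End.mem_eigenspace_iff]
            exact congrArg Subtype.val hw.apply_eq_smul
          rw [hb, Submodule.mem_bot] at h2
          exact hw.2 (Subtype.ext h2)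
        · intro g w hw
          obtain ⟨hw1, hw2⟩ := Submodule.mem_inf.mp hw
          refine Submodule.mem_inf.mpr ⟨hW g w hw1, ?_⟩
          rw [Module.End.mem_eigenspace_iff] at hw2 ⊢
          rw [hzc g w hw1, hw2, map_smul]
      exact inf_eq_left.mp h1
    have hWζ' : ∀ j, ∀ w ∈ W, τ (z ^ j) w = ζ ^ j • w := by
      intro j
      induction j with
      | zero => intro w _; rw [pow_zero, map_one, pow_zero, one_smul]; rfl
      | succ j ih =>
        intro w hw
        rw [pow_succ, hmulv, Module.End.mem_eigenspace_iff.mp (hWζ hw), map_smul, ih w hw, smul_smul, pow_succ, mul_comm]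
    obtain ⟨w₀, hw₀W, hw₀⟩ := Submodule.exists_mem_ne_zero_of_ne_bot hW0
    have hζ1 : ζ ≠ 1 := by
      intro h
      apply hzN
      rw [hNmem]
      intro w hw
      have := Module.End.mem_eigenspace_iff.mp (hWζ hw)
      rwa [h, one_smul] at this
    obtain ⟨a, ha⟩ := hP z
    have hζa : ζ ^ p ^ a = 1 := by
      have h1 := hWζ' (p ^ a) w₀ hw₀W
      rw [ha, map_one] at h1
      have h2 : (ζ ^ p ^ a - 1) • w₀ = 0 := by
        rw [sub_smul, one_smul, ← h1]; exact sub_self _
      rcases smul_eq_zero.mp h2 with h3 | h3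
      · exact sub_eq_zero.mp h3
      · exact absurd h3 hw₀
    obtain ⟨b, hb, hb'⟩ := (Nat.dvd_prime_pow hp.out).mp (orderOf_dvd_of_pow_eq_one hζa)
    have hb0 : b ≠ 0 := by
      rintro rfl
      rw [pow_zero, orderOf_eq_one_iff] at hb'
      exact hζ1 hb'
    have hζo : orderOf (ζ ^ p ^ (b - 1)) = p := by
      rw [orderOf_pow_of_dvd (pow_ne_zero _ hp.out.ne_zero) (by rw [hb']; exact pow_dvd_pow p (by omega)), hb',
        Nat.pow_div (by omega) hp.out.pos]
      have : b - (b - 1) = 1 := by omega
      rw [this, pow_one]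
    have hWE : W ≤ Module.End.eigenspace (τ (z ^ p ^ (b - 1))) (ζ ^ p ^ (b - 1)) := by
      intro w hw
      rw [Module.End.mem_eigenspace_iff]
      exact hWζ' _ w hw
    have h1 := Submodule.finrank_mono hWE
    have h2 := finrank_eigenspace_mul_le (K := K) (ρ (z ^ p ^ (b - 1)) : Matrix (Fin n) (Fin n) F) hpq _ hζo
    have h3 : finrank K W * e ≤ n := (Nat.mul_le_mul_right e h1).trans h2
    have h4 : finrank K W ≤ n / e := (Nat.le_div_iff_mul_le he0).mpr h3
    intro w hw g hg
    have h5 := derived_length hpK (finrank K W) P W (res τ W hW) hP rfl g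
      (derivedSeries_antitone P (Nat.add_le_add_right (Nat.log_mono_right h4) 1) hg)
    exact congrArg Subtype.val (LinearMap.congr_fun h5 ⟨w, hw⟩)
  rw [eq_bot_iff]
  intro g hg
  rw [mem_bot]
  apply hρ
  rw [map_one]
  apply matRep_eq_one (f := algebraMap F K)
  refine LinearMap.ext fun v => ?_
  have hv : v ∈ Fix := by
    have h1 := hc.sup_eq_top
    rw [hW'bot, sup_bot_eq] at h1
    rw [h1]; trivial
  exact hv g hg

end upper

end H70.PLin
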