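import Mathlib

/-! # Abelian subgroups of `GL_n(q)` of order `q ^ n - 1` (helper70) -/

set_option autoImplicit false
set_option linter.unusedVariables false
set_option linter.style.haveILetI false

namespace H70.Singer

open Polynomial

/-- uniqueness of finite extensions of a finite field -/
theorem exists_algEquiv {F A B : Type*} [Field F] [Field A] [Field B] [Algebra F A] [Algebra F B]
    [Fintype A] [Fintype B] (h : Fintype.card A = Fintype.card B) : Nonempty (A ≃ₐ[F] B) := by
  have h1 : IsSplittingField F A (X ^ Fintype.card A - X) := FiniteField.isSplittingField_sub A F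
  have h2 : IsSplittingField F B (X ^ Fintype.card A - X) := by rw [h]; exact FiniteField.isSplittingField_sub B F
  exact ⟨(IsSplittingField.algEquiv A (X ^ Fintype.card A - X : F[X])).trans
    (IsSplittingField.algEquiv B (X ^ Fintype.card A - X : F[X])).symm⟩

section
variable {F K : Type*} [Field F] [Fintype F] [Field K] [Fintype K] [Algebra F K]

instance finEnd : Finite (Module.End F K) :=
  Finite.of_injective (fun f : Module.End F K => (f : K → K)) (fun f g h => LinearMap.ext (congrFun h))

instance finUnits : Finite (Module.End F K)ˣ := inferInstance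

theorem card_sub (W : Submodule F K) : Nat.card W = Fintype.card F ^ Module.finrank F W := by
  rw [Module.natCard_eq_pow_finrank (K := F) (V := W), Nat.card_eq_fintype_card]

/-- the fixed points of `u` -/
def fixSub (f : Module.End F K) : Submodule F K := LinearMap.ker (f - 1)

theorem mem_fixSub (f : Module.End F K) (x : K) : x ∈ fixSub f ↔ f x = x := by
  rw [fixSub, LinearMap.mem_ker, LinearMap.sub_apply, Module.End.one_apply, sub_eq_zero]

/-- a prime order unit leaving `W` invariant -/
theorem modEq {r : ℕ} [Fact r.Prime] (u : (Module.End F K)ˣ) (hu : orderOf u = r) (W : Submodule F K)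
    (hW : ∀ x ∈ W, (u : Module.End F K) x ∈ W) :
    Nat.card W ≡ Nat.card ↥(W ⊓ fixSub (u : Module.End F K)) [MOD r] := by
  have hWz : ∀ g ∈ Subgroup.zpowers u, ∀ x ∈ W, (g : Module.End F K) x ∈ W := by
    intro g hg
    have hg' : g ∈ Submonoid.powers u := by
      rwa [mem_powers_iff_mem_zpowers]
    obtain ⟨k, rfl⟩ := hg'
    intro x hx
    simp only [Units.val_pow_eq_pow_val]
    induction k with
    | zero => simpa using hx
    | succ k ih => rw [pow_succ', Module.End.mul_apply]; exact hW _ (ih (by exact Subgroup.npow_mem_zpowers u k))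
  letI : MulAction (Subgroup.zpowers u) W :=
    { smul := fun g x => ⟨((g : (Module.End F K)ˣ) : Module.End F K) x, hWz g g.2 x x.2⟩
      one_smul := fun x => Subtype.ext (by change ((1 : (Module.End F K)ˣ) : Module.End F K) x = x; simp)
      mul_smul := fun g h x => Subtype.ext (by
        change (((g : (Module.End F K)ˣ) * h : (Module.End F K)ˣ) : Module.End F K) x = _
        rw [Units.val_mul, Module.End.mul_apply]; rfl) }
  have hp : IsPGroup r (Subgroup.zpowers u) := by
    rw [IsPGroup.iff_card]
    exact ⟨1, by rw [Nat.card_zpowers, hu, pow_one]⟩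
  have h1 := hp.card_modEq_card_fixedPoints W
  have h2 : Nat.card (MulAction.fixedPoints (Subgroup.zpowers u) W) = Nat.card ↥(W ⊓ fixSub (u : Module.End F K)) := ?_
  · rw [← h2]; exact h1
  refine Nat.card_congr ⟨fun x => ⟨x.1.1, Submodule.mem_inf.2 ⟨x.1.2, ?_⟩⟩, fun x => ⟨⟨x.1, (Submodule.mem_inf.1 x.2).1⟩, ?_⟩, fun x => rfl, fun x => rfl⟩
  · rw [mem_fixSub]
    exact congrArg Subtype.val (x.2 ⟨u, Subgroup.mem_zpowers u⟩)
  · have hx := (mem_fixSub _ _).1 (Submodule.mem_inf.1 x.2).2
    have hz : ∀ g ∈ Subgroup.zpowers u, (g : Module.End F K) x.1 = x.1 := by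
      intro g hg
      have hg' : g ∈ Submonoid.powers u := by
        rwa [mem_powers_iff_mem_zpowers]
      obtain ⟨k, rfl⟩ := hg'
      simp only [Units.val_pow_eq_pow_val]
      induction k with
      | zero => simp
      | succ k ih => rw [pow_succ', Module.End.mul_apply, ih (by exact Subgroup.npow_mem_zpowers u k), hx]
    rintro ⟨g, hg⟩
    exact Subtype.ext (hz g hg)

theorem irred {n r : ℕ} [hr : Fact r.Prime] (hdim : Module.finrank F K = n)
    (hr1 : r ∣ Fintype.card F ^ n - 1) (hr2 : ∀ k, 0 < k → k < n → ¬ r ∣ Fintype.card F ^ k - 1)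
    (u : (Module.End F K)ˣ) (hu : orderOf u = r) (W : Submodule F K)
    (hW : ∀ x ∈ W, (u : Module.End F K) x ∈ W) : W = ⊥ ∨ W = ⊤ := by
  set q := Fintype.card F with hq
  have hq0 : 0 < q := Fintype.card_pos
  have hn : 0 < n := by
    rw [← hdim]; exact Module.finrank_pos
  have hrq : ¬ r ∣ q := by
    intro h
    have h1 : r ∣ q ^ n := h.trans (dvd_pow_self q hn.ne')
    have h2 : r ∣ 1 := by
      have := (Nat.dvd_sub h1 hr1)
      rwa [Nat.sub_sub_self (Nat.one_le_pow _ _ hq0)] at this
    exact hr.out.one_lt.ne' (Nat.dvd_one.1 h2)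
  -- key: q ^ a ≡ q ^ b with b ≤ a ≤ n forces a = b or (b = 0 and a = n)
  have key : ∀ a b : ℕ, b ≤ a → a ≤ n → q ^ a ≡ q ^ b [MOD r] → a - b = 0 ∨ a - b = n := by
    intro a b hba han h
    have h1 : r ∣ q ^ a - q ^ b := (Nat.modEq_iff_dvd' (Nat.pow_le_pow_right hq0 hba)).1 h.symm
    have h2 : q ^ a - q ^ b = q ^ b * (q ^ (a - b) - 1) := by
      rw [Nat.mul_sub, ← pow_add, mul_one, Nat.add_sub_cancel' hba]
    rw [h2] at h1
    rcases (Nat.Prime.dvd_mul hr.out).1 h1 with h3 | h3
    · exact absurd (hr.out.dvd_of_dvd_pow h3) hrq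
    · by_contra hc
      push Not at hc
      exact hr2 (a - b) (by omega) (by omega) h3
  have hfix : fixSub (u : Module.End F K) = ⊥ := by
    have h1 := modEq u hu ⊤ (fun _ _ => Submodule.mem_top)
    rw [top_inf_eq, card_sub, card_sub, finrank_top, hdim] at h1
    have hle : Module.finrank F (fixSub (u : Module.End F K)) ≤ n := by rw [← hdim]; exact Submodule.finrank_le _
    rcases key _ _ hle le_rfl h1 with h2 | h2
    · exfalso
      have h3 : Module.finrank F (fixSub (u : Module.End F K)) = Module.finrank F K := by omega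
      have h4 := Submodule.eq_top_of_finrank_eq h3
      have h5 : u = 1 := by
        ext x
        have : x ∈ fixSub (u : Module.End F K) := by rw [h4]; trivial
        simpa using (mem_fixSub _ _).1 this
      rw [h5, orderOf_one] at hu
      exact hr.out.one_lt.ne hu
    · have h3 : Module.finrank F (fixSub (u : Module.End F K)) = 0 := by omega
      exact Submodule.finrank_eq_zero.1 h3
  have h1 := modEq u hu W hW
  rw [hfix, inf_bot_eq, card_sub, card_sub, finrank_bot] at h1
  have hle : Module.finrank F W ≤ n := by rw [← hdim]; exact Submodule.finrank_le _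
  rcases key _ _ (Nat.zero_le _) hle h1 with h2 | h2
  · left; exact Submodule.finrank_eq_zero.1 (by omega)
  · right; exact Submodule.eq_top_of_finrank_eq (by omega)

theorem main {n r : ℕ} [hr : Fact r.Prime] (hdim : Module.finrank F K = n)
    (hr1 : r ∣ Fintype.card F ^ n - 1) (hr2 : ∀ k, 0 < k → k < n → ¬ r ∣ Fintype.card F ^ k - 1)
    (U : Subgroup (Module.End F K)ˣ) (hU : ∀ x ∈ U, ∀ y ∈ U, x * y = y * x)
    (hcard : Nat.card U = Fintype.card K - 1) :
    ∃ g : (Module.End F K)ˣ, U.map (MulAut.conj g).toMonoidHom =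
      (Units.map ((Algebra.lmul F K : K →ₐ[F] Module.End F K) : K →* Module.End F K)).range := by
  classical
  have hKc : Fintype.card K = Fintype.card F ^ n := by
    rw [Module.card_eq_pow_finrank (K := F) (V := K), hdim]
  obtain ⟨⟨u, huU⟩, hu⟩ : ∃ u : U, orderOf u = r := by
    apply exists_prime_orderOf_dvd_card' r
    rw [hcard, hKc]; exact hr1
  rw [Subgroup.orderOf_mk] at hu
  let C : Subalgebra F (Module.End F K) := Subalgebra.centralizer F {(u : Module.End F K)}
  have hmemC : ∀ c : Module.End F K, c ∈ C ↔ (u : Module.End F K) * c = c * u := by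
    intro c
    rw [Subalgebra.mem_centralizer_iff]
    simp
  have hUC : ∀ x ∈ U, (x : Module.End F K) ∈ C := by
    intro x hx
    rw [hmemC, ← Units.val_mul, ← Units.val_mul, hU u huU x hx]
  -- Schur
  have hker : ∀ c ∈ C, c ≠ 0 → ∀ x, c x = 0 → x = 0 := by
    intro c hc hc0
    have hinv : ∀ x ∈ LinearMap.ker c, (u : Module.End F K) x ∈ LinearMap.ker c := by
      intro x hx
      rw [LinearMap.mem_ker] at hx ⊢
      have : (c * u) x = 0 := by
        rw [← (hmemC c).1 hc, Module.End.mul_apply, hx, map_zero]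
      exact this
    rcases irred hdim hr1 hr2 u hu (LinearMap.ker c) hinv with h | h
    · intro x hx
      have : x ∈ LinearMap.ker c := hx
      rw [h] at this
      exact (Submodule.mem_bot F).1 this
    · exfalso
      apply hc0
      exact LinearMap.ker_eq_top.1 h
  let ev : C → K := fun c => (c : Module.End F K) 1
  have hev : Function.Injective ev := by
    intro c d hcd
    by_contra hne
    have h1 : ((c - d : C) : Module.End F K) ≠ 0 := by
      intro h
      apply hne
      exact sub_eq_zero.1 (Subtype.ext h)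
    have h2 : ((c - d : C) : Module.End F K) 1 = 0 := by
      have h3 : ((c - d : C) : Module.End F K) = (c : Module.End F K) - d := rfl
      rw [h3, LinearMap.sub_apply]
      exact sub_eq_zero.2 hcd
    exact one_ne_zero (hker _ (c - d).2 h1 1 h2)
  haveI : Finite C := Finite.of_injective ev hev
  letI : Fintype C := Fintype.ofFinite C
  have hCle : Nat.card C ≤ Nat.card K := Nat.card_le_card_of_injective ev hev
  -- C = U ∪ {0}
  have hinjU : Function.Injective (fun x : U => (⟨(x.1 : Module.End F K), hUC x.1 x.2⟩ : C)) := by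
    intro x y h
    exact Subtype.ext (Units.ext (congrArg Subtype.val h))
  let S : Set C := insert 0 (Set.range (fun x : U => (⟨(x.1 : Module.End F K), hUC x.1 x.2⟩ : C)))
  have hScard : S.ncard = Nat.card K := by
    rw [Set.ncard_insert_of_notMem, ← Nat.card_coe_set_eq, Nat.card_range_of_injective hinjU, hcard, Nat.card_eq_fintype_card]
    · have := Fintype.card_pos (α := K); omega
    · rintro ⟨x, hx⟩
      have h1 : (x.1 : Module.End F K) = 0 := congrArg Subtype.val hx
      exact x.1.ne_zero h1
  have hSuniv : S = Set.univ := by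
    apply Set.eq_of_subset_of_ncard_le (Set.subset_univ _)
    rw [Set.ncard_univ, hScard]
    exact hCle
  have hCU : ∀ c : C, c ≠ 0 → ∃ x ∈ U, (x : Module.End F K) = c := by
    intro c hc
    have h1 : c ∈ S := by rw [hSuniv]; trivial
    rcases h1 with h1 | ⟨x, hx⟩
    · exact absurd h1 hc
    · exact ⟨x.1, x.2, congrArg Subtype.val hx⟩
  have hCcard : Nat.card C = Nat.card K := by
    rw [← hScard, hSuniv, Set.ncard_univ]
  have hfield : IsField C := by
    refine ⟨⟨0, 1, ?_⟩, ?_, ?_⟩
    · intro h
      have : (0 : Module.End F K) = 1 := congrArg Subtype.val h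
      exact zero_ne_one this
    · intro a b
      by_cases ha : a = 0
      · rw [ha, zero_mul, mul_zero]
      by_cases hb : b = 0
      · rw [hb, zero_mul, mul_zero]
      obtain ⟨x, hx, hxa⟩ := hCU a ha
      obtain ⟨y, hy, hyb⟩ := hCU b hb
      apply Subtype.ext
      change (a : Module.End F K) * b = b * a
      rw [← hxa, ← hyb, ← Units.val_mul, ← Units.val_mul, hU x hx y hy]
    · intro a ha
      obtain ⟨x, hx, hxa⟩ := hCU a ha
      refine ⟨⟨((x⁻¹ : (Module.End F K)ˣ) : Module.End F K), hUC _ (U.inv_mem hx)⟩, ?_⟩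
      apply Subtype.ext
      change (a : Module.End F K) * ((x⁻¹ : (Module.End F K)ˣ) : Module.End F K) = 1
      rw [← hxa, Units.mul_inv]
  letI : Field C := hfield.toField
  obtain ⟨φ⟩ := exists_algEquiv (F := F) (A := C) (B := K) (by rw [← Nat.card_eq_fintype_card, hCcard, Nat.card_eq_fintype_card])
  let evL : C →ₗ[F] K :=
    { toFun := ev
      map_add' := fun a b => rfl
      map_smul' := fun a b => rfl }
  have hbij : Function.Bijective evL := by
    refine (Nat.bijective_iff_injective_and_card evL).2 ⟨hev, hCcard⟩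
  let e : C ≃ₗ[F] K := LinearEquiv.ofBijective evL hbij
  have he : ∀ c : C, e c = (c : Module.End F K) 1 := fun c => rfl
  let G0 : K ≃ₗ[F] K := e.symm.trans φ.toLinearEquiv
  have hG0 : ∀ (c : C) (x : K), G0 ((c : Module.End F K) x) = φ c * G0 x := by
    intro c x
    obtain ⟨d, rfl⟩ := e.surjective x
    have h1 : (c : Module.End F K) (e d) = e (c * d) := rfl
    rw [h1]
    change φ (e.symm (e (c * d))) = φ c * φ (e.symm (e d))
    rw [e.symm_apply_apply, e.symm_apply_apply, map_mul]
  let g : (Module.End F K)ˣ := ⟨G0.toLinearMap, G0.symm.toLinearMap, by ext x; simp, by ext x; simp⟩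
  have hg : ∀ x : K, (g : Module.End F K) x = G0 x := fun x => rfl
  have hgi : ∀ x : K, G0 (((g⁻¹ : (Module.End F K)ˣ) : Module.End F K) x) = x := fun x => G0.apply_symm_apply x
  have hconj : ∀ (x : (Module.End F K)ˣ) (hx : x ∈ U) (k : Kˣ), (k : K) = φ ⟨(x : Module.End F K), hUC x hx⟩ →
      g * x * g⁻¹ = Units.map ((Algebra.lmul F K : K →ₐ[F] Module.End F K) : K →* Module.End F K) k := by
    intro x hx k hk
    ext y
    rw [Units.val_mul, Units.val_mul, Module.End.mul_apply, Module.End.mul_apply, hg,
      hG0 ⟨(x : Module.End F K), hUC x hx⟩, hgi, ← hk]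
    rfl
  refine ⟨g, ?_⟩
  ext z
  constructor
  · rintro ⟨x, hx, rfl⟩
    have hne : φ ⟨(x : Module.End F K), hUC x hx⟩ ≠ 0 := by
      intro h
      have h2 := (map_eq_zero_iff φ φ.injective).1 h
      exact x.ne_zero (congrArg Subtype.val h2)
    exact ⟨Units.mk0 _ hne, (hconj x hx (Units.mk0 _ hne) rfl).symm⟩
  · rintro ⟨k, rfl⟩
    obtain ⟨c, hc⟩ := φ.surjective (k : K)
    have hc0 : c ≠ 0 := by
      rintro rfl
      rw [map_zero] at hc
      exact k.ne_zero hc.symm
    obtain ⟨x, hx, hxc⟩ := hCU c hc0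
    refine ⟨x, hx, ?_⟩
    apply hconj x hx k
    rw [← hc]
    congr 1
    exact Subtype.ext hxc.symm

/-- `p ^ k + 1` is a power of two only for `k ≤ 1` -/
theorem no_mersenne {p k m : ℕ} (hp : p.Prime) (hk : 2 ≤ k) (h : p ^ k + 1 = 2 ^ m) : False := by
  have hm : 2 ≤ m := by
    by_contra hc
    have h1 : 2 ^ m ≤ 2 := by
      have : m ≤ 1 := by omega
      calc 2 ^ m ≤ 2 ^ 1 := Nat.pow_le_pow_right (by norm_num) this
        _ = 2 := by norm_num
    have h2 : 2 ^ 2 ≤ p ^ k := (Nat.pow_le_pow_left hp.two_le 2).trans (Nat.pow_le_pow_right hp.pos hk)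
    omega
  have h4 : 4 ∣ p ^ k + 1 := by
    rw [h]
    exact pow_dvd_pow 2 hm
  have hodd : p % 2 = 1 := by
    rcases hp.eq_two_or_odd with h2 | h2
    · exfalso
      subst h2
      have : 4 ∣ 2 ^ k := pow_dvd_pow 2 hk
      omega
    · exact h2
  rcases Nat.even_or_odd k with ⟨j, hj⟩ | hkodd
  · -- square
    have h1 : p ^ k % 4 = 1 := by
      rw [hj, ← two_mul, pow_mul, Nat.pow_mod]
      have h3 : p ^ 2 % 4 = 1 := by
        rw [Nat.pow_mod]
        have : p % 4 = 1 ∨ p % 4 = 3 := by omega
        rcases this with h5 | h5 <;> rw [h5]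
      rw [h3]; simp
    omega
  · -- (p + 1) * s = p ^ k + 1 with s odd
    have h1 : ((p : ℤ) + 1) * ∑ i ∈ Finset.range k, (-(p : ℤ)) ^ i = (p : ℤ) ^ k + 1 := by
      have := mul_neg_geom_sum (-(p : ℤ)) k
      rw [hkodd.neg_pow] at this
      linarith
    set s := ∑ i ∈ Finset.range k, (-(p : ℤ)) ^ i with hs
    have hsodd : s % 2 = 1 := by
      have h2 : s ≡ ∑ i ∈ Finset.range k, (1 : ℤ) [ZMOD 2] := by
        apply Int.ModEq.sum
        intro i _
        have h3 : (-(p : ℤ)) ≡ 1 [ZMOD 2] := by
          have : (p : ℤ) % 2 = 1 := by exact_mod_cast hodd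
          unfold Int.ModEq; omega
        simpa using h3.pow i
      have h4 : (∑ i ∈ Finset.range k, (1 : ℤ)) = k := by simp
      rw [h4] at h2
      obtain ⟨j, hj⟩ := hkodd
      have : ((k : ℤ)) % 2 = 1 := by subst hj; push_cast; omega
      unfold Int.ModEq at h2
      omega
    have hspos : 0 < s := by
      by_contra hc
      push Not at hc
      have hp1 : (0 : ℤ) < (p : ℤ) + 1 := by positivity
      have : ((p : ℤ) + 1) * s ≤ 0 := mul_nonpos_of_nonneg_of_nonpos hp1.le hc
      have h6 : (0 : ℤ) < (p : ℤ) ^ k + 1 := by positivity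
      omega
    have hdvd : s.toNat ∣ 2 ^ m := by
      rw [← h]
      have h5 : ((s.toNat : ℕ) : ℤ) = s := Int.toNat_of_nonneg hspos.le
      rw [← Int.natCast_dvd_natCast, h5]
      push_cast
      exact ⟨(p : ℤ) + 1, by rw [← h1]; ring⟩
    obtain ⟨j, -, hj⟩ := (Nat.dvd_prime_pow Nat.prime_two).1 hdvd
    have hj0 : j = 0 := by
      by_contra hj0
      have : 2 ∣ s.toNat := by rw [hj]; exact dvd_pow_self 2 hj0
      omega
    have hs1 : s = 1 := by
      rw [hj0, pow_zero] at hj; omega
    rw [hs1, mul_one] at h1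
    have h7 : p = p ^ k := by
      have : (p : ℤ) = (p : ℤ) ^ k := by linarith
      exact_mod_cast this
    have h8 : p ^ 1 < p ^ k := Nat.pow_lt_pow_right hp.one_lt (by omega)
    rw [pow_one] at h8
    omega

end

end H70.Singer
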