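import Mathlib
import Cfsg.Agent.Lib.H70.Basic
import Cfsg.Agent.Lib.H70.AbIdem
import Cfsg.Agent.Lib.H1.Coprime2

/-!
A coprime action of `P` on an `r`-group `R` which is minimal with respect to being nontrivial.
-/

set_option autoImplicit false
open Subgroup Cfsg
open scoped commutatorElement Pointwise

namespace H70.TISyl

variable {G : Type*} [Group G]

/-- minimal coprime action -/
structure MinAct (P R : Subgroup G) (r : ℕ) : Prop where
  pr : r.Prime
  grp : IsPGroup r R
  norm : P ≤ normalizer (R : Set G)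
  nc : ¬ P ≤ centralizer (R : Set G)
  min : ∀ S ≤ R, P ≤ normalizer (S : Set G) → ¬ P ≤ centralizer (S : Set G) → S = R
  cop : (Nat.card P).Coprime (Nat.card R)

theorem exists_minAct [Finite G] {P K : Subgroup G} (hPK : P ≤ normalizer (K : Set G))
    (hcop : (Nat.card P).Coprime (Nat.card K)) (hsolv : Group.IsSolvable P)
    (hnc : ¬ P ≤ centralizer (K : Set G)) : ∃ r, ∃ R ≤ K, MinAct P R r := by
  classical
  -- an invariant Sylow subgroup which is not centralized
  obtain ⟨r, hr, S, hSK, hSr, hSn, hSc⟩ : ∃ r : ℕ, r.Prime ∧ ∃ S ≤ K, IsPGroup r S ∧ P ≤ normalizer (S : Set G) ∧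
      ¬ P ≤ centralizer (S : Set G) := by
    by_contra hcon
    push Not at hcon
    apply hnc
    have h1 : Nat.card K ∣ Nat.card (K ⊓ centralizer (P : Set G) : Subgroup G) := by
      rw [← Nat.factorization_prime_le_iff_dvd Nat.card_pos.ne' Nat.card_pos.ne']
      intro r hr
      haveI : Fact r.Prime := ⟨hr⟩
      obtain ⟨S, hS, hSn⟩ := H1.Coprime2.exists_invariant_sylow P K hPK hcop (Or.inl hsolv) r
      rw [← hr.pow_dvd_iff_le_factorization Nat.card_pos.ne', ← hS.2]
      apply Subgroup.card_dvd_of_le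
      apply le_inf hS.1
      have h2 := hcon r hr S hS.1 hS.isPGroup hSn
      exact (le_centralizer_iff).mp h2
    have h2 : K ⊓ centralizer (P : Set G) = K := by
      apply Subgroup.eq_of_le_of_card_ge inf_le_left
      exact Nat.le_of_dvd Nat.card_pos h1
    exact le_centralizer_iff.mp (inf_eq_left.mp h2)
  obtain ⟨R, ⟨hRS, hRn, hRc⟩, hmin⟩ := (Set.toFinite {V : Subgroup G | V ≤ S ∧
    P ≤ normalizer (V : Set G) ∧ ¬ P ≤ centralizer (V : Set G)}).exists_minimal ⟨S, le_rfl, hSn, hSc⟩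
  refine ⟨r, R, hRS.trans hSK, hr, hSr.to_le hRS, hRn, hRc, ?_, ?_⟩
  · intro T hTR hTn hTc
    exact le_antisymm hTR (hmin ⟨hTR.trans hRS, hTn, hTc⟩ hTR)
  · exact Nat.Coprime.coprime_dvd_right (Subgroup.card_dvd_of_le (hRS.trans hSK)) hcop

namespace MinAct

variable {P R : Subgroup G} {r : ℕ}

theorem eq_one_of [Finite G] (h : MinAct P R r) {a x d : G} (ha : a ∈ P) (hd : d ∈ R) (hdc : a * d = d * a)
    (hx : a * x * a⁻¹ = x * d) : d = 1 := by
  have h1 : ∀ k : ℕ, a ^ k * x * (a ^ k)⁻¹ = x * d ^ k := by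
    intro k
    induction k with
    | zero => simp
    | succ k ih =>
      have h2 : a * d ^ k * a⁻¹ = d ^ k := by
        have : Commute a (d ^ k) := (show Commute a d from hdc).pow_right k
        rw [this.eq, mul_inv_cancel_right]
      calc a ^ (k + 1) * x * (a ^ (k + 1))⁻¹ = a * (a ^ k * x * (a ^ k)⁻¹) * a⁻¹ := by
            rw [pow_succ']; group
        _ = (a * x * a⁻¹) * (a * d ^ k * a⁻¹) := by rw [ih]; group
        _ = x * d ^ (k + 1) := by rw [hx, h2, pow_succ', mul_assoc]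
  have h2 := h1 (orderOf a)
  rw [pow_orderOf_eq_one, one_mul, inv_one, mul_one] at h2
  have h3 : d ^ orderOf a = 1 := mul_left_cancel (a := x) (by rw [mul_one]; exact h2.symm)
  have h4 : orderOf d ∣ orderOf a := orderOf_dvd_of_pow_eq_one h3
  have h5 : orderOf a ∣ Nat.card P := by
    rw [← Subgroup.orderOf_mk a ha]; exact orderOf_dvd_natCard _
  have h6 : orderOf d ∣ Nat.card R := by
    rw [← Subgroup.orderOf_mk d hd]; exact orderOf_dvd_natCard _
  have h7 := Nat.eq_one_of_dvd_coprimes h.cop (h4.trans h5) h6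
  exact orderOf_eq_one_iff.mp h7

theorem proper_le (h : MinAct P R r) {S : Subgroup G} (hS : S ≤ R) (hn : P ≤ normalizer (S : Set G)) (hne : S ≠ R) :
    P ≤ centralizer (S : Set G) := by
  by_contra hcon
  exact hne (h.min S hS hn hcon)

/-- `[R, P] = R` -/
theorem commutator_eq [Finite G] (h : MinAct P R r) : ⁅R, P⁆ = R := by
  by_contra hne
  have h1 : ⁅R, P⁆ ≤ R := H1.Coprime2.commutator_le_left h.norm
  have h2 : P ≤ normalizer ((⁅R, P⁆ : Subgroup G) : Set G) :=
    H1.Coprime2.le_normalizer_commutator h.norm Subgroup.le_normalizer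
  have h3 := h.proper_le h1 h2 hne
  apply h.nc
  intro a ha
  rw [mem_centralizer_iff]
  intro x hx
  have h4 : ⁅x⁻¹, a⁆ ∈ ⁅R, P⁆ := commutator_mem_commutator (inv_mem hx) ha
  have h5 := mem_centralizer_iff.mp (h3 ha) _ h4
  have h6 := h.eq_one_of (x := x) ha (h1 h4) h5.symm (by rw [commutatorElement_def]; group)
  rw [commutatorElement_def] at h6
  have h7 : x⁻¹ * a * x = a := by
    have := mul_inv_eq_one.mp h6
    simpa using this
  calc x * a = x * (x⁻¹ * a * x) := by rw [h7]
    _ = a * x := by group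

/-- the derived subgroup is centralized -/
theorem derived_le [Finite G] (h : MinAct P R r) : P ≤ centralizer ((⁅R, R⁆ : Subgroup G) : Set G) := by
  haveI : Fact r.Prime := ⟨h.pr⟩
  apply h.proper_le (H1.Coprime2.commutator_le_left Subgroup.le_normalizer)
    (H1.Coprime2.le_normalizer_commutator h.norm h.norm)
  intro heq
  -- `R` is solvable and nontrivial
  have hne : R ≠ ⊥ := by
    rintro rfl
    apply h.nc
    intro a _
    rw [mem_centralizer_iff]
    intro t ht
    rw [SetLike.mem_coe, mem_bot] at ht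
    rw [ht, one_mul, mul_one]
  have hlt := H1.Coprime2.commutator_lt_of_isPGroup h.grp h.grp Subgroup.le_normalizer hne
  exact hlt.ne heq

/-- the fixed points are central -/
theorem cent [Finite G] (h : MinAct P R r) : R ⊓ centralizer (P : Set G) ≤ centralizer (R : Set G) := by
  set D := R ⊓ centralizer (P : Set G) with hD
  have h1 : ⁅⁅P, D⁆, R⁆ = ⊥ := by
    have : ⁅P, D⁆ = ⊥ := by
      rw [commutator_eq_bot_iff_le_centralizer, le_centralizer_iff]
      exact inf_le_right
    rw [this, commutator_bot_left]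
  have h2 : ⁅⁅D, R⁆, P⁆ = ⊥ := by
    rw [commutator_eq_bot_iff_le_centralizer, le_centralizer_iff]
    exact h.derived_le.trans (centralizer_le (commutator_mono inf_le_left le_rfl))
  have h3 := commutator_commutator_eq_bot_of_rotate h1 h2
  rw [h.commutator_eq, commutator_eq_bot_iff_le_centralizer, le_centralizer_iff] at h3
  exact h3

theorem comm_mem [Finite G] (h : MinAct P R r) {x y : G} (hx : x ∈ R) (hy : y ∈ R) :
    ⁅x, y⁆ ∈ R ⊓ centralizer (P : Set G) := by
  have h1 : ⁅x, y⁆ ∈ ⁅R, R⁆ := commutator_mem_commutator hx hy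
  exact Subgroup.mem_inf.mpr ⟨H1.Coprime2.commutator_le_left Subgroup.le_normalizer h1,
    (le_centralizer_iff.mp h.derived_le) h1⟩

/-- semiregularity -/
theorem eq_of_mem [Finite G] (h : MinAct P R r) (hfix : ∀ a ∈ P, a ≠ 1 → ∀ x ∈ R, a * x = x * a →
    x ∈ centralizer (P : Set G)) {x : G} (hx : x ∈ R) (hxD : x ∉ centralizer (P : Set G)) {a b : G} (ha : a ∈ P)
    (hb : b ∈ P) (hab : (a * x * a⁻¹)⁻¹ * (b * x * b⁻¹) ∈ R ⊓ centralizer (P : Set G)) : a = b := by
  by_contra hne
  have hc : a⁻¹ * b ∈ P := mul_mem (inv_mem ha) hb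
  have hc1 : a⁻¹ * b ≠ 1 := fun hh => hne (inv_mul_eq_one.mp hh)
  obtain ⟨hdR, hdC⟩ := Subgroup.mem_inf.mp hab
  set d := (a * x * a⁻¹)⁻¹ * (b * x * b⁻¹) with hd
  have hda : a⁻¹ * d * a = d := by
    have := mem_centralizer_iff.mp hdC a ha
    rw [mul_assoc, ← this]; group
  have hdc : (a⁻¹ * b) * d = d * (a⁻¹ * b) := mem_centralizer_iff.mp hdC _ hc
  have h1 : (a⁻¹ * b) * x * (a⁻¹ * b)⁻¹ = x * d := by
    rw [← hda, hd]; group
  have h2 := h.eq_one_of hc hdR hdc h1
  rw [h2, mul_one] at h1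
  apply hxD
  apply hfix _ hc hc1 x hx
  exact mul_inv_eq_iff_eq_mul.mp h1

theorem card_lt [Finite G] (h : MinAct P R r) (hfix : ∀ a ∈ P, a ≠ 1 → ∀ x ∈ R, a * x = x * a →
    x ∈ centralizer (P : Set G)) : Nat.card P < (R ⊓ centralizer (P : Set G)).relIndex R := by
  classical
  set D := R ⊓ centralizer (P : Set G) with hD
  obtain ⟨x, hx, hxD⟩ : ∃ x ∈ R, x ∉ centralizer (P : Set G) := by
    by_contra hcon
    push Not at hcon
    exact h.nc (le_centralizer_iff.mp hcon)
  have hconj : ∀ a : P, (a : G) * x * (a : G)⁻¹ ∈ R := fun a =>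
    (mem_normalizer_iff.mp (h.norm a.2) x).mp hx
  let f : Option P → R ⧸ D.subgroupOf R := fun o => o.elim (QuotientGroup.mk 1)
    (fun a => QuotientGroup.mk ⟨_, hconj a⟩)
  have hf : Function.Injective f := by
    have key : ∀ a : P, f none ≠ f (some a) := by
      intro a hh
      have h1 : (1 : R)⁻¹ * ⟨_, hconj a⟩ ∈ D.subgroupOf R := QuotientGroup.eq.mp hh
      rw [inv_one, one_mul, mem_subgroupOf] at h1
      apply hxD
      have h2 := (Subgroup.mem_inf.mp h1).2
      have h3 := mem_centralizer_iff.mp h2 a a.2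
      have h4 : (a : G) * x * (a : G)⁻¹ = x := by
        have : (a : G) * ((a : G) * x * (a : G)⁻¹) = (a : G) * x := by rw [h3]; simp
        exact mul_left_cancel this
      have h5 : (a : G) * x * (a : G)⁻¹ ∈ centralizer (P : Set G) := h2
      rwa [h4] at h5
    intro o₁ o₂ ho
    rcases o₁ with _ | a <;> rcases o₂ with _ | b
    · rfl
    · exact absurd ho (key b)
    · exact absurd ho.symm (key a)
    · congr 1
      apply Subtype.ext
      have h1 : (⟨_, hconj a⟩ : R)⁻¹ * ⟨_, hconj b⟩ ∈ D.subgroupOf R := QuotientGroup.eq.mp ho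
      exact h.eq_of_mem hfix hx hxD a.2 b.2 h1
  have h1 := Nat.card_le_card_of_injective f hf
  rw [Finite.card_option] at h1
  exact h1

open AbIdem in
/-- the nonabelian case -/
theorem case_nonab [Finite G] (h : MinAct P R r) (hfix : ∀ a ∈ P, a ≠ 1 → ∀ x ∈ R, a * x = x * a →
    x ∈ centralizer (P : Set G)) {n : ℕ} (ρ : Representation ℂ G (Fin n → ℂ))
    (hfaith : ∀ g, ρ.character g = ρ.character 1 → g = 1) {x₀ y₀ : G} (hx₀ : x₀ ∈ R) (hy₀ : y₀ ∈ R)
    (hne : ⁅x₀, y₀⁆ ≠ 1) : Nat.card P < n ^ 2 := by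
  classical
  set D := R ⊓ centralizer (P : Set G) with hD
  have hDR : ∀ d ∈ D, ∀ y ∈ R, d * y = y * d := fun d hd y hy =>
    (mem_centralizer_iff.mp (h.cent hd) y hy).symm
  letI : CommGroup D := { (inferInstance : Group D) with
    mul_comm := fun a b => Subtype.ext (hDR a a.2 b (Subgroup.mem_inf.mp b.2).1) }
  let ρD : D →* Module.End ℂ (Fin n → ℂ) := ρ.comp D.subtype
  set z : D := ⟨⁅x₀, y₀⁆, h.comm_mem hx₀ hy₀⟩ with hz
  have hz1 : LinearMap.trace ℂ (Fin n → ℂ) (ρD z) ≠ LinearMap.trace ℂ (Fin n → ℂ) 1 := by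
    intro hh
    apply hne
    apply hfaith
    rw [Representation.character, Representation.character, map_one]
    exact hh
  obtain ⟨μ, hμz, hμe⟩ := exists_char ρD z hz1
  set E := e ρD μ with hE
  let m : G → ℂˣ := fun g => if hg : g ∈ D then μ ⟨g, hg⟩ else 1
  have hm : ∀ (g : G) (hg : g ∈ D), m g = μ ⟨g, hg⟩ := fun g hg => dif_pos hg
  have hmE : ∀ g ∈ D, ρ g * E = (m g : ℂ) • E := by
    intro g hg
    rw [hm g hg]
    exact mul_e ρD μ ⟨g, hg⟩
  have hRE : ∀ y ∈ R, ρ y * E = E * ρ y := by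
    intro y hy
    rw [hE, e_mul ρD μ (ρ y)]
    intro a
    change ρ a * ρ y = ρ y * ρ a
    rw [← map_mul, ← map_mul, hDR a a.2 y hy]
  -- the radical
  have hcm : ∀ x ∈ R, ∀ y ∈ R, ⁅x, y⁆ ∈ D := fun x hx y hy => h.comm_mem hx hy
  have hrad : ∀ x ∈ R, x ∉ centralizer (P : Set G) → ∃ y ∈ R, m ⁅y, x⁆ ≠ 1 := by
    have hmulc : ∀ x ∈ R, ∀ x' ∈ R, ∀ y ∈ R, m ⁅x * x', y⁆ = m ⁅x', y⁆ * m ⁅x, y⁆ := by
      intro x hx x' hx' y hy
      have h1 : ⁅x * x', y⁆ = ⁅x', y⁆ * ⁅x, y⁆ := by
        rw [H1.Coprime2.commutatorElement_mul_left, ← hDR _ (hcm x' hx' y hy) x hx, mul_inv_cancel_right]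
      rw [hm _ (hcm _ (mul_mem hx hx') y hy), hm _ (hcm x' hx' y hy), hm _ (hcm x hx y hy), ← map_mul]
      congr 1
      exact Subtype.ext h1
    have hm1 : m 1 = 1 := by rw [hm 1 (one_mem _)]; exact map_one μ
    let S : Subgroup G :=
      { carrier := {x | x ∈ R ∧ ∀ y ∈ R, m ⁅x, y⁆ = 1}
        one_mem' := ⟨one_mem _, fun y _ => by rw [commutatorElement_one_left, hm1]⟩
        mul_mem' := by
          rintro a b ⟨ha, ha'⟩ ⟨hb, hb'⟩
          refine ⟨mul_mem ha hb, fun y hy => ?_⟩
          rw [hmulc a ha b hb y hy, ha' y hy, hb' y hy, one_mul]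
        inv_mem' := by
          rintro a ⟨ha, ha'⟩
          refine ⟨inv_mem ha, fun y hy => ?_⟩
          have h1 := hmulc a ha a⁻¹ (inv_mem ha) y hy
          rw [mul_inv_cancel, commutatorElement_one_left, hm1, ha' y hy, mul_one] at h1
          exact h1.symm }
    have hSR : S ≤ R := fun x hx => hx.1
    have hSn : P ≤ normalizer (S : Set G) := by
      have key : ∀ a ∈ P, ∀ x ∈ S, a * x * a⁻¹ ∈ S := by
        rintro a ha x ⟨hx, hx'⟩
        refine ⟨(mem_normalizer_iff.mp (h.norm ha) x).mp hx, fun y hy => ?_⟩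
        have hy' : a⁻¹ * y * a ∈ R := by
          have := (mem_normalizer_iff.mp (h.norm (inv_mem ha)) y).mp hy
          simpa using this
        have h1 : ⁅a * x * a⁻¹, y⁆ = ⁅x, a⁻¹ * y * a⁆ := by
          have h2 := hcm x hx _ hy'
          have h3 := mem_centralizer_iff.mp (Subgroup.mem_inf.mp h2).2 a ha
          calc ⁅a * x * a⁻¹, y⁆ = a * ⁅x, a⁻¹ * y * a⁆ * a⁻¹ := by
                simp only [commutatorElement_def]; group
            _ = _ := by rw [h3, mul_inv_cancel_right]
        rw [h1]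
        exact hx' _ hy'
      intro a ha
      rw [mem_normalizer_iff]
      intro x
      refine ⟨key a ha x, fun hx => ?_⟩
      have := key a⁻¹ (inv_mem ha) _ hx
      have h1 : a⁻¹ * (a * x * a⁻¹) * a⁻¹⁻¹ = x := by group
      rwa [h1] at this
    have hSne : S ≠ R := by
      intro heq
      have : x₀ ∈ S := by rw [heq]; exact hx₀
      apply hμz
      have h1 := this.2 y₀ hy₀
      rwa [hm _ (hcm x₀ hx₀ y₀ hy₀)] at h1
    have hSc := h.proper_le hSR hSn hSne
    intro x hx hxc
    by_contra hcon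
    push Not at hcon
    apply hxc
    apply (le_centralizer_iff.mp hSc)
    refine ⟨hx, fun y hy => ?_⟩
    have h1 := hcon y hy
    have h2 : m ⁅x, y⁆ * m ⁅y, x⁆ = 1 := by
      rw [hm _ (hcm x hx y hy), hm _ (hcm y hy x hx), ← map_mul]
      have : (⟨⁅x, y⁆, hcm x hx y hy⟩ : D) * ⟨⁅y, x⁆, hcm y hy x hx⟩ = 1 := by
        apply Subtype.ext
        change ⁅x, y⁆ * ⁅y, x⁆ = 1
        rw [← commutatorElement_inv, inv_mul_cancel]
      rw [this, map_one]
    rwa [h1, mul_one] at h2
  -- traces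
  have htr : ∀ x ∈ R, x ∉ D → LinearMap.trace ℂ (Fin n → ℂ) (ρ x * E) = 0 := by
    intro x hx hxD
    obtain ⟨y, hy, hyx⟩ := hrad x hx (fun hh => hxD (Subgroup.mem_inf.mpr ⟨hx, hh⟩))
    have h1 : LinearMap.trace ℂ (Fin n → ℂ) (ρ x * E) = (m ⁅y, x⁆ : ℂ) * LinearMap.trace ℂ (Fin n → ℂ) (ρ x * E) := by
      calc LinearMap.trace ℂ (Fin n → ℂ) (ρ x * E)
          = LinearMap.trace ℂ (Fin n → ℂ) ((ρ x * E) * (ρ y⁻¹ * ρ y)) := by
            rw [← map_mul, inv_mul_cancel, map_one, mul_one]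
        _ = LinearMap.trace ℂ (Fin n → ℂ) (ρ y * (ρ x * E * ρ y⁻¹)) := by
            rw [← mul_assoc, LinearMap.trace_mul_comm]
        _ = LinearMap.trace ℂ (Fin n → ℂ) (ρ (⁅y, x⁆ * x) * E) := by
            congr 1
            rw [mul_assoc (ρ x), ← hRE _ (inv_mem hy), ← mul_assoc, ← mul_assoc, ← map_mul, ← map_mul]
            congr 2
            rw [commutatorElement_def]; group
        _ = LinearMap.trace ℂ (Fin n → ℂ) (ρ ⁅y, x⁆ * E * ρ x) := by
            rw [map_mul ρ, mul_assoc, mul_assoc, hRE x hx]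
        _ = _ := by
            rw [hmE _ (hcm y hy x hx), smul_mul_assoc, map_smul, smul_eq_mul, hRE x hx]
    have h2 : ((m ⁅y, x⁆ : ℂ) - 1) * LinearMap.trace ℂ (Fin n → ℂ) (ρ x * E) = 0 := by
      rw [sub_mul, one_mul, ← h1, sub_self]
    rcases mul_eq_zero.mp h2 with h3 | h3
    · exfalso
      apply hyx
      apply Units.ext
      rw [Units.val_one]
      exact sub_eq_zero.mp h3
    · exact h3
  -- independence
  have hli : LinearIndependent ℂ (fun q : R ⧸ D.subgroupOf R => ρ (q.out : R) * E) := by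
    rw [linearIndependent_iff']
    intro s g hg i hi
    have h1 : LinearMap.trace ℂ (Fin n → ℂ) (ρ ((i.out : R) : G)⁻¹ * ∑ q ∈ s, g q • (ρ ((q.out : R) : G) * E)) = 0 := by
      rw [hg, mul_zero, map_zero]
    rw [Finset.mul_sum, map_sum, Finset.sum_eq_single i] at h1
    · rw [mul_smul_comm, ← mul_assoc, ← map_mul, inv_mul_cancel, map_one, one_mul, map_smul, smul_eq_mul] at h1
      exact (mul_eq_zero.mp h1).resolve_right hμe
    · intro q _ hq
      rw [mul_smul_comm, ← mul_assoc, ← map_mul, map_smul]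
      rw [htr _ (mul_mem (inv_mem (i.out : R).2) (q.out : R).2), smul_zero]
      intro hmem
      apply hq
      have h2 : (i.out : R)⁻¹ * (q.out : R) ∈ D.subgroupOf R := by
        rw [mem_subgroupOf]; exact hmem
      have h3 : (QuotientGroup.mk (i.out : R) : R ⧸ D.subgroupOf R) = QuotientGroup.mk (q.out : R) := QuotientGroup.eq.mpr h2
      rw [QuotientGroup.out_eq', QuotientGroup.out_eq'] at h3
      exact h3.symm
    · intro hh; exact absurd hi hh
  haveI : Fintype (R ⧸ D.subgroupOf R) := Fintype.ofFinite _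
  have h1 := hli.fintype_card_le_finrank
  rw [Module.finrank_linearMap, Module.finrank_fin_fun, ← Nat.card_eq_fintype_card] at h1
  have h2 := h.card_lt hfix
  rw [relIndex, index] at h2
  rw [sq]
  exact lt_of_lt_of_le h2 h1

open AbIdem in
/-- the abelian case -/
theorem case_ab [Finite G] (h : MinAct P R r) (hfix : ∀ a ∈ P, a ≠ 1 → ∀ x ∈ R, a * x = x * a →
    x ∈ centralizer (P : Set G)) {n : ℕ} (ρ : Representation ℂ G (Fin n → ℂ))
    (hfaith : ∀ g, ρ.character g = ρ.character 1 → g = 1) (hab : ∀ x ∈ R, ∀ y ∈ R, x * y = y * x) :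
    Nat.card P ≤ n := by
  classical
  haveI := Fintype.ofFinite P
  letI : CommGroup R := { (inferInstance : Group R) with
    mul_comm := fun a b => Subtype.ext (hab a a.2 b b.2) }
  have hcj : ∀ a ∈ P, ∀ x ∈ R, a * x * a⁻¹ ∈ R := fun a ha x hx =>
    (mem_normalizer_iff.mp (h.norm ha) x).mp hx
  let cj : P → R →* R := fun a =>
    { toFun := fun x => ⟨a * x * (a : G)⁻¹, hcj a a.2 x x.2⟩
      map_one' := by apply Subtype.ext; change (a : G) * 1 * (a : G)⁻¹ = 1; group
      map_mul' := fun x y => by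
        apply Subtype.ext
        change (a : G) * (x * y) * (a : G)⁻¹ = (a * x * (a : G)⁻¹) * (a * y * (a : G)⁻¹)
        group }
  have hcjv : ∀ (a : P) (x : R), ((cj a x : R) : G) = a * x * (a : G)⁻¹ := fun a x => rfl
  let N : R →* R := ∏ a : P, cj a
  have hN : ∀ x, N x = ∏ a : P, cj a x := fun x => by
    simp only [N, MonoidHom.finsetProd_apply]
  have hNc : ∀ (b : P) (x : R), N (cj b x) = N x := by
    intro b x
    rw [hN, hN]
    conv_rhs => rw [← Equiv.prod_comp (Equiv.mulRight b)]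
    apply Finset.prod_congr rfl
    intro a _
    apply Subtype.ext
    rw [hcjv, hcjv, hcjv, Equiv.coe_mulRight, Subgroup.coe_mul]
    group
  have hNtriv : ∀ x : R, N x = 1 := by
    have h1 : R ≤ N.ker.map R.subtype := by
      conv_lhs => rw [← h.commutator_eq]
      rw [commutator_le]
      intro x hx a ha
      refine ⟨⟨x, hx⟩ * (cj ⟨a, ha⟩ ⟨x, hx⟩)⁻¹, ?_, ?_⟩
      · rw [SetLike.mem_coe, MonoidHom.mem_ker, map_mul, map_inv, hNc, mul_inv_cancel]
      · change x * (a * x * a⁻¹)⁻¹ = _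
        rw [commutatorElement_def]; group
    intro x
    obtain ⟨y, hy, hyx⟩ := h1 x.2
    have : y = x := Subtype.ext hyx
    rw [← this]; exact hy
  have hD : ∀ d ∈ R, d ∈ centralizer (P : Set G) → d = 1 := by
    intro d hd hdc
    have h1 := hNtriv ⟨d, hd⟩
    have h2 : ∀ a : P, cj a ⟨d, hd⟩ = ⟨d, hd⟩ := by
      intro a
      apply Subtype.ext
      rw [hcjv]
      rw [mem_centralizer_iff.mp hdc a a.2, mul_inv_cancel_right]
    rw [hN] at h1
    simp_rw [h2] at h1
    rw [Finset.prod_const, Finset.card_univ, ← Nat.card_eq_fintype_card] at h1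
    have h3 : orderOf (⟨d, hd⟩ : R) ∣ Nat.card P := orderOf_dvd_of_pow_eq_one h1
    have h4 : orderOf (⟨d, hd⟩ : R) ∣ Nat.card R := orderOf_dvd_natCard _
    have h5 := Nat.eq_one_of_dvd_coprimes h.cop h3 h4
    exact congrArg Subtype.val (orderOf_eq_one_iff.mp h5)
  -- a nontrivial character
  obtain ⟨z, hz1⟩ : ∃ z : R, z ≠ 1 := by
    by_contra hcon
    push Not at hcon
    apply h.nc
    intro a _
    rw [mem_centralizer_iff]
    intro t ht
    have : t = 1 := congrArg Subtype.val (hcon ⟨t, ht⟩)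
    rw [this, one_mul, mul_one]
  let ρR : R →* Module.End ℂ (Fin n → ℂ) := ρ.comp R.subtype
  have hztr : LinearMap.trace ℂ (Fin n → ℂ) (ρR z) ≠ LinearMap.trace ℂ (Fin n → ℂ) 1 := by
    intro hh
    apply hz1
    apply Subtype.ext
    apply hfaith
    rw [Representation.character, Representation.character, map_one]
    exact hh
  obtain ⟨μ, hμz, hμe⟩ := exists_char ρR z hztr
  obtain ⟨w, hw⟩ : ∃ w, e ρR μ w ≠ 0 := by
    by_contra hcon
    push Not at hcon
    apply hμe
    have : e ρR μ = 0 := LinearMap.ext hcon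
    rw [this, map_zero]
  set v := e ρR μ w with hv
  have hve : ∀ x : R, ρR x v = (μ x : ℂ) • v := by
    intro x
    have := mul_e ρR μ x
    rw [hv, ← Module.End.mul_apply, this, LinearMap.smul_apply]
  have hli : LinearIndependent ℂ (fun a : P => ρ (a : G) v) := by
    apply linearIndependent ρR (fun a => μ.comp (cj a⁻¹))
    · intro a b hab'
      by_contra hne
      have hc1 : (a⁻¹ * b : P) ≠ 1 := fun hh => hne (inv_mul_eq_one.mp hh)
      -- `x ↦ [c, x]` is onto
      set c := (b⁻¹ * a : P) with hc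
      have hc1 : c ≠ 1 := fun hh => hne (inv_mul_eq_one.mp hh).symm
      have hμc : ∀ x : R, μ (cj c x) = μ x := by
        intro x
        have h1 := DFunLike.congr_fun hab' (cj a x)
        simp only [MonoidHom.comp_apply] at h1
        have h2 : cj a⁻¹ (cj a x) = x := by
          apply Subtype.ext; rw [hcjv, hcjv, Subgroup.coe_inv]; group
        have h3 : cj b⁻¹ (cj a x) = cj c x := by
          apply Subtype.ext; rw [hcjv, hcjv, hcjv, hc, Subgroup.coe_mul, Subgroup.coe_inv]; group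
        rw [h2, h3] at h1
        exact h1.symm
      let φ : R →* R := cj c / MonoidHom.id R
      have hφ : ∀ x, φ x = cj c x / x := fun x => rfl
      have hφi : Function.Injective φ := by
        rw [injective_iff_map_eq_one]
        intro x hx
        rw [hφ, div_eq_one] at hx
        apply Subtype.ext
        apply hD x x.2
        apply hfix c c.2 (fun hh => hc1 (Subtype.ext hh)) x x.2
        have := congrArg Subtype.val hx
        rw [hcjv] at this
        exact mul_inv_eq_iff_eq_mul.mp this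
      have hφs : Function.Surjective φ := Finite.surjective_of_injective hφi
      apply hμz
      obtain ⟨x, hx⟩ := hφs z
      rw [← hx, hφ, map_div, hμc, div_self']
    · intro a ha
      apply hw
      have h1 : ρ (a : G)⁻¹ (ρ (a : G) v) = 0 := by rw [ha, map_zero]
      rw [← Module.End.mul_apply, ← map_mul, inv_mul_cancel, map_one] at h1
      exact h1
    · intro a x
      have h1 : (x : G) * a = a * (cj a⁻¹ x : R) := by
        rw [hcjv, Subgroup.coe_inv]; group
      change ρ (x : G) (ρ (a : G) v) = _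
      rw [← Module.End.mul_apply, ← map_mul, h1, map_mul, Module.End.mul_apply]
      have h2 := hve (cj a⁻¹ x)
      change ρ ((cj a⁻¹ x : R) : G) v = _ at h2
      rw [h2, map_smul]
      rfl
  have h1 := hli.fintype_card_le_finrank
  rw [Module.finrank_fin_fun, ← Nat.card_eq_fintype_card] at h1
  exact h1

/-- the numerical conclusion -/
theorem not_sq_le [Finite G] (h : MinAct P R r) (hfix : ∀ a ∈ P, a ≠ 1 → ∀ x ∈ R, a * x = x * a →
    x ∈ centralizer (P : Set G)) {n : ℕ} (ρ : Representation ℂ G (Fin n → ℂ))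
    (hfaith : ∀ g, ρ.character g = ρ.character 1 → g = 1) : ¬ n ^ 2 ≤ Nat.card P := by
  intro hle
  by_cases hab : ∀ x ∈ R, ∀ y ∈ R, ⁅x, y⁆ = 1
  · have h1 := h.case_ab hfix ρ hfaith (fun x hx y hy => commutatorElement_eq_one_iff_mul_comm.mp (hab x hx y hy))
    have h2 : n ≤ 1 := by
      by_contra hcon
      push Not at hcon
      have : n * 2 ≤ n ^ 2 := by rw [sq]; exact Nat.mul_le_mul_left n hcon
      omega
    have h3 : Nat.card P ≤ 1 := h1.trans h2
    have h4 : P = ⊥ := by
      rw [← Subgroup.card_le_one_iff_eq_bot]; exact h3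
    apply h.nc
    rw [h4]; exact bot_le
  · push Not at hab
    obtain ⟨x, hx, y, hy, hxy⟩ := hab
    exact absurd hle (not_le.mpr (h.case_nonab hfix ρ hfaith hx hy hxy))

end MinAct

end H70.TISyl
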